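import Cfsg.Agent.Lib.R3S.Def

/-! S2195: large subgroups of a Heisenberg group contain the centre. -/

set_option autoImplicit false

namespace Cfsg.Lib.R3S

open Cfsg.Lib.Symp Module Submodule MulAction

theorem card_le_of_iso {F : Type*} [Field F] [Finite F] (h2 : (2 : F) ≠ 0) (K : AddSubgroup F) (hK : K ≠ ⊤)
    (E : AddSubgroup (F × F)) (h : ∀ a ∈ E, ∀ b ∈ E, 2 * (a.1 * b.2 - a.2 * b.1) ∈ K) :
    Nat.card E ≤ Nat.card F := by
  have : Fact (ringChar F).Prime := ⟨CharP.char_is_prime F _⟩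
  let _ := ZMod.algebra F (ringChar F)
  obtain ⟨f, f0, hf⟩ := Submodule.exists_le_ker_of_lt_top (AddSubgroup.toZModSubmodule (ringChar F) K)
    (lt_top_iff_ne_top.2 fun e => hK (top_le_iff.1 fun x _ => e.ge (Submodule.mem_top (x := x))))
  let ω : LinearMap.BilinForm (ZMod (ringChar F)) (F × F) := LinearMap.mk₂ _
    (fun a b => f (2 * (a.1 * b.2 - a.2 * b.1)))
    (fun a b c => by rw [← map_add]; congr 1; simp only [Prod.fst_add, Prod.snd_add]; ring)
    (fun c a b => by rw [← map_smul]; congr 1; simp only [Prod.smul_fst, Prod.smul_snd]; simp only [Algebra.smul_def]; ring)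
    (fun a b c => by rw [← map_add]; congr 1; simp only [Prod.fst_add, Prod.snd_add]; ring)
    (fun c a b => by rw [← map_smul]; congr 1; simp only [Prod.smul_fst, Prod.smul_snd]; simp only [Algebra.smul_def]; ring)
  have k : ∀ x : F, (∀ y, f (2 * (x * y)) = 0) → x = 0 := fun x hx => by_contra fun n => f0 (LinearMap.ext fun t => by
    have := hx ((2 * x)⁻¹ * t)
    rwa [← mul_assoc, mul_inv_cancel_left₀ (mul_ne_zero h2 n)] at this)
  have nd : ω.Nondegenerate := ⟨fun a ha => Prod.ext (k _ fun y => by simpa [ω] using ha (0, y))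
      (k _ fun y => by simpa [ω] using ha (-y, 0)),
    fun a ha => Prod.ext (k _ fun y => by simpa [ω, mul_comm] using ha (0, -y))
      (k _ fun y => by simpa [ω, mul_comm] using ha (y, 0))⟩
  have l := finrank_mono (show AddSubgroup.toZModSubmodule (ringChar F) E ≤
    ω.orthogonal (AddSubgroup.toZModSubmodule (ringChar F) E) from fun b hb a ha => hf (h a ha b hb))
  rw [LinearMap.BilinForm.finrank_orthogonal nd, Module.finrank_prod] at l
  rw [Module.natCard_eq_pow_finrank (K := ZMod (ringChar F)) (V := F)]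
  refine (Module.natCard_eq_pow_finrank (K := ZMod (ringChar F))
    (V := AddSubgroup.toZModSubmodule (ringChar F) E)).le.trans (Nat.pow_le_pow_right Nat.card_pos (by omega))

/-- Let `D₀ = {c | (c, 0, 0) ∈ D}` and `E` the image of `D` in `F × F`, additive subgroups;
`|D| ≤ |D₀| |E|` (two elements over the same point of `E` differ by an element of `D₀`), and
`2 (x y' - x' y) ∈ D₀` for `(x, y), (x', y') ∈ E` (commutator).  Suppose `D₀ ≠ ⊤`; then `|E| > q`.
Take a non-zero `ZMod p`-linear `λ : F → ZMod p` killing `D₀`; `λ (2 (x y' - x' y))` is a non-degenerate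
alternating form on the `ZMod p`-space `F × F`, for which `E` is totally isotropic, so `|E|² ≤ q²`
(`finrank_orthogonal`). -/
theorem heis {F : Type*} [Field F] [Finite F] (h2 : (2 : F) ≠ 0) (D : Set (F × F × F))
    (h0 : (0, 0, 0) ∈ D)
    (hm : ∀ a ∈ D, ∀ b ∈ D,
      (a.1 + b.1 + (a.2.1 * b.2.2 - a.2.2 * b.2.1), a.2.1 + b.2.1, a.2.2 + b.2.2) ∈ D)
    (hi : ∀ a ∈ D, -a ∈ D) (hc : Nat.card F ^ 2 ≤ D.ncard) (c : F) : (c, 0, 0) ∈ D := by
  let K : AddSubgroup F :=
    { carrier := {c | (c, 0, 0) ∈ D}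
      zero_mem' := h0
      add_mem' := fun a b => by simpa using hm _ a _ b
      neg_mem' := fun a => by simpa using hi _ a }
  let E : AddSubgroup (F × F) :=
    { carrier := {e | ∃ c, (c, e) ∈ D}
      zero_mem' := ⟨0, h0⟩
      add_mem' := fun ⟨_, a⟩ ⟨_, b⟩ => ⟨_, hm _ a _ b⟩
      neg_mem' := fun ⟨_, a⟩ => ⟨_, hi _ a⟩ }
  by_contra n
  have hK : K ≠ ⊤ := fun e => n (e.ge (AddSubgroup.mem_top c))
  have h1 := card_le_of_iso h2 K hK E fun a ⟨c, ha⟩ b ⟨d, hb⟩ => by
    have := hm _ (hm _ ha _ hb) _ (hm _ (hi _ ha) _ (hi _ hb))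
    simp only [Prod.fst_neg, Prod.snd_neg] at this
    change _ ∈ D
    convert this using 2
    · ring
    · ext <;> simp only <;> ring
  have h3 : (K : Set F).ncard < Nat.card F := by
    rw [← Set.ncard_univ]
    exact Set.ncard_lt_ncard (Set.ssubset_univ_iff.2 fun e => hK (SetLike.coe_injective e))
  have : ∀ e : F × F, ∃ c : F, e ∈ E → (c, e) ∈ D := fun e => by
    by_cases h : e ∈ E
    · exact h.imp fun _ a _ => a
    · exact ⟨0, fun a => absurd a h⟩
  choose s hs using this
  have h4 : D.ncard ≤ ((K : Set F) ×ˢ (E : Set (F × F))).ncard := by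
    refine Set.ncard_le_ncard_of_injOn (fun a => (a.1 - s a.2, a.2)) (fun a ha => ⟨?_, ⟨a.1, ha⟩⟩)
      fun a _ b _ e => ?_
    · have := hm _ ha _ (hi _ (hs a.2 ⟨a.1, ha⟩))
      simp only [Prod.fst_neg, Prod.snd_neg] at this
      change _ ∈ D
      convert this using 2
      · ring
      · ext <;> simp
    · obtain ⟨e1, e2⟩ := Prod.mk.inj e
      exact Prod.ext (by rwa [e2, sub_left_inj] at e1) e2
  rw [Set.ncard_prod, ← Nat.card_coe_set_eq (E : Set (F × F))] at h4
  exact (hc.trans h4).not_gt (by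
    rw [pow_two]; exact Nat.mul_lt_mul_of_lt_of_le h3 h1 Nat.card_pos)

end Cfsg.Lib.R3S
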