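import Cfsg.Agent.Lib.R3S.Def

/-! S2195: no transvection fixes a point, but an element of `O_p(P_r)` does. -/

set_option autoImplicit false

namespace Cfsg.Lib.R3S

open Cfsg.Lib.Symp Module Submodule MulAction

variable {F V : Type*} [Field F] [AddCommGroup V] [Module F V] {B : LinearMap.BilinForm F V} {k : ℕ}
  [Finite V] {H : Subgroup (isom B)}

variable {X : Type*} [MulAction (isom B) X] [Finite X]

/-- `Dx r x`: the `w ⊥ r` such that `hs r w` fixes `x`. -/
def Dx (hA : B.IsAlt) (r : V) (x : X) : Set V := {w | B r w = 0 ∧ hs hA r w • x = x}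

/-- Its span together with `r`. -/
def Sx (hA : B.IsAlt) (r : V) (x : X) : Submodule F V := span F (insert r (Dx hA r x))

theorem dbl {α β : Type*} [Finite α] [Finite β] (s : Set α) (t : Set β) (R : α → β → Prop) {m n : ℕ}
    (hm : ∀ a ∈ s, m ≤ {b ∈ t | R a b}.ncard) (hn : ∀ b ∈ t, {a ∈ s | R a b}.ncard ≤ n) :
    s.ncard * m ≤ t.ncard * n := by
  classical
  lift s to Finset α using s.toFinite
  lift t to Finset β using t.toFinite
  rw [Set.ncard_coe_finset, Set.ncard_coe_finset]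
  refine Finset.card_mul_le_card_mul R (fun a ha => (hm a ha).trans_eq ?_) fun b hb => le_of_eq_of_le ?_ (hn b hb)
  · rw [← Set.ncard_coe_finset, Finset.coe_bipartiteAbove]; rfl
  · rw [← Set.ncard_coe_finset, Finset.coe_bipartiteBelow]; rfl

omit [Finite V] in
theorem iso_span {S : Set V} (h : ∀ a ∈ S, ∀ b ∈ S, B a b = 0) : ∀ u ∈ span F S, ∀ v ∈ span F S, B u v = 0 :=
  fun u hu _ hv => (span_le (p := LinearMap.ker (B u))).2
    (fun b hb => (span_le (p := LinearMap.ker (B.flip b))).2 (fun a ha => h a ha b hb) hu) hv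

omit [Finite V] [Finite X] in
theorem r_mem (hA : B.IsAlt) (r : V) (x : X) : r ∈ Sx hA r x := subset_span (Set.mem_insert _ _)

omit [Finite V] [Finite X] in
theorem dx_le (hA : B.IsAlt) {r w : V} {x : X} (h : w ∈ Dx hA r x) : w ∈ Sx hA r x :=
  subset_span (Set.mem_insert_of_mem _ h)

theorem Sy.card_perp (s : Sy B k) {r : V} (hr : r ≠ 0) : {w | B r w = 0}.ncard = Nat.card F ^ (2 * k - 1) := by
  have a := s.finrank_orth (span F {r})
  rw [finrank_span_singleton hr] at a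
  have e : {w | B r w = 0} = (B.orthogonal (span F {r}) : Set V) := by
    ext v
    exact ⟨fun h u hu => by obtain ⟨c, rfl⟩ := mem_span_singleton.1 hu; simp [show B r v = 0 from h],
      fun h => h r (mem_span_singleton_self r)⟩
  rw [e, s.card_sub]; congr 1; omega

omit [Finite V] in
theorem hs_fix (hA : B.IsAlt) {r w : V} (h : B r w = 0) : (hs hA r w).1 r = r := by
  simp [hs_apply hA h, h, hA.self_eq_zero]

omit [Finite V] in
theorem hs_div (hA : B.IsAlt) (h2 : (2 : F) ≠ 0) {r w w' : V} (h : B r w = 0) (h' : B r w' = 0) :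
    hs hA r w * hs hA r w' = hs hA r (w + w' + (B w' w / 2) • r) := by
  rw [hs_mul hA h h', ← hs_tv hA (by simp [h, h']), mul_div_cancel₀ _ h2]

/-- `hs_comm`, then bilinearity. -/
theorem Sy.sx_iso (s : Sy B k) (h : Fpf s.alt X) {r : V} (hr : r ≠ 0) (x : X) :
    ∀ u ∈ Sx s.alt r x, ∀ v ∈ Sx s.alt r x, B u v = 0 := by
  refine iso_span ?_
  rintro a (rfl | ha) b (rfl | hb)
  · exact s.alt.self_eq_zero _
  · exact hb.1
  · rw [skew s.alt, ha.1, neg_zero]
  · refine (mul_eq_zero.1 (h x r _ hr ?_)).resolve_left s.two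
    rw [← hs_comm s.alt hb.1 ha.1, mul_smul, mul_smul, mul_smul, inv_smul_eq_iff.2 ha.2.symm,
      inv_smul_eq_iff.2 hb.2.symm, ha.2, hb.2]

/-- `(w, c) ↦ w + c r` is injective on `Dx × F`: `hs r (w + c r) = hs r w * tv r (2 c)`. -/
theorem Sy.dx_card (s : Sy B k) (h : Fpf s.alt X) {r : V} (hr : r ≠ 0) (x : X) :
    (Dx s.alt r x).ncard * Nat.card F ≤ Nat.card F ^ finrank F (Sx s.alt r x) := by
  rw [← s.card_sub, ← Set.ncard_univ, ← Set.ncard_prod]
  refine Set.ncard_le_ncard_of_injOn (fun p => p.1 + p.2 • r)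
    (fun p hp => add_mem (dx_le _ hp.1) (smul_mem _ _ (r_mem _ _ _))) fun p hp p' hp' e => ?_
  have e' : p'.1 = p.1 + (p.2 - p'.2) • r := by rw [sub_smul, ← add_sub_assoc, show p.1 + p.2 • r = _ from e]; simp
  have a := hp'.1.2
  rw [e', ← hs_tv s.alt hp.1.1, mul_smul, ← hp.1.2, smul_left_cancel_iff, hp.1.2] at a
  have c := (mul_eq_zero.1 (h x r _ hr a)).resolve_left s.two
  exact Prod.ext (by simp [e', c]) (sub_eq_zero.1 c)

omit [Finite V] [Finite X] in
/-- `conj_hs`. -/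
theorem sx_smul (hA : B.IsAlt) {r : V} {g : isom B} (hg : g.1 r = r) (x : X) (w : V) :
    g.1 w ∈ Sx hA r (g • x) ↔ w ∈ Sx hA r x := by
  have key : ∀ {g : isom B}, g.1 r = r → ∀ (x : X) w, w ∈ Sx hA r x → g.1 w ∈ Sx hA r (g • x) :=
    fun {g} hg x w hw => (span_le (p := (Sx hA r (g • x)).comap g.1.toLinearMap)).2 (by
      rintro a (rfl | ha)
      · change g.1 a ∈ Sx hA a (g • x)
        rw [hg]; exact r_mem _ _ _
      · refine dx_le hA ⟨by rw [← hg]; exact (isom_apply g r a).trans ha.1, ?_⟩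
        have := conj_hs hA g r a
        rw [hg] at this
        exact (this ▸ by rw [mul_smul, mul_smul, inv_smul_smul, ha.2] : hs hA r (g.1 a) • g • x = g • x)) hw
  refine ⟨fun h => ?_, key hg x w⟩
  simpa only [inv_app, inv_smul_smul] using key (g := g⁻¹) (by rw [← hg, inv_app, hg]) _ _ h

/-- The map `w ↦ hs r w • x` on `r^⊥` (`q^(2k-1)` vectors) has fibres of size `|Dx|`
(`hs r w • x = hs r w' • x` gives `w' - w + c r ∈ Dx`, `2 c = B(w', -w)`), and
`Sx (hs r w • x) = Sx x` (`sx_smul`; `hs r w` moves `u ⊥ r` by a multiple of `r`). -/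
theorem Sy.sx_orbit (s : Sy B k) (h : Fpf s.alt X) {r : V} (hr : r ≠ 0) (x : X) :
    Nat.card F ^ (2 * k - 1) ≤
      {y : X | Sx s.alt r y = Sx s.alt r x}.ncard * (Dx s.alt r x).ncard := by
  have l : ∀ w, B r w = 0 → ∀ y : X, Sx s.alt r y ≤ Sx s.alt r (hs s.alt r w • y) := fun w hw y u hu => by
    have := (sx_smul s.alt (hs_fix s.alt hw) y u).2 hu
    rw [hs_apply s.alt hw, s.sx_iso h hr y u hu r (r_mem _ _ _), zero_smul, add_zero] at this
    exact (add_mem_cancel_right (smul_mem _ _ (r_mem _ _ _))).1 this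
  rw [← s.card_perp hr, ← mul_one (Set.ncard _)]
  refine dbl _ _ (fun w y => hs s.alt r w • x = y) (fun w hw => (Set.ncard_pos).2 ⟨_, le_antisymm ?_ (l w hw x), rfl⟩)
    fun y _ => ?_
  · have := l (-w) (by simp [show B r w = 0 from hw]) (hs s.alt r w • x)
    rwa [← hs_inv s.alt hw, inv_smul_smul] at this
  rcases Set.eq_empty_or_nonempty {a ∈ {w | B r w = 0} | hs s.alt r a • x = y} with e | ⟨σ, h1, h2⟩
  · rw [e]; simp
  have h1' : B r (-σ) = 0 := by simp [show B r σ = 0 from h1]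
  refine Set.ncard_le_ncard_of_injOn (fun w => -σ + w + (B w (-σ) / 2) • r) (fun w hw => ⟨?_, ?_⟩)
    fun w hw w' hw' e => ?_
  · simp [show B r σ = 0 from h1, show B r w = 0 from hw.1, s.alt.self_eq_zero]
  · rw [← hs_div s.alt s.two h1' hw.1, mul_smul, hw.2, ← hs_inv s.alt h1, ← h2, inv_smul_smul]
  · have := congrArg (B · (-σ)) e
    simp only [map_add, map_smul, LinearMap.add_apply, LinearMap.smul_apply, h1', smul_zero, add_zero,
      add_right_inj] at this
    simpa [this] using e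

theorem Sy.sx_ge (s : Sy B k) (h : Fpf s.alt X) {r : V} (hr : r ≠ 0) (x : X) {d e : ℕ}
    (h1 : finrank F (Sx s.alt r x) ≤ d) (h2 : e + d ≤ 2 * k) :
    Nat.card F ^ e ≤ {y : X | Sx s.alt r y = Sx s.alt r x}.ncard := by
  have q := s.three_le
  have k3 := s.k3
  have a := Nat.mul_le_mul_right (Nat.card F) (s.sx_orbit h hr x)
  rw [← pow_succ, mul_assoc] at a
  refine Nat.le_of_mul_le_mul_right ?_ (pow_pos (by omega : 0 < Nat.card F) d)
  rw [← pow_add]
  exact (Nat.pow_le_pow_right (by omega) (by omega)).trans (a.trans (Nat.mul_le_mul_left _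
    ((s.dx_card h hr x).trans (Nat.pow_le_pow_right (by omega) h1))))

/-- If `Sx = ⟨r, w⟩` then `|Dx| ≤ q` and `sx_orbit` gives `q^(2k-2) ≥ q^(k+1)` points.  Otherwise take
`z ∈ Sx \ ⟨r, w⟩` and `u ⊥ r, w` with `B(z, u) ≠ 0` (`dperp`); `u ∉ Sx`, so the `q` subspaces
`Sx (tv u a • x) = tv u a (Sx x) ∋ w` are different, and each belongs to at least
`q^(2k-1) / q^(k-1)` points (`iso_le`, `dx_card`, `sx_orbit`). -/
theorem Sy.sx_many (s : Sy B k) (h : Fpf s.alt X) {r w : V} (hr : r ≠ 0) {x : X}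
    (hw : w ∈ Sx s.alt r x) (hw' : w ∉ span F {r}) :
    Nat.card F ^ (k + 1) ≤ {y : X | w ∈ Sx s.alt r y}.ncard := by
  have k3 := s.k3
  have := s.fin
  by_cases c : Sx s.alt r x ≤ span F {r, w}
  · refine (s.sx_ge h hr x (d := 2) ((finrank_mono c).trans ?_) (by omega)).trans
      (Set.ncard_le_ncard fun y (hy : _ = _) => hy.ge hw)
    classical
    exact (finrank_span_le_card _).trans (by simpa using Finset.card_le_two)
  obtain ⟨z, hz, n⟩ := SetLike.not_le_iff_exists.1 c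
  obtain ⟨u, h1, h2⟩ : ∃ u, (∀ v ∈ span F {r, w}, B v u = 0) ∧ B z u ≠ 0 := by
    by_contra! e; exact n (s.dperp e)
  have fr : ∀ a, (tv s.alt u a).1 r = r := fun a => tv_fix _ _ (h1 r (subset_span (by simp)))
  have fw : ∀ a, (tv s.alt u a).1 w = w := fun a => tv_fix _ _ (h1 w (subset_span (by simp)))
  rw [pow_succ', ← Set.ncard_univ F, ← mul_one (Set.ncard {y : X | _})]
  refine dbl _ _ (fun a y => Sx s.alt r y = Sx s.alt r (tv s.alt u a • x)) (fun a _ => ?_) fun y _ => ?_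
  · rw [Set.ncard_univ]
    refine (s.sx_ge h hr (tv s.alt u a • x) (s.iso_le (s.sx_iso h hr _)) (by omega)).trans
      (Set.ncard_le_ncard fun y (hy : _ = _) => ⟨?_, hy⟩)
    change w ∈ Sx s.alt r y
    rw [hy, ← fw a, sx_smul s.alt (fr a)]; exact hw
  · refine (Set.ncard_le_one (Set.toFinite _)).2 fun a ha b hb => by_contra fun ne => ?_
    have za := ha.2 ▸ (sx_smul s.alt (fr a) x z).2 hz
    have zb := hb.2 ▸ (sx_smul s.alt (fr b) x z).2 hz
    have := s.sx_iso h hr y _ za _ zb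
    simp only [tv_apply, map_add, map_smul, LinearMap.add_apply, LinearMap.smul_apply, s.alt.self_eq_zero,
      skew s.alt u z, smul_eq_mul] at this
    exact mul_ne_zero (sub_ne_zero.2 ne) (mul_ne_zero h2 h2) (by linear_combination -this)

/-- `w ∉ ⟨r⟩` (`hs_smul`).  Every `w' ∈ r^⊥ \ ⟨r⟩` is `g w` with `g r = r` (`exists_isom_of_pair`), so lies
in `Sx y` for at least `q^(k+1)` points `y`.  Counting the pairs `(y, w')`, `w' ∈ Sx y \ ⟨r⟩`:
`(q^(2k-1) - q) q^(k+1) ≤ |X| (q^k - q)`, and `q^(2k-1) - q = (q^k - q) (q^(k-1) + 1)`. -/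
theorem Sy.caseA2 (s : Sy B k) (h : Fpf s.alt X) {r w : V} (hr : r ≠ 0) (hw : w ≠ 0) {x : X}
    (hx : w ∈ Dx s.alt r x) : Nat.card F ^ (2 * k) < Nat.card X := by
  have k3 := s.k3
  have q := s.three_le
  have n : w ∉ span F {r} := fun e => by
    obtain ⟨c, rfl⟩ := mem_span_singleton.1 e
    have := h x r _ hr (hs_smul s.alt r c ▸ hx.2)
    exact hw (by rw [(mul_eq_zero.1 this).resolve_left s.two, zero_smul])
  have li : ∀ v, v ∉ span F {r} → LinearIndependent F ![r, v] := fun v hv =>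
    (LinearIndependent.pair_iff' hr).2 fun a e => hv (mem_span_singleton.2 ⟨a, e⟩)
  have c1 : (span F {r} : Set V).ncard = Nat.card F := by rw [s.card_sub, finrank_span_singleton hr, pow_one]
  have a := dbl ({v | B r v = 0} \ (span F {r} : Set V)) Set.univ (fun v y => v ∈ Sx s.alt r y)
    (m := Nat.card F ^ (k + 1)) (n := Nat.card F ^ k - Nat.card F) (fun v hv => by
      obtain ⟨g, hg, h1, h2⟩ := exists_isom_of_pair s.alt s.nd (li w n) (li v hv.2) (hx.1.trans hv.1.symm)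
      simpa using s.sx_many h hr (h2 ▸ (sx_smul s.alt (g := ⟨g, hg⟩) h1 x w).2 (dx_le _ hx)) hv.2)
    fun y _ => (Set.ncard_le_ncard (t := (Sx s.alt r y : Set V) \ (span F {r} : Set V))
      fun v hv => ⟨hv.2, hv.1.2⟩).trans (by
        rw [Set.ncard_diff (by simpa using r_mem _ _ _), c1, s.card_sub]
        exact Nat.sub_le_sub_right (Nat.pow_le_pow_right (by omega) (s.iso_le (s.sx_iso h hr y))) _)
  rw [Set.ncard_diff (fun v hv => by
    obtain ⟨c, rfl⟩ := mem_span_singleton.1 hv; simp [s.alt.self_eq_zero]), c1, s.card_perp hr, Set.ncard_univ] at a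
  obtain ⟨j, rfl⟩ : ∃ j, k = j + 1 := ⟨k - 1, by omega⟩
  have m : 1 < Nat.card F ^ j := Nat.one_lt_pow (by omega) (by omega)
  rw [show 2 * (j + 1) - 1 = j * 2 + 1 by omega] at a
  rw [show 2 * (j + 1) = j * 2 + 1 + 1 by omega]
  simp only [pow_succ, pow_mul, pow_zero, one_mul] at a ⊢
  generalize Nat.card F ^ j = m' at *
  generalize Nat.card F = q' at *
  obtain ⟨t, rfl⟩ : ∃ t, m' = t + 1 := ⟨m' - 1, by omega⟩
  rw [show (t + 1) * (t + 1) * q' - q' = (t + 2) * (t * q') by apply Nat.sub_eq_of_eq_add; ring,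
    show (t + 1) * q' - q' = t * q' by apply Nat.sub_eq_of_eq_add; ring, mul_right_comm] at a
  refine lt_of_lt_of_le ?_ (Nat.le_of_mul_le_mul_right a (Nat.mul_pos (by omega) (by omega)))
  have : 0 < (t + 1) * q' * q' := by positivity
  nlinarith

end Cfsg.Lib.R3S
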