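import Cfsg.Agent.Lib.R3S.A1
import Cfsg.Agent.Lib.R3S.A2

/-! S2195: a set on which no transvection has a fixed point has more than `q^(2k)` elements. -/

set_option autoImplicit false

namespace Cfsg.Lib.R3S

open Cfsg.Lib.Symp Module Submodule MulAction

variable {F V : Type*} [Field F] [AddCommGroup V] [Module F V] {B : LinearMap.BilinForm F V} {k : ℕ}
  [Finite V] {H : Subgroup (isom B)}

variable {X : Type*} [MulAction (isom B) X] [Finite X]

/-- All groups `O_p(P_r)` are semiregular. -/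
def Semi (hA : B.IsAlt) (X : Type*) [MulAction (isom B) X] : Prop :=
  ∀ (x : X) r w, r ≠ 0 → B r w = 0 → hs hA r w • x = x → w = 0

omit [Finite V] [Finite X] in
theorem Semi.inj {hA : B.IsAlt} (h : Semi hA X) (h2 : (2 : F) ≠ 0) {r w w' : V} (hr : r ≠ 0) (a : B r w = 0)
    (b : B r w' = 0) {x : X} (e : hs hA r w • x = hs hA r w' • x) : w = w' := by
  have a' : B r (-w) = 0 := by simp [a]
  have k := h x r (-w + w' + (B w' (-w) / 2) • r) hr (by simp [a, b, hA.self_eq_zero]) (by
    rw [← hs_div hA h2 a' b, mul_smul, ← e, ← hs_inv hA a, inv_smul_smul])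
  have := congrArg (B · (-w)) k
  simp only [map_add, map_smul, LinearMap.add_apply, LinearMap.smul_apply, a', smul_zero, add_zero,
    hA.self_eq_zero, zero_add, map_zero, LinearMap.zero_apply] at this
  rwa [this, zero_div, zero_smul, add_zero, neg_add_eq_zero] at k

omit [Finite V] [Finite X] in
theorem smul_hs (hA : B.IsAlt) (g : isom B) (r w : V) (x : X) :
    g • hs hA r w • x = hs hA (g.1 r) (g.1 w) • g • x := by
  rw [← conj_hs, mul_smul, mul_smul, inv_smul_smul]

/-- The elements fixing `r` and the `Q`-orbit of `x`. -/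
def Kq (hA : B.IsAlt) (h2 : (2 : F) ≠ 0) (r : V) (x : X) : Subgroup (isom B) where
  carrier := {g | g.1 r = r ∧ ∃ w, B r w = 0 ∧ g • x = hs hA r w • x}
  one_mem' := ⟨rfl, 0, by simp, by rw [hs_zero]⟩
  mul_mem' := fun {g g'} ⟨a, w, b, c⟩ ⟨a', w', b', c'⟩ => by
    have k : B r (g.1 w') = 0 := by rw [← a, isom_apply, b']
    exact ⟨by rw [mul_app, a', a], g.1 w' + w + (B w (g.1 w') / 2) • r, by simp [k, b, hA.self_eq_zero], by
      rw [mul_smul, c', smul_hs, a, c, ← mul_smul, hs_div hA h2 k b]⟩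
  inv_mem' := fun {g} ⟨a, w, b, c⟩ => by
    have a' : (g⁻¹).1 r = r := by rw [← a, inv_app, a]
    have k : B r ((g⁻¹).1 w) = 0 := by rw [← a', isom_apply, b]
    exact ⟨a', -(g⁻¹).1 w, by rw [map_neg, k, neg_zero], by
      have j := smul_hs hA g⁻¹ r w x
      rw [a', ← c, inv_smul_smul] at j
      rw [← hs_inv hA k, eq_inv_smul_iff, ← j]⟩

/-- Two more hyperbolic pairs (`ex_pair` twice; dimension at most `4 < 2 k`). -/
theorem Sy.ex_three (s : Sy B k) {e f : V} (h : B e f = 1) : ∃ e' f' e'' f'' : V, B e' f' = 1 ∧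
    B e'' f'' = 1 ∧ (∀ u ∈ ({e, f} : Set V), ∀ v ∈ ({e', f', e'', f''} : Set V), B u v = 0) ∧
    ∀ u ∈ ({e', f'} : Set V), ∀ v ∈ ({e'', f''} : Set V), B u v = 0 := by
  classical
  have k3 := s.k3
  have nt : ∀ S : Finset V, S.card ≤ 4 → span F (S : Set V) ≠ ⊤ := fun S hS e => by
    have := finrank_span_finset_le_card (R := F) S
    rw [Set.finrank, e, finrank_top, s.dim] at this
    omega
  have h' := skew s.alt f e
  obtain ⟨e', f', a1, a2, a3⟩ := s.ex_pair (U := span F {e, f})
    (by simpa using nt {e, f} (Finset.card_le_two.trans (by omega))) fun u hu hv => by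
      obtain ⟨a, b, rfl⟩ := mem_span_pair.1 hu
      have := hv e (subset_span (by simp))
      have := hv f (subset_span (by simp))
      simp_all [s.alt.self_eq_zero]
  have b1 := a2 e (subset_span (by simp))
  have b2 := a2 f (subset_span (by simp))
  have b3 := a3 e (subset_span (by simp))
  have b4 := a3 f (subset_span (by simp))
  obtain ⟨e'', f'', c1, c2, c3⟩ := s.ex_pair (U := span F {e, f, e', f'})
    (by simpa using nt {e, f, e', f'} Finset.card_le_four) fun u hu hv => by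
      obtain ⟨a, u1, hu1, rfl⟩ := mem_span_insert.1 hu
      obtain ⟨b, u2, hu2, rfl⟩ := mem_span_insert.1 hu1
      obtain ⟨c, d, rfl⟩ := mem_span_pair.1 hu2
      have d1 := hv e (subset_span (by simp))
      have d2 := hv f (subset_span (by simp))
      have d3 := hv e' (subset_span (by simp))
      have d4 := hv f' (subset_span (by simp))
      simp [s.alt.self_eq_zero, skew s.alt f e, skew s.alt e' e, skew s.alt e' f, skew s.alt f' e, skew s.alt f' f,
        skew s.alt f' e', h, a1, b1, b2, b3, b4] at d1 d2 d3 d4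
      simp [d1, d2, d3, d4]
  refine ⟨e', f', e'', f'', a1, c1, fun u hu v hv => ?_, fun u hu v hv => ?_⟩
  · rcases hv with rfl | rfl | rfl | rfl
    exacts [a2 u (subset_span hu), a3 u (subset_span hu), c2 u (subset_span (by rcases hu with rfl | rfl <;> simp)),
      c3 u (subset_span (by rcases hu with rfl | rfl <;> simp))]
  · rcases hv with rfl | rfl
    exacts [c2 u (subset_span (by rcases hu with rfl | rfl <;> simp)),
      c3 u (subset_span (by rcases hu with rfl | rfl <;> simp))]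

/-- Put `φ (c, α, β) = hs e ((c / 2) e - α e₂ - β f₂)`-like coordinates (choose signs so that `hs_mul`,
`hs_tv` give the law of `heis`; `φ (c, 0, 0) = tv e c`); all `φ a` fix `r`, so normalise
`Q = {hs r w | w ⊥ r}`, a group (`hs_mul`, `hs_tv`).  `D = {a | φ a • x ∈ Q • x}` is closed under the
law.  The map `(a, w) ↦ φ a • hs r w • x` from `q³ q^(2k-1)` pairs to at most `q^(2k)` points has a
fibre with at least `q²` elements; on a fibre `w` is determined by `a` (`Semi`) and the `a` lie in one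
coset of `D`.  So `|D| ≥ q²`. -/
theorem Sy.semi_tv (s : Sy B k) (h : Semi s.alt X) (hX : Nat.card X ≤ Nat.card F ^ (2 * k))
    {r e e₂ f₂ : V} (hr : r ≠ 0) (h1 : B r e = 0) (h2 : B r e₂ = 0) (h3 : B r f₂ = 0)
    (h4 : B e e₂ = 0) (h5 : B e f₂ = 0) (h6 : B e₂ f₂ = 1) (x : X) (c : F) :
    ∃ w, B r w = 0 ∧ tv s.alt e c • x = hs s.alt r w • x := by
  have := s.fin
  have k3 := s.k3
  have q := s.three_le
  obtain ⟨m, hm⟩ : ∃ m : F × F × F → V, ∀ a, m a = a.2.1 • f₂ + a.2.2 • e₂ + (a.1 / 2) • e := ⟨_, fun _ => rfl⟩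
  have p : ∀ a, B e (m a) = 0 := fun a => by simp [hm, h4, h5, s.alt.self_eq_zero]
  have fx : ∀ a, (hs s.alt e (m a)).1 r = r := fun a => by rw [hs_apply s.alt (p a)]; simp [hm, h1, h2, h3]
  have mu : ∀ a b, hs s.alt e (m a) * hs s.alt e (m b) =
      hs s.alt e (m (a.1 + b.1 + (a.2.1 * b.2.2 - a.2.2 * b.2.1), a.2.1 + b.2.1, a.2.2 + b.2.2)) := fun a b => by
    rw [hs_div s.alt s.two (p a) (p b)]
    congr 1
    simp only [hm, map_add, map_smul, LinearMap.add_apply, LinearMap.smul_apply, smul_eq_mul, s.alt.self_eq_zero,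
      skew s.alt f₂ e₂, skew s.alt f₂ e, skew s.alt e₂ e, h4, h5, h6]
    module
  have nv : ∀ a, (hs s.alt e (m a))⁻¹ = hs s.alt e (m (-a)) := fun a => by
    rw [hs_inv s.alt (p a)]
    congr 1
    simp only [hm, Prod.fst_neg, Prod.snd_neg]
    module
  have key := heis s.two {a | hs s.alt e (m a) ∈ Kq s.alt s.two r x} (by simp [hm, hs_zero])
    (fun a ha b hb => by simpa only [mu, Set.mem_setOf_eq] using (Kq s.alt s.two r x).mul_mem ha hb)
    (fun a ha => by simpa only [nv, Set.mem_setOf_eq] using (Kq s.alt s.two r x).inv_mem ha) ?_ c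
  · have e1 : hs s.alt e (m (c, 0, 0)) = tv s.alt e c := by
      simp only [hm, zero_smul, zero_add, hs_smul, mul_div_cancel₀ _ s.two]
    exact (e1 ▸ key : tv s.alt e c ∈ Kq s.alt s.two r x).2
  have a := dbl ((Set.univ : Set (F × F × F)) ×ˢ {w | B r w = 0}) Set.univ
    (fun p y => hs s.alt e (m p.1) • hs s.alt r p.2 • x = y) (m := 1)
    (n := {a | hs s.alt e (m a) ∈ Kq s.alt s.two r x}.ncard) (fun p _ => (Set.ncard_pos).2 ⟨_, trivial, rfl⟩)
    fun y _ => by
      rcases Set.eq_empty_or_nonempty {p ∈ (Set.univ : Set (F × F × F)) ×ˢ {w | B r w = 0} |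
        hs s.alt e (m p.1) • hs s.alt r p.2 • x = y} with e | ⟨⟨a, w⟩, ⟨-, hw⟩, rfl⟩
      · rw [e]; simp
      refine Set.ncard_le_ncard_of_injOn (fun p => ((-a).1 + p.1.1 + ((-a).2.1 * p.1.2.2 - (-a).2.2 * p.1.2.1),
        (-a).2.1 + p.1.2.1, (-a).2.2 + p.1.2.2)) (fun p hp => ?_) fun p hp p' hp' e => ?_
      · change hs s.alt e (m _) ∈ Kq s.alt s.two r x
        rw [← mu, ← nv]
        refine (mul_mem_cancel_right (show hs s.alt r p.2 ∈ Kq s.alt s.two r x from
          ⟨hs_fix _ hp.1.2, _, hp.1.2, rfl⟩)).1 ⟨?_, w, hw, ?_⟩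
        · rw [mul_app, mul_app, hs_fix _ hp.1.2, fx, nv, fx]
        · rw [mul_smul, mul_smul, hp.2, inv_smul_smul]
      · simp only [Prod.mk.injEq, add_right_inj] at e
        obtain ⟨e1, e2, e3⟩ := e
        have e' : p.1 = p'.1 := Prod.ext (by simpa [e2, e3] using e1) (Prod.ext e2 e3)
        refine Prod.ext e' (h.inj s.two hr hp.1.2 hp'.1.2 (x := x) ?_)
        rw [← smul_left_cancel_iff (hs s.alt e (m p.1)), hp.2, e', hp'.2]
  rw [Set.ncard_prod, s.card_perp hr, Set.ncard_univ, Set.ncard_univ, Nat.card_prod, Nat.card_prod] at a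
  refine Nat.le_of_mul_le_mul_left (le_trans (le_of_eq ?_) (a.trans (Nat.mul_le_mul_right _ hX)))
    (pow_pos (by omega) _)
  obtain ⟨j, hj⟩ : ∃ j, 2 * k = j + 1 := ⟨2 * k - 1, by omega⟩
  rw [hj, Nat.add_sub_cancel]; ring

/-- `-1` on `⟨e, f⟩`, `1` on `⟨e, f⟩^⊥`. -/
def iv (hA : B.IsAlt) (e f : V) : isom B := (tv hA e 1 * tv hA f 2) ^ 2

omit [Finite V] in
theorem iv_apply (hA : B.IsAlt) {e f : V} (h : B e f = 1) (x : V) :
    (iv hA e f).1 x = x - (2 * B x f) • e - (2 * B e x) • f := by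
  simp only [iv, pow_two, mul_app, tv_apply, map_add, map_smul, LinearMap.add_apply, LinearMap.smul_apply,
    smul_eq_mul, hA.self_eq_zero, skew hA f e, skew hA x e, h]
  module

/-- `(y, w) ↦ hs e w • y` is injective on `Fix × ⟨e, f⟩^⊥`: if `hs e m` maps the fixed point `y` to a
fixed point, then `hs e m • y = i (hs e m) i⁻¹ • y = hs (-e) (i m) • y = hs e (-i m) • y`, so
`m = -i m` (`Semi`), while `m = w - w' + c e`; hence `w = w'`.  So `|Fix| q^(2k-2) ≤ |X|`. -/
theorem Sy.semi_fix (s : Sy B k) (h : Semi s.alt X) (hX : Nat.card X ≤ Nat.card F ^ (2 * k))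
    {e f : V} (hef : B e f = 1) : (fixedBy X (iv s.alt e f)).ncard ≤ Nat.card F ^ 2 := by
  have k3 := s.k3
  have q := s.three_le
  have e0 : e ≠ 0 := fun z => by simp [z] at hef
  have c : Nat.card F ^ (2 * k - 2) ≤ {w | B e w = 0 ∧ B f w = 0}.ncard := by
    classical
    have a := s.finrank_orth (span F {e, f})
    have b : finrank F (span F ({e, f} : Set V)) ≤ 2 :=
      (finrank_span_le_card _).trans (by simpa using Finset.card_le_two)
    refine (Nat.pow_le_pow_right (by omega) (by omega)).trans ((s.card_sub (B.orthogonal (span F {e, f}))).ge.trans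
      (Set.ncard_le_ncard fun w hw => ⟨hw e (subset_span (by simp)), hw f (subset_span (by simp))⟩))
  have a : (fixedBy X (iv s.alt e f) ×ˢ {w | B e w = 0 ∧ B f w = 0}).ncard ≤ Nat.card X := by
    rw [← Set.ncard_univ]
    refine Set.ncard_le_ncard_of_injOn (fun p => hs s.alt e p.2 • p.1) (fun _ _ => trivial) ?_
    rintro ⟨y, w⟩ ⟨hy, a, b⟩ ⟨y', w'⟩ ⟨hy', a', b'⟩ k
    simp only [mem_fixedBy] at k hy hy' a b a' b'
    have n : B e (-w') = 0 := by simp [a']
    obtain ⟨t, ht⟩ : ∃ t : F, hs s.alt e (-w' + w + t • e) • y = y' :=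
      ⟨_, by rw [← hs_div s.alt s.two n a, mul_smul, k, ← hs_inv s.alt a', inv_smul_smul]⟩
    have j := smul_hs s.alt (iv s.alt e f) e (-w' + w + t • e) y
    have j2 : hs s.alt ((iv s.alt e f).1 e) ((iv s.alt e f).1 (-w' + w + t • e)) = hs s.alt e (w' - w + t • e) := by
      refine ext' fun z => ?_
      rw [hs_apply _ (by rw [isom_apply]; simp [a, a', s.alt.self_eq_zero]),
        hs_apply _ (by simp [a, a', s.alt.self_eq_zero])]
      simp only [iv_apply s.alt hef, map_add, map_sub, map_neg, map_smul, LinearMap.add_apply, LinearMap.neg_apply,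
        LinearMap.smul_apply, smul_eq_mul, s.alt.self_eq_zero, skew s.alt w f, skew s.alt w' f, a, b, a', b', hef]
      module
    rw [ht, hy', hy, j2, ← ht] at j
    have := h.inj s.two e0 (by simp [a, a', s.alt.self_eq_zero]) (by simp [a, a', s.alt.self_eq_zero]) j
    obtain rfl : w = w' := smul_right_injective V s.two (by linear_combination (norm := module) this)
    rw [(smul_left_cancel_iff _).1 k]
  rw [Set.ncard_prod] at a
  refine Nat.le_of_mul_le_mul_right (((Nat.mul_le_mul_left _ c).trans a).trans (hX.trans (le_of_eq ?_)))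
    (pow_pos (by omega) _)
  rw [← pow_add]; congr 1; omega

/-- If not `Semi`, `caseA2`.  Otherwise take three perpendicular hyperbolic pairs `(r, r')`, `(e, f)`,
`(e₂, f₂)`.  By `semi_tv` the transvections with centre `e` or `f` map every `Q`-orbit to itself, so
`i = iv e f` does; the orbit `Q • x` has `q^(2k-1)` elements, an odd number, so the involution `i`
fixes a point `y` of it.  The `q³` elements `hs r m`, `m ∈ ⟨r, e₂, f₂⟩`, commute with `i` and map `y` to
different fixed points, against `semi_fix`. -/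
theorem Sy.caseA (s : Sy B k) (h : Fpf s.alt X) [Nonempty X] : Nat.card F ^ (2 * k) < Nat.card X := by
  by_contra! hX
  have := s.fin
  have q := s.three_le
  have sm : Semi s.alt X := fun x r w hr a b => by_contra fun n => (s.caseA2 h hr n ⟨a, b⟩).not_ge hX
  obtain ⟨x⟩ := ‹Nonempty X›
  have := s.nontriv
  obtain ⟨r, hr⟩ := exists_ne (0 : V)
  obtain ⟨r', h0⟩ := s.ex_one hr
  obtain ⟨e, f, e₂, f₂, h1, h2, h3, h4⟩ := s.ex_three h0
  simp only [Set.mem_insert_iff, Set.mem_singleton_iff, forall_eq_or_imp, forall_eq] at h3 h4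
  obtain ⟨⟨a1, a2, a3, a4⟩, -, -, b3, b4⟩ := h3
  obtain ⟨⟨c1, c2⟩, c3, c4⟩ := h4
  have im : ∀ y : X, iv s.alt e f ∈ Kq s.alt s.two r y := fun y => pow_mem ((Kq s.alt s.two r y).mul_mem
    ⟨tv_fix _ _ a1, s.semi_tv sm hX hr a1 a3 a4 c1 c2 h2 y 1⟩
    ⟨tv_fix _ _ a2, s.semi_tv sm hX hr a2 a3 a4 c3 c4 h2 y 2⟩) 2
  have ii : iv s.alt e f * iv s.alt e f = 1 := ext' fun z => by
    simp only [mul_app, iv_apply s.alt h1, map_sub, map_smul, LinearMap.sub_apply, LinearMap.smul_apply,
      smul_eq_mul, s.alt.self_eq_zero, h1]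
    change _ = z
    module
  obtain ⟨y, hy⟩ : ∃ y : X, iv s.alt e f • y = y := by
    classical
    let O : Set X := (fun w => hs s.alt r w • x) '' {w | B r w = 0}
    have cO : Nat.card O = Nat.card F ^ (2 * k - 1) := by
      rw [Nat.card_coe_set_eq, ← s.card_perp hr]
      exact Set.ncard_image_of_injOn fun w a w' b => sm.inj s.two hr a b
    let j : O → O := fun y => ⟨iv s.alt e f • y.1, by
      obtain ⟨_, w, hw, rfl⟩ := y
      obtain ⟨-, w', a, b⟩ := mul_mem (im x) (show hs s.alt r w ∈ Kq s.alt s.two r x from ⟨hs_fix _ hw, _, hw, rfl⟩)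
      exact ⟨w', a, by rw [← mul_smul, b]⟩⟩
    have hj : Function.Involutive j := fun y => Subtype.ext (by simp only [j, ← mul_smul, ii, one_smul])
    have := Fintype.ofFinite O
    obtain ⟨y, hy⟩ := Equiv.Perm.exists_fixed_point_of_prime (p := 2) (n := 1) (σ := hj.toPerm) (by
      rw [← Nat.card_eq_fintype_card, cO]; exact (s.odd.pow).not_two_dvd_nat) (Equiv.ext fun y => hj y)
    exact ⟨y, congrArg Subtype.val hy⟩
  have p : ∀ a : F × F × F, B r (a.1 • r + a.2.1 • e₂ + a.2.2 • f₂) = 0 := fun a => by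
    simp [a3, a4, s.alt.self_eq_zero]
  have c := (Set.ncard_le_ncard_of_injOn (s := Set.univ) (t := fixedBy X (iv s.alt e f))
    (fun a : F × F × F => hs s.alt r (a.1 • r + a.2.1 • e₂ + a.2.2 • f₂) • y) (fun a _ => by
      rw [mem_fixedBy, smul_hs, hy, (im y).1, iv_apply s.alt h1]
      simp [a2, c1, c2, skew s.alt e r, skew s.alt e₂ f, skew s.alt f₂ f, a1, c3, c4]) fun a _ b _ k => by
      have k := sm.inj s.two hr (p a) (p b) k
      have k1 := congrArg (B r') k
      have k2 := congrArg (B e₂) k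
      have k3 := congrArg (B f₂) k
      simp [s.alt.self_eq_zero, skew s.alt r' r, skew s.alt e₂ r, skew s.alt f₂ r, skew s.alt f₂ e₂, h0, h2, a3, a4,
        b3, b4] at k1 k2 k3
      exact Prod.ext k1 (Prod.ext k3 k2)).trans (s.semi_fix sm hX h1)
  rw [Set.ncard_univ, Nat.card_prod, Nat.card_prod] at c
  nlinarith

/-- Every transvection is `tv v 1` or `tv v b` (`b` a non-square, `tv_smul`), and `tv (-v) a = tv v a`;
or: `(v, a) ↦ tv v a • x` maps the `(q^(2k) - 1) (q - 1)` pairs onto `X \ {x}` with fibres of at least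
`q - 1` elements `(c v, a / c²)`. -/
theorem Sy.card_le_of_adj (s : Sy B k) (x : X) (h : ∀ y, y ≠ x → Adj s.alt x y) :
    Nat.card X ≤ Nat.card F ^ (2 * k) := by
  have := s.fin
  have q := s.three_le
  have a := dbl {y : X | y ≠ x} ({v : V | v ≠ 0} ×ˢ {a : F | a ≠ 0}) (fun y p => tv s.alt p.1 p.2 • x = y)
    (m := {a : F | a ≠ 0}.ncard) (n := 1) (fun y hy => by
      obtain ⟨v, a, hv, ha, rfl⟩ := h y hy
      exact Set.ncard_le_ncard_of_injOn (fun c => (c • v, a / c ^ 2)) (fun c hc => ⟨⟨smul_ne_zero hc hv,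
        div_ne_zero ha (pow_ne_zero _ hc)⟩, by simp only [tv_smul, mul_div_cancel₀ _ (pow_ne_zero 2 hc)]⟩)
        fun c _ d _ e => smul_left_injective F hv (congrArg Prod.fst e))
    fun p _ => (Set.ncard_le_one (Set.toFinite _)).2 fun a ha b hb => ha.2.symm.trans hb.2
  rw [Set.ncard_prod, mul_one] at a
  have b := Nat.le_of_mul_le_mul_right a ((Set.ncard_pos).2 ⟨1, one_ne_zero⟩)
  have c2 : {z : X | z ≠ x}.ncard + 1 = Nat.card X := by
    rw [← Set.ncard_add_ncard_compl {x}, Set.ncard_singleton, add_comm]; rfl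
  have c3 : {z : V | z ≠ 0}.ncard + 1 = Nat.card V := by
    rw [← Set.ncard_add_ncard_compl {(0 : V)}, Set.ncard_singleton, add_comm]; rfl
  rw [← s.card_V]
  omega

end Cfsg.Lib.R3S
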