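import Cfsg.Agent.Lib.R3S.Def

/-! S2195: orbit counting for rank 3 actions (any group). -/

set_option autoImplicit false

namespace Cfsg.Lib.R3S

open Cfsg.Lib.Symp Module Submodule MulAction

variable {G X Y : Type*} [Group G] [MulAction G X] [MulAction G Y]

theorem four_of_card {Q : Type*} (h3 : Nat.card Q = 3) (a b c d : Q) :
    a = b ∨ a = c ∨ a = d ∨ b = c ∨ b = d ∨ c = d := by
  rw [← Set.ncard_univ, Set.ncard_eq_three] at h3
  obtain ⟨x, y, z, -, -, -, e⟩ := h3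
  have k : ∀ q : Q, q = x ∨ q = y ∨ q = z := fun q => by simpa using e.le (Set.mem_univ q)
  have := k a; have := k b; have := k c; have := k d
  grind

/-- The orbit of `y` under the stabiliser of `x`. -/
abbrev oc (G : Type*) [Group G] [MulAction G X] [MulAction G Y] (x : X) (y : Y) :
    orbitRel.Quotient (stabilizer G x) Y := Quotient.mk'' y

theorem oc_eq {x : X} {y z : Y} : oc G x y = oc G x z ↔ ∃ g : G, g • x = x ∧ g • y = z := by
  rw [eq_comm, Quotient.eq'', orbitRel_apply]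
  exact ⟨fun ⟨g, e⟩ => ⟨g, g.2, e⟩, fun ⟨g, a, e⟩ => ⟨⟨g, a⟩, e⟩⟩

/-- If `I g₀ > I g₁ > I g₂ > I g₃`, the points `gᵢ • x` lie in four different orbits of the stabiliser
(`h • gᵢ • x = gⱼ • x` gives `gⱼ = h gᵢ h'` with `h' = (h gᵢ)⁻¹ gⱼ` in the stabiliser). -/
theorem r3_of_card [Finite X] (x : X) (h3 : Nat.card (orbitRel.Quotient (stabilizer G x) X) = 3) :
    R3 (stabilizer G x) := by
  intro I hI g₀ g₁ g₂ g₃ h1 h2 h3'
  have k : ∀ g g' : G, oc G x (g • x) = oc G x (g' • x) → I g = I g' := fun g g' e => by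
    obtain ⟨h, a, b⟩ := oc_eq.1 e
    have m : g'⁻¹ * (h * g) ∈ stabilizer G x := by
      rw [mem_stabilizer_iff, mul_smul, mul_smul, b, inv_smul_smul]
    rw [← (hI g h a).1, ← (hI g' _ m).2, mul_inv_cancel_left]
  rcases four_of_card h3 (oc G x (g₀ • x)) (oc G x (g₁ • x)) (oc G x (g₂ • x)) (oc G x (g₃ • x)) with
    e | e | e | e | e | e <;> have := k _ _ e <;> omega

/-- The classes of `x`, `y₁` (`E x y₁`), `y₂` (`y₂ ≠ x`, `¬ E x y₂`) are three different orbits of the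
stabiliser, so every point is in one of them.  Other base points: conjugate with `tr`. -/
theorem r3g_of_card [Finite X] {E : X → X → Prop} (x : X) (tr : ∀ x y : X, ∃ g : G, g • x = y)
    (h3 : Nat.card (orbitRel.Quotient (stabilizer G x) X) = 3)
    (inv : ∀ (g : G) x y, E x y → E (g • x) (g • y)) (symm : ∀ x y, E x y → E y x)
    (irr : ∀ x, ¬ E x x) (ex1 : ∃ y, E x y) (ex2 : ∃ y, y ≠ x ∧ ¬ E x y) : R3G G X E := by
  obtain ⟨y₁, h1⟩ := ex1
  obtain ⟨y₂, h2, h2'⟩ := ex2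
  have iv : ∀ (g : G) a b, E (g • a) (g • b) ↔ E a b := fun g a b =>
    ⟨fun e => by simpa using inv g⁻¹ _ _ e, inv g a b⟩
  have pr : ∀ a b : X, oc G x a = oc G x b → (E x a ↔ E x b) ∧ (a = x ↔ b = x) := fun a b e => by
    obtain ⟨g, c, rfl⟩ := oc_eq.1 e
    refine ⟨by rw [← iv g, c], ?_⟩
    nth_rw 2 [← c]
    exact (smul_left_cancel_iff g).symm
  have mv : ∀ x' y z : X, (∀ t : G, t • x' = x → oc G x (t • y) = oc G x (t • z)) →
      ∃ g : G, g • x' = x' ∧ g • y = z := fun x' y z h => by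
    obtain ⟨t, ht⟩ := tr x' x
    obtain ⟨g, a, b⟩ := oc_eq.1 (h t ht)
    exact ⟨t⁻¹ * g * t, by rw [mul_smul, mul_smul, ht, a, ← ht, inv_smul_smul],
      by rw [mul_smul, mul_smul, b, inv_smul_smul]⟩
  have i0 := irr x
  refine ⟨inv, symm, irr, tr, fun x' y z a b => mv _ _ _ fun t ht => ?_,
    fun x' y z a b c d => mv _ _ _ fun t ht => ?_, ⟨x, y₁, h1⟩, x, y₂, h2.symm, h2'⟩
  · rw [← iv t, ht] at a b
    rcases four_of_card h3 (oc G x x) (oc G x y₂) (oc G x (t • y)) (oc G x (t • z)) with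
      e | e | e | e | e | e <;> first | (have := pr _ _ e; tauto) | exact e
  · rw [← iv t, ht] at c d
    rw [Ne, ← smul_left_cancel_iff t, ht] at a b
    rcases four_of_card h3 (oc G x x) (oc G x y₁) (oc G x (t • y)) (oc G x (t • z)) with
      e | e | e | e | e | e <;> first | (have := pr _ _ e; tauto) | exact e

/-- Orbits on `X × Y` are orbits of the stabiliser on `Y` (`⟦y⟧ ↦ ⟦(x, y)⟧`). -/
theorem card_orb_prod (x : X) (tr : ∀ y : X, ∃ g : G, g • x = y) :
    Nat.card (orbitRel.Quotient G (X × Y)) = Nat.card (orbitRel.Quotient (stabilizer G x) Y) := by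
  refine (Nat.card_eq_of_bijective (Quotient.map' (fun y => (x, y)) fun a b h => ?_) ⟨fun a b => ?_, fun q => ?_⟩).symm
  · obtain ⟨g, e⟩ := orbitRel_apply.1 h
    exact orbitRel_apply.2 ⟨g, Prod.ext g.2 e⟩
  · induction a using Quotient.inductionOn' with | _ a =>
    induction b using Quotient.inductionOn' with | _ b =>
    intro e
    obtain ⟨g, e⟩ := orbitRel_apply.1 (Quotient.exact' e)
    exact (oc_eq.2 ⟨g, congrArg Prod.fst e, congrArg Prod.snd e⟩).symm
  · induction q using Quotient.inductionOn' with | _ q =>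
    obtain ⟨g, e⟩ := tr q.1
    exact ⟨Quotient.mk'' (g⁻¹ • q.2), (Quotient.sound' (orbitRel_apply.2 ⟨g, Prod.ext e (smul_inv_smul _ _)⟩)).symm⟩

/-- Burnside (`sum_card_fixedBy_eq_card_orbits_mul_card_group`) for `X × Y`. -/
theorem sum_fix_mul [Fintype G] [Finite X] [Finite Y] :
    ∑ g : G, (fixedBy X g).ncard * (fixedBy Y g).ncard =
      Nat.card (orbitRel.Quotient G (X × Y)) * Fintype.card G := by
  classical
  have := Fintype.ofFinite (orbitRel.Quotient G (X × Y))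
  have := fun g : G => Fintype.ofFinite (fixedBy (X × Y) g)
  rw [Nat.card_eq_fintype_card, ← sum_card_fixedBy_eq_card_orbits_mul_card_group G (X × Y)]
  refine Finset.sum_congr rfl fun g _ => ?_
  rw [← Set.ncard_prod, ← Nat.card_eq_fintype_card, Nat.card_coe_set_eq]
  congr 1
  ext ⟨a, b⟩
  simp [Prod.ext_iff]

theorem R3G.card_le [Finite Y] {E : Y → Y → Prop} (h : R3G G Y E) (y : Y) :
    Nat.card (orbitRel.Quotient (stabilizer G y) Y) ≤ 3 := by
  obtain ⟨a, b, e⟩ := h.ex1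
  obtain ⟨c, d, n, e'⟩ := h.ex2
  obtain ⟨g, hg⟩ := h.tr a y
  obtain ⟨g', hg'⟩ := h.tr c y
  refine (Nat.card_le_card_of_surjective ![oc G y y, oc G y (g • b), oc G y (g' • d)] fun q => ?_).trans (by simp)
  induction q using Quotient.inductionOn' with | _ z =>
  by_cases h0 : z = y
  · exact ⟨0, h0 ▸ rfl⟩
  by_cases h1 : E y z
  · exact ⟨1, oc_eq.2 (h.e1 _ _ _ (hg ▸ h.inv g _ _ e) h1)⟩
  · refine ⟨2, oc_eq.2 (h.e2 _ _ _ (fun k => n ((smul_left_cancel_iff g').1 (hg'.trans k.symm))) h0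
      (fun k => e' ?_) h1)⟩
    simpa [← hg'] using h.inv g'⁻¹ _ _ k

/-- `∑ (fix_X g - fix_Y g)² = |G| (3 + n' - 2 n) ≤ 0` in `ℤ`, where `n' ≤ 3 ≤ n`; take `g = 1`. -/
theorem card_eq_of_three [Finite G] [Finite X] [Finite Y] (x : X) (tr : ∀ y : X, ∃ g : G, g • x = y)
    (h3 : Nat.card (orbitRel.Quotient (stabilizer G x) X) = 3) {E : Y → Y → Prop} (hY : R3G G Y E)
    {a b c : Y} (hab : ∀ g ∈ stabilizer G x, g • a ≠ b) (hac : ∀ g ∈ stabilizer G x, g • a ≠ c)
    (hbc : ∀ g ∈ stabilizer G x, g • b ≠ c) : Nat.card X = Nat.card Y := by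
  have := Fintype.ofFinite G
  have s1 := sum_fix_mul (G := G) (X := X) (Y := X)
  have s2 := sum_fix_mul (G := G) (X := X) (Y := Y)
  have s3 := sum_fix_mul (G := G) (X := Y) (Y := Y)
  rw [card_orb_prod x tr] at s1 s2
  rw [card_orb_prod a (hY.tr a)] at s3
  have l3 := hY.card_le a
  have l2 : 3 ≤ Nat.card (orbitRel.Quotient (stabilizer G x) Y) := by
    have n : ∀ {u v : Y}, (∀ g ∈ stabilizer G x, g • u ≠ v) → oc G x u ≠ oc G x v := fun h e =>
      let ⟨g, p, q⟩ := oc_eq.1 e; h g p q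
    rw [← Set.ncard_eq_three.2 ⟨_, _, _, n hab, n hac, n hbc, rfl⟩]
    exact Set.ncard_le_card _
  rw [h3] at s1
  have z : ∑ g : G, (((fixedBy X g).ncard : ℤ) - (fixedBy Y g).ncard) ^ 2 ≤ 0 := by
    have e : ∀ g : G, (((fixedBy X g).ncard : ℤ) - (fixedBy Y g).ncard) ^ 2 =
        (((fixedBy X g).ncard * (fixedBy X g).ncard : ℕ) : ℤ) +
          (((fixedBy Y g).ncard * (fixedBy Y g).ncard : ℕ) : ℤ) -
          2 * (((fixedBy X g).ncard * (fixedBy Y g).ncard : ℕ) : ℤ) := fun g => by push_cast; ring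
    simp only [e, Finset.sum_sub_distrib, Finset.sum_add_distrib, ← Finset.mul_sum, ← Nat.cast_sum, s1, s2, s3]
    push_cast
    have p : (0 : ℤ) ≤ Fintype.card G := by positivity
    zify at l2 l3
    nlinarith
  have := (Finset.single_le_sum (fun g _ => sq_nonneg _) (Finset.mem_univ (1 : G))).trans z
  rw [fixedBy_one_eq_univ, fixedBy_one_eq_univ, Set.ncard_univ, Set.ncard_univ] at this
  have := pow_eq_zero_iff (two_ne_zero) |>.1 (this.antisymm (sq_nonneg _))
  omega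

end Cfsg.Lib.R3S
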