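import Cfsg.Agent.Lib.Symp.Simple
import Cfsg.Agent.Lib.Symp.Count

/-! Rank 3 actions of the symplectic groups in odd characteristic (S2195): definitions and tools.
`tv hA v a : x ↦ x + a B(x, v) v`, `hs hA r w : x ↦ x + B(x, r) w + B(x, w) r` (for `w ⊥ r`). -/

set_option autoImplicit false

namespace Cfsg.Lib.R3S

open Cfsg.Lib.Symp Module Submodule MulAction

section gen

variable {G : Type*} [Group G]

/-- At most three double cosets: a function constant on them has no four values. -/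
def R3 (H : Subgroup G) : Prop :=
  ∀ I : G → ℕ, (∀ g, ∀ h ∈ H, I (h * g) = I g ∧ I (g * h) = I g) →
    ∀ g₀ g₁ g₂ g₃, I g₁ < I g₀ → I g₂ < I g₁ → I g₃ < I g₂ → False

theorem R3.set {H : Subgroup G} (h : R3 H) {Y : Type*} [MulAction G Y] (O : Set Y)
    (hO : ∀ g ∈ H, ∀ y ∈ O, g • y ∈ O) (g₁ g₂ g₃ : G)
    (h1 : {y ∈ O | g₁ • y ∈ O}.ncard < O.ncard)
    (h2 : {y ∈ O | g₂ • y ∈ O}.ncard < {y ∈ O | g₁ • y ∈ O}.ncard)
    (h3 : {y ∈ O | g₃ • y ∈ O}.ncard < {y ∈ O | g₂ • y ∈ O}.ncard) : False := by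
  have i : ∀ g ∈ H, ∀ y, g • y ∈ O ↔ y ∈ O := fun g hg y =>
    ⟨fun k => by simpa using hO _ (H.inv_mem hg) _ k, hO g hg y⟩
  refine h (fun g => {y ∈ O | g • y ∈ O}.ncard) (fun g x hx => ⟨?_, ?_⟩) 1 g₁ g₂ g₃ (by simpa using h1) h2 h3
  · simp only [mul_smul, i x hx]
  · refine (Set.ncard_image_of_injective _ (MulAction.injective x)).symm.trans ?_
    congr 1
    ext y
    constructor
    · rintro ⟨z, ⟨a, b⟩, rfl⟩
      exact ⟨hO x hx z a, by rwa [mul_smul] at b⟩
    · rintro ⟨a, b⟩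
      exact ⟨x⁻¹ • y, ⟨hO _ (H.inv_mem hx) _ a, by rwa [mul_smul, smul_inv_smul]⟩, smul_inv_smul _ _⟩

/-- A rank 3 graph. -/
structure R3G (G X : Type*) [Group G] [MulAction G X] (E : X → X → Prop) : Prop where
  inv : ∀ (g : G) x y, E x y → E (g • x) (g • y)
  symm : ∀ x y, E x y → E y x
  irr : ∀ x, ¬ E x x
  tr : ∀ x y : X, ∃ g : G, g • x = y
  e1 : ∀ x y z, E x y → E x z → ∃ g : G, g • x = x ∧ g • y = z
  e2 : ∀ x y z, y ≠ x → z ≠ x → ¬ E x y → ¬ E x z → ∃ g : G, g • x = x ∧ g • y = z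
  ex1 : ∃ x y, E x y
  ex2 : ∃ x y, x ≠ y ∧ ¬ E x y

end gen

variable {F V : Type*} [Field F] [AddCommGroup V] [Module F V] {B : LinearMap.BilinForm F V} {k : ℕ}

/-- A symplectic space of dimension `2 k ≥ 6` in odd characteristic. -/
structure Sy (B : LinearMap.BilinForm F V) (k : ℕ) : Prop where
  alt : B.IsAlt
  nd : B.Nondegenerate
  dim : finrank F V = 2 * k
  k3 : 3 ≤ k
  two : (2 : F) ≠ 0

/-- The points `u`, `v` lie in one orbit. -/
def Rl (H : Subgroup (isom B)) (u v : V) : Prop := ∃ h ∈ H, ∃ c : F, h.1 u = c • v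

/-- At most two orbits on points. -/
def N2 (H : Subgroup (isom B)) : Prop :=
  ∀ u v w : V, u ≠ 0 → v ≠ 0 → w ≠ 0 → Rl H u v ∨ Rl H u w ∨ Rl H v w

/-- One orbit on points. -/
def Tr (H : Subgroup (isom B)) : Prop := ∀ u v : V, u ≠ 0 → v ≠ 0 → Rl H u v

/-- No transvections. -/
def NoTv (hA : B.IsAlt) (H : Subgroup (isom B)) : Prop :=
  ∀ v a, v ≠ 0 → tv hA v a ∈ H → a = 0

/-- No transvection fixes a point of `X`. -/
def Fpf (hA : B.IsAlt) (X : Type*) [MulAction (isom B) X] : Prop :=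
  ∀ (x : X) v a, v ≠ 0 → tv hA v a • x = x → a = 0

/-- `y` is the image of `x` under a transvection. -/
def Adj (hA : B.IsAlt) {X : Type*} [MulAction (isom B) X] (x y : X) : Prop :=
  ∃ v a, v ≠ 0 ∧ a ≠ 0 ∧ tv hA v a • x = y

/-- `g` fixes `U^⊥` pointwise. -/
def Fx (g : isom B) (U : Submodule F V) : Prop := ∀ y, (∀ u ∈ U, B u y = 0) → g.1 y = y

/-- `H ∩ SL(W)` is irreducible on the hyperbolic line `W`. -/
def Irr (H : Subgroup (isom B)) (W : Submodule F V) : Prop :=
  (∃ e f, B e f = 1 ∧ W = span F {e, f}) ∧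
    ∀ p ∈ W, p ≠ 0 → ∃ d ∈ H, Fx d W ∧ ∀ c : F, d.1 p ≠ c • p

/-- A line spread in which `L^⊥` is a union of spread lines. -/
structure Spr (B : LinearMap.BilinForm F V) (S : Set (Submodule F V)) : Prop where
  dim : ∀ L ∈ S, finrank F L = 2
  cov : ∀ v : V, v ≠ 0 → ∃ L ∈ S, v ∈ L
  uniq : ∀ L ∈ S, ∀ L' ∈ S, ∀ v : V, v ≠ 0 → v ∈ L → v ∈ L' → L = L'
  perp : ∀ L ∈ S, ∀ L' ∈ S, ∀ z ∈ L', z ≠ 0 → (∀ y ∈ L, B y z = 0) → ∀ y ∈ L, ∀ z' ∈ L', B y z' = 0

/-- The root group at `v`. -/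
def rt (hA : B.IsAlt) (H : Subgroup (isom B)) (v : V) : AddSubgroup F where
  carrier := {a | tv hA v a ∈ H}
  zero_mem' := by
    have : tv hA v 0 = 1 := Subtype.ext (LinearEquiv.ext fun x => by simp [tv_apply])
    simp [this]
  add_mem' ha hb := by simpa [← tv_mul] using H.mul_mem ha hb
  neg_mem' ha := by simpa [← tv_inv] using H.inv_mem ha

theorem mem_rt {hA : B.IsAlt} {H : Subgroup (isom B)} {v : V} {a : F} :
    a ∈ rt hA H v ↔ tv hA v a ∈ H := Iff.rfl

/-- Centres of transvections in `H`. -/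
def Cen (hA : B.IsAlt) (H : Subgroup (isom B)) (v : V) : Prop :=
  v ≠ 0 ∧ ∃ a, a ≠ 0 ∧ tv hA v a ∈ H

/-- The centres span `V`, and the graph of non-perpendicular centres is connected. -/
structure Conn (hA : B.IsAlt) (H : Subgroup (isom B)) : Prop where
  sp : span F {v | Cen hA H v} = ⊤
  cn : ∀ D : V → Prop, (∃ x, Cen hA H x ∧ D x) →
    (∀ x y, Cen hA H x → Cen hA H y → B x y ≠ 0 → D x → D y) → ∀ y, Cen hA H y → D y

/-- `x ↦ x + B(x, r) w + B(x, w) r` for `w ⊥ r`. -/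
def hs (hA : B.IsAlt) (r w : V) : isom B := tv hA (r + w) 1 * tv hA w (-1) * tv hA r (-1)

theorem skew (hA : B.IsAlt) (x y : V) : B x y = -B y x := (hA.neg_eq y x).symm

theorem ext' {g h : isom B} (e : ∀ x, g.1 x = h.1 x) : g = h := Subtype.ext (LinearEquiv.ext e)

theorem mul_app (g h : isom B) (x : V) : (g * h).1 x = g.1 (h.1 x) := rfl

theorem app_inv (g : isom B) (x : V) : g.1 ((g⁻¹).1 x) = x := g.1.apply_symm_apply x

theorem inv_app (g : isom B) (x : V) : (g⁻¹).1 (g.1 x) = x := g.1.symm_apply_apply x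

theorem app_ne (g : isom B) {x : V} (h : x ≠ 0) : g.1 x ≠ 0 := g.1.map_ne_zero_iff.2 h

theorem tv_zero (hA : B.IsAlt) (v : V) : tv hA v 0 = 1 := ext' fun x => by simp [tv_apply]

theorem tv_fix (hA : B.IsAlt) {v x : V} (a : F) (h : B x v = 0) : (tv hA v a).1 x = x := by
  simp [tv_apply, h]

theorem tv_comm (hA : B.IsAlt) {u v : V} (a b : F) (h : B u v = 0) :
    Commute (tv hA u a) (tv hA v b) := by
  have := conj_tv hA (tv hA v b) u a
  rw [tv_fix hA b h, mul_inv_eq_iff_eq_mul] at this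
  exact this.symm

theorem rt_smul (hA : B.IsAlt) (H : Subgroup (isom B)) (v : V) (c a : F) :
    a ∈ rt hA H (c • v) ↔ c ^ 2 * a ∈ rt hA H v := by rw [mem_rt, tv_smul, mem_rt]

theorem rt_conj (hA : B.IsAlt) {H : Subgroup (isom B)} {h : isom B} (hh : h ∈ H) (v : V) :
    rt hA H (h.1 v) = rt hA H v := by
  ext a
  rw [mem_rt, mem_rt, ← conj_tv, H.mul_mem_cancel_right (H.inv_mem hh), H.mul_mem_cancel_left hh]

theorem Cen.conj {hA : B.IsAlt} {H : Subgroup (isom B)} {h : isom B} (hh : h ∈ H) {v : V}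
    (c : Cen hA H v) : Cen hA H (h.1 v) :=
  ⟨app_ne h c.1, c.2.imp fun _ a => ⟨a.1, by rw [← mem_rt, rt_conj hA hh]; exact a.2⟩⟩

theorem Cen.smul {hA : B.IsAlt} {H : Subgroup (isom B)} {v : V} (c : Cen hA H v) {a : F}
    (ha : a ≠ 0) : Cen hA H (a • v) := by
  obtain ⟨h0, b, hb, h⟩ := c
  refine ⟨smul_ne_zero ha h0, b / a ^ 2, div_ne_zero hb (pow_ne_zero _ ha), ?_⟩
  rwa [tv_smul, mul_div_cancel₀ _ (pow_ne_zero _ ha)]

theorem Rl.symm {H : Subgroup (isom B)} {u v : V} (hu : u ≠ 0) (h : Rl H u v) : Rl H v u := by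
  obtain ⟨g, hg, c, e⟩ := h
  have hc : c ≠ 0 := fun h0 => app_ne g hu (by simp [e, h0])
  refine ⟨g⁻¹, H.inv_mem hg, c⁻¹, ?_⟩
  rw [← inv_app g u, e, map_smul, smul_smul, inv_mul_cancel₀ hc, one_smul]

/-- An invariant property of points is constant on orbits. -/
theorem Rl.iff {H : Subgroup (isom B)} {P : V → Prop} (h1 : ∀ g ∈ H, ∀ v, P v → P (g.1 v))
    (h2 : ∀ (c : F) v, c ≠ 0 → P v → P (c • v)) {u v : V} (hu : u ≠ 0) (hv : v ≠ 0) (h : Rl H u v) :
    P u ↔ P v := by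
  have key : ∀ {u v : V}, u ≠ 0 → Rl H u v → P u → P v := fun {u v} hu ⟨g, hg, c, e⟩ p => by
    have hc : c ≠ 0 := fun h0 => app_ne g hu (by simp [e, h0])
    simpa [e, smul_smul, inv_mul_cancel₀ hc] using h2 c⁻¹ _ (inv_ne_zero hc) (h1 g hg u p)
  exact ⟨key hu h, key hv (h.symm hu)⟩

/-- Three points separated by two invariant properties. -/
theorem N2.false {H : Subgroup (isom B)} (h : N2 H) {P Q : V → Prop}
    (p1 : ∀ g ∈ H, ∀ v, P v → P (g.1 v)) (p2 : ∀ (c : F) v, c ≠ 0 → P v → P (c • v))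
    (q1 : ∀ g ∈ H, ∀ v, Q v → Q (g.1 v)) (q2 : ∀ (c : F) v, c ≠ 0 → Q v → Q (c • v))
    {u v w : V} (hu : u ≠ 0) (hv : v ≠ 0) (hw : w ≠ 0) (a : P u) (b : ¬ P v) (c : ¬ P w) (d : Q v)
    (e : ¬ Q w) : False := by
  rcases h u v w hu hv hw with r | r | r
  exacts [b ((r.iff p1 p2 hu hv).1 a), c ((r.iff p1 p2 hu hw).1 a), e ((r.iff q1 q2 hv hw).1 d)]

theorem hs_apply (hA : B.IsAlt) {r w : V} (h : B r w = 0) (x : V) :
    (hs hA r w).1 x = x + B x r • w + B x w • r := by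
  have h' : B w r = 0 := by rw [skew hA, h, neg_zero]
  simp only [hs, mul_app, tv_apply, map_add, map_smul, LinearMap.add_apply, LinearMap.smul_apply,
    smul_eq_mul, h, h', hA.self_eq_zero]
  module

theorem hs_smul (hA : B.IsAlt) (r : V) (c : F) : hs hA r (c • r) = tv hA r (2 * c) :=
  ext' fun x => by
    rw [hs_apply hA (by simp [hA.self_eq_zero]), tv_apply, map_smul, smul_eq_mul]; module

theorem hs_zero (hA : B.IsAlt) (r : V) : hs hA r 0 = 1 := ext' fun x => by simp [hs_apply hA]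

theorem hs_mul (hA : B.IsAlt) {r w w' : V} (h : B r w = 0) (h' : B r w' = 0) :
    hs hA r w * hs hA r w' = hs hA r (w + w') * tv hA r (B w' w) := ext' fun x => by
  have e : B w' r = 0 := by rw [skew hA, h', neg_zero]
  rw [mul_app, mul_app, hs_apply hA h, hs_apply hA h', hs_apply hA (by simp [h, h']), tv_apply]
  simp only [map_add, map_smul, LinearMap.add_apply, LinearMap.smul_apply, smul_eq_mul, h, h', e,
    hA.self_eq_zero]
  module

theorem hs_inv (hA : B.IsAlt) {r w : V} (h : B r w = 0) : (hs hA r w)⁻¹ = hs hA r (-w) := by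
  rw [inv_eq_iff_mul_eq_one, hs_mul hA h (by simp [h])]
  simp [hs_zero, tv_zero, hA.self_eq_zero]

theorem hs_tv (hA : B.IsAlt) {r w : V} (h : B r w = 0) (c : F) :
    hs hA r w * tv hA r (2 * c) = hs hA r (w + c • r) := by
  rw [← hs_smul, hs_mul hA h (by simp [hA.self_eq_zero])]
  simp [h, tv_zero]

theorem conj_hs (hA : B.IsAlt) (g : isom B) (r w : V) :
    g * hs hA r w * g⁻¹ = hs hA (g.1 r) (g.1 w) := by
  simp only [hs, ← map_add, ← conj_tv]; group

theorem hs_comm (hA : B.IsAlt) {r w w' : V} (h : B r w = 0) (h' : B r w' = 0) :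
    hs hA r w * hs hA r w' * (hs hA r w)⁻¹ * (hs hA r w')⁻¹ = tv hA r (2 * B w' w) := by
  rw [conj_hs, hs_apply hA h r, hs_apply hA h w', skew hA w' r, hA.self_eq_zero, h, h']
  simp only [zero_smul, add_zero, neg_zero]
  rw [← hs_tv hA h', ← hs_smul, mul_inv_eq_iff_eq_mul, hs_mul hA h' (by simp [hA.self_eq_zero]),
    hs_mul hA (by simp [hA.self_eq_zero]) h', add_comm]
  simp [h', skew hA w' r]

theorem Fx.mul {g h : isom B} {U : Submodule F V} (a : Fx g U) (b : Fx h U) : Fx (g * h) U :=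
  fun y hy => by rw [mul_app, b y hy, a y hy]

theorem Fx.inv {g : isom B} {U : Submodule F V} (a : Fx g U) : Fx g⁻¹ U :=
  fun y hy => by rw [← a y hy, inv_app, a y hy]

theorem Fx.mono {g : isom B} {U U' : Submodule F V} (a : Fx g U) (h : U ≤ U') : Fx g U' :=
  fun y hy => a y fun u hu => hy u (h hu)

theorem fx_tv (hA : B.IsAlt) {U : Submodule F V} {v : V} (hv : v ∈ U) (a : F) : Fx (tv hA v a) U :=
  fun y hy => tv_fix hA a (by rw [skew hA, hy v hv, neg_zero])

/-- The component of `y` in `⟨e, f⟩^⊥`. -/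
theorem proj_perp (hA : B.IsAlt) {e f : V} (h : B e f = 1) (y : V) :
    B e (y - B y f • e - B e y • f) = 0 ∧ B f (y - B y f • e - B e y • f) = 0 := by
  simp [hA.self_eq_zero, h, skew hA f e, skew hA f y]

variable [Finite V]

namespace Sy

variable (s : Sy B k)
include s

theorem ex_one {v : V} (hv : v ≠ 0) : ∃ y, B v y = 1 := by
  obtain ⟨x, hx⟩ := exists_bilin_eq_one s.nd hv
  exact ⟨-x, by rw [map_neg, skew s.alt, hx, neg_neg]⟩

theorem eq_zero {v : V} (h : ∀ y, B v y = 0) : v = 0 := by_contra fun hv => by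
  obtain ⟨y, hy⟩ := s.ex_one hv
  exact zero_ne_one ((h y).symm.trans hy)

theorem orth_orth (U : Submodule F V) : B.orthogonal (B.orthogonal U) = U :=
  LinearMap.BilinForm.orthogonal_orthogonal s.nd s.alt.isRefl U

/-- Double perpendicular. -/
theorem dperp {U : Submodule F V} {w : V} (h : ∀ z, (∀ u ∈ U, B u z = 0) → B w z = 0) : w ∈ U := by
  rw [← s.orth_orth U]
  exact fun z hz => s.alt.isRefl _ _ (h z hz)

theorem finrank_orth (U : Submodule F V) : finrank F (B.orthogonal U) + finrank F U = 2 * k := by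
  rw [LinearMap.BilinForm.finrank_orthogonal s.nd, s.dim]
  have := finrank_le U
  rw [s.dim] at this
  omega

theorem iso_le {U : Submodule F V} (h : ∀ u ∈ U, ∀ v ∈ U, B u v = 0) : finrank F U ≤ k := by
  have := finrank_mono (show U ≤ B.orthogonal U from fun v hv u hu => h u hu v hv)
  have := s.finrank_orth U
  omega

theorem nontriv : Nontrivial V := by
  have := s.k3
  exact Module.nontrivial_of_finrank_pos (R := F) (by rw [s.dim]; omega)

theorem fin : Finite F := by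
  have := s.nontriv
  obtain ⟨v, hv⟩ := exists_ne (0 : V)
  exact Finite.of_injective (fun c : F => c • v) (smul_left_injective F hv)

theorem card_sub (U : Submodule F V) : (U : Set V).ncard = Nat.card F ^ finrank F U :=
  have := s.fin
  ncard_submodule U

theorem card_V : Nat.card V = Nat.card F ^ (2 * k) := by
  have := s.card_sub ⊤
  rwa [finrank_top, s.dim, top_coe, Set.ncard_univ] at this

theorem odd : Odd (Nat.card F) := by
  have := s.fin
  have := Fintype.ofFinite F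
  rw [Nat.card_eq_fintype_card, Nat.odd_iff, FiniteField.odd_card_of_char_ne_two]
  exact fun h => s.two (by simpa [h] using ringChar.Nat.cast_ringChar (R := F))

theorem three_le : 3 ≤ Nat.card F := by
  have := s.fin
  have := Finite.one_lt_card (α := F)
  obtain ⟨n, hn⟩ := s.odd
  omega

theorem ex_nsq : ∃ b : F, ¬ IsSquare b := by
  have := s.fin
  exact FiniteField.exists_nonsquare fun h => s.two (by simpa [h] using ringChar.Nat.cast_ringChar (R := F))

theorem sub_mem {g : isom B} {U : Submodule F V} (h : Fx g U) (x : V) : g.1 x - x ∈ U :=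
  s.dperp fun z hz => by
    rw [map_sub, LinearMap.sub_apply, ← isom_apply g x z, h z hz, sub_self]

/-- An isometry fixing `r^⊥` pointwise is a transvection. -/
theorem eq_tv {g : isom B} {r : V} (hr : r ≠ 0) (h : ∀ y, B r y = 0 → g.1 y = y) :
    ∃ c, g = tv s.alt r c := by
  obtain ⟨x, hx⟩ := exists_bilin_eq_one s.nd hr
  obtain ⟨c, hc⟩ := mem_span_singleton.1
    (s.sub_mem (U := span F {r}) (fun y hy => h y (hy r (mem_span_singleton_self r))) x)
  refine ⟨c, ext' fun y => ?_⟩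
  have := h (y - B y r • x) (by simp [skew s.alt r y, skew s.alt r x, hx])
  rw [map_sub, map_smul, ← sub_eq_zero] at this
  rw [tv_apply, ← sub_eq_zero, ← this, eq_sub_iff_add_eq.1 hc |>.symm]
  module

/-- An isometry which fixes `⟨e, f, r⟩^⊥` and is trivial on `⟨e, f, r⟩ / r`. -/
theorem eq_hs {g : isom B} {e f r : V} (h : B e f = 1) (hr : r ≠ 0) (he : B r e = 0) (hf : B r f = 0)
    (hg : Fx g (span F {e, f, r})) {α β : F} (h1 : g.1 e = e + α • r) (h2 : g.1 f = f + β • r) :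
    ∃ c : F, g = hs s.alt r (α • f - β • e + c • r) := by
  have hm : B r (α • f - β • e) = 0 := by simp [he, hf]
  obtain ⟨c, hc⟩ := s.eq_tv (g := (hs s.alt r (α • f - β • e))⁻¹ * g) hr fun y hy => by
    obtain ⟨a, b⟩ := proj_perp s.alt h y
    generalize hz : y - B y f • e - B e y • f = z at a b
    have hy' : y = z + B y f • e + B e y • f := by rw [← hz]; module
    have rz : B r z = 0 := by simp [← hz, hy, he, hf]
    have gz : g.1 z = z := hg z fun u hu => by
      induction hu using span_induction with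
      | mem x hx => rcases hx with rfl | rfl | rfl <;> assumption
      | zero => simp
      | add x y _ _ a b => simp [a, b]
      | smul c x _ a => simp [a]
    rw [mul_app, ← (hs s.alt r (α • f - β • e)).1.injective.eq_iff, app_inv, hs_apply s.alt hm,
      skew s.alt y r, hy]
    conv_lhs => rw [hy', map_add, map_add, map_smul, map_smul, gz, h1, h2]
    simp only [map_sub, map_smul, smul_eq_mul, skew s.alt y e]
    conv_rhs => enter [1, 1]; rw [hy']
    module
  refine ⟨c / 2, ?_⟩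
  rw [← hs_tv s.alt hm, mul_div_cancel₀ _ s.two, ← hc, mul_inv_cancel_left]

/-- A hyperbolic pair perpendicular to a non-degenerate proper subspace. -/
theorem ex_pair {U : Submodule F V} (hU : U ≠ ⊤) (h : ∀ u ∈ U, (∀ v ∈ U, B v u = 0) → u = 0) :
    ∃ e f, B e f = 1 ∧ (∀ u ∈ U, B u e = 0) ∧ ∀ u ∈ U, B u f = 0 := by
  obtain ⟨e, he, h0⟩ : ∃ e ∈ B.orthogonal U, e ≠ 0 := (Submodule.ne_bot_iff _).1 fun e => hU (by
    rw [← s.orth_orth U, e]; exact LinearMap.BilinForm.orthogonal_bot)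
  obtain ⟨z, hz, hz'⟩ : ∃ z, (∀ u ∈ U, B u z = 0) ∧ B e z ≠ 0 := by
    by_contra n
    push Not at n
    exact h0 (h e (s.dperp n) he)
  exact ⟨e, (B e z)⁻¹ • z, by simp [hz'], he, fun u hu => by simp [hz u hu]⟩

end Sy

end Cfsg.Lib.R3S
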