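import Cfsg.Agent.Lib.R3S.Def
import Cfsg.Agent.Lib.TVn.Pair

/-! S2195: two opposite root groups (Dickson). -/

set_option autoImplicit false

namespace Cfsg.Lib.R3S

open Cfsg.Lib.Symp Module Submodule MulAction

variable {F V : Type*} [Field F] [AddCommGroup V] [Module F V] {B : LinearMap.BilinForm F V} {k : ℕ}
  [Finite V] {H : Subgroup (isom B)}

open scoped MatrixGroups

theorem pow_five {F A : Type*} [CommRing F] [Ring A] [Algebra F A] {t : F} (ht : t ^ 2 = t + 1) {g : A}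
    (h : g * g = t • g - 1) : g ^ 5 = -1 := by
  have h3 : g ^ 3 = (t ^ 2 - 1) • g - t • (1 : A) := by
    rw [pow_succ, pow_two, h, sub_mul, smul_mul_assoc, h, one_mul]; module
  have h4 : g ^ 4 = (t ^ 3 - 2 * t) • g - (t ^ 2 - 1) • (1 : A) := by
    rw [pow_succ, h3, sub_mul, smul_mul_assoc, h, smul_mul_assoc, one_mul]; module
  rw [pow_succ, h4, sub_mul, smul_mul_assoc, h, smul_mul_assoc, one_mul]
  have a : t ^ 3 - 2 * t = 1 := by linear_combination (t + 1) * ht
  have b : t ^ 2 - 1 = t := by linear_combination ht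
  rw [a, b]; module

/-- `TVn.pair` for the image `P'` of `P` in `GL (Fin 2) F`, `v = (1, 0)`, `φ = (0, a)`, `u = (0, 1)`,
`ψ = (b, 0)`, `τ = a b`.  First case: `c ↦ c τ` is an injection of the root group into `k`, so a
bijection; take `c τ = -2`; then `s = !![1, c a; 0, 1] * !![1, 0; b, 1]` has trace `0` and `s² = -1`.
Third case: `τ = 1`: `s = !![1, a; 0, 1] * !![1, 0; b, 1]` has trace `3 = 0`; `τ = -1`: use `-a`;
`τ² = -1`: the trace `t = 2 + τ` has `t² = t + 1` and `s² = t s - 1` gives `s⁵ = -1`. -/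
theorem neg_mem_sl {F : Type*} [Field F] [Finite F] (h2 : (2 : F) ≠ 0) {P : Subgroup SL(2, F)}
    {a b : F} (ha : a ≠ 0) (hb : b ≠ 0) {x y : SL(2, F)} (hx : x ∈ P) (hy : y ∈ P)
    (ex : x.1 = !![1, a; 0, 1]) (ey : y.1 = !![1, 0; b, 1]) : -1 ∈ P := by
  have up : ∀ c : F, Linear.Tv (P.map Matrix.SpecialLinearGroup.toGL) ![1, 0] (c • ![0, a]) →
      ∃ z ∈ P, z.1 = !![1, c * a; 0, 1] := fun c ⟨_, z, hz, e⟩ => ⟨z, hz, by
    have := congrArg Units.val e
    rw [Linear.tvGL_coe] at this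
    refine this.trans ?_
    ext i j
    fin_cases i <;> fin_cases j <;> simp [Matrix.vecMulVec_apply]⟩
  have t1 : Linear.Tv (P.map Matrix.SpecialLinearGroup.toGL) ![1, 0] ![0, a] :=
    ⟨by simp, x, hx, Units.ext (by
      rw [Linear.tvGL_coe]
      refine ex.trans ?_
      ext i j
      fin_cases i <;> fin_cases j <;> simp [Matrix.vecMulVec_apply])⟩
  have t2 : Linear.Tv (P.map Matrix.SpecialLinearGroup.toGL) ![0, 1] ![b, 0] :=
    ⟨by simp, y, hy, Units.ext (by
      rw [Linear.tvGL_coe]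
      refine ey.trans ?_
      ext i j
      fin_cases i <;> fin_cases j <;> simp [Matrix.vecMulVec_apply])⟩
  have sq : ∀ z ∈ P, ∀ c, z.1 = !![1, c; 0, 1] → 2 + c * b = 0 → -1 ∈ P := fun z hz c e h => by
    convert P.mul_mem (P.mul_mem hz hy) (P.mul_mem hz hy) using 1
    ext i j
    simp only [Matrix.SpecialLinearGroup.coe_mul, e, ey, Matrix.SpecialLinearGroup.coe_neg,
      Matrix.SpecialLinearGroup.coe_one]
    fin_cases i <;> fin_cases j <;> simp [Matrix.mul_apply, Fin.sum_univ_two]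
    · linear_combination (-(1 + c * b)) * h
    · linear_combination (-c) * h
    · linear_combination (-b) * h
    · linear_combination (-1 : F) * h
  rcases TVn.pair t1 t2 (by simpa using ha) (by simpa using hb) with ⟨K, hK, h⟩ | h | ⟨h3, -, h⟩
  · have o := TVn.pair_one t2
    obtain ⟨⟨c, hc⟩, e⟩ := (Nat.bijective_iff_injective_and_card
      (fun c : TVn.root (P.map Matrix.SpecialLinearGroup.toGL) ![1, 0] ![0, a] =>
        (⟨c * a * b, by simpa using h c c.2 1 o⟩ : K))).2 ⟨fun c d e => Subtype.ext (by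
          simpa [ha, hb] using e), hK.symm⟩ |>.2 (-2)
    obtain ⟨z, hz, ez⟩ := up c hc
    refine sq z hz _ ez ?_
    have : c * a * b = -2 := congrArg Subtype.val e
    linear_combination this
  · exact (h2 h.1).elim
  · have h' : (a * b - 1) * ((a * b + 1) * ((a * b) ^ 2 + 1)) = 0 := by
      refine mul_left_cancel₀ (mul_ne_zero ha hb) ?_
      simp only [Matrix.dotProduct_cons, Matrix.cons_dotProduct, Matrix.head_cons, Matrix.tail_cons,
        Matrix.dotProduct_of_isEmpty] at h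
      linear_combination h
    rcases mul_eq_zero.1 h' with e | e
    · exact sq x hx a ex (by linear_combination e + h3)
    rcases mul_eq_zero.1 e with e | e
    · refine sq x⁻¹ (P.inv_mem hx) (-a) ?_ (by linear_combination h3 - e)
      rw [Matrix.SpecialLinearGroup.coe_inv, ex, Matrix.adjugate_fin_two_of]
      simp
    · have s2 : (x * y).1 * (x * y).1 = (2 + a * b) • (x * y).1 - 1 := by
        rw [Matrix.SpecialLinearGroup.coe_mul, ex, ey]
        ext i j
        fin_cases i <;> fin_cases j <;> simp [Matrix.mul_apply, Fin.sum_univ_two] <;> ring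
      convert P.pow_mem (P.mul_mem hx hy) 5 using 1
      refine Subtype.ext ?_
      rw [Matrix.SpecialLinearGroup.coe_pow, Matrix.SpecialLinearGroup.coe_neg,
        Matrix.SpecialLinearGroup.coe_one]
      exact (pow_five (by linear_combination e + (a * b) * h3) s2).symm

theorem dick_aux (s : Sy B k) {u v : V} (h : B u v ≠ 0) {a b : F} (ha : a ∈ rt s.alt H u) (a0 : a ≠ 0)
    (hb : b ∈ rt s.alt H v) (b0 : b ≠ 0) :
    (∃ K : Subfield F, Nat.card K = Nat.card (rt s.alt H u) ∧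
      ∀ a ∈ rt s.alt H u, ∀ b ∈ rt s.alt H v, a * b * B u v ^ 2 ∈ K) ∨
    ((3 : F) = 0 ∧ Nat.card (rt s.alt H u) ≤ 3 ∧ (a * b * B u v ^ 2) ^ 5 = a * b * B u v ^ 2) := by
  have := s.fin
  let bs := Module.finBasis F V
  let e := bs.equivFun
  let P : Subgroup (GL (Fin (finrank F V)) F) :=
    { carrier := {M | ∃ g ∈ H, ∀ x, M.1.mulVec (e x) = e (g.1 x)}
      one_mem' := ⟨1, H.one_mem, fun x => by simp⟩
      mul_mem' := fun ⟨g, hg, a⟩ ⟨g', hg', b⟩ => ⟨g * g', H.mul_mem hg hg', fun x => by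
        rw [Units.val_mul, ← Matrix.mulVec_mulVec, b, a, mul_app]⟩
      inv_mem' := fun {M} ⟨g, hg, a⟩ => ⟨g⁻¹, H.inv_mem hg, fun x => by
        conv_lhs => rw [← app_inv g x, ← a, Matrix.mulVec_mulVec, Units.inv_mul, Matrix.one_mulVec]⟩ }
  let φ : V → Fin (finrank F V) → F := fun w i => B (bs i) w
  have hφ : ∀ w x, φ w ⬝ᵥ e x = B x w := fun w x => by
    conv_rhs => rw [← bs.sum_equivFun x, map_sum, LinearMap.sum_apply]
    exact Finset.sum_congr rfl fun i _ => by simp [φ, e, mul_comm]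
  have key : ∀ w c, Linear.Tv P (e w) (c • φ w) ↔ c ∈ rt s.alt H w := fun w c => by
    constructor
    · rintro ⟨_, g, hg, m⟩
      rwa [mem_rt, show tv s.alt w c = g from ext' fun x => e.injective (by
        rw [← m, Linear.tvGL_mulVec, tv_apply]; simp [hφ])]
    · refine fun m => ⟨by simp [hφ, s.alt.self_eq_zero], _, m, fun x => ?_⟩
      rw [Linear.tvGL_mulVec, tv_apply]; simp [hφ]
  have mem : ∀ w a c, c ∈ TVn.root P (e w) (a • φ w) ↔ c * a ∈ rt s.alt H w := fun w a c => by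
    rw [TVn.mem_root, smul_smul, key]
  have cd : Nat.card (TVn.root P (e u) (a • φ u)) = Nat.card (rt s.alt H u) :=
    Nat.card_congr ((Equiv.mulRight₀ a a0).subtypeEquiv (mem u a))
  have h' : B v u ≠ 0 := by rwa [skew s.alt, neg_ne_zero]
  rcases TVn.pair ((key u a).2 ha) ((key v b).2 hb) (by simp [hφ, a0, h']) (by simp [hφ, b0, h]) with
    ⟨K, hK, m⟩ | m | ⟨h3, m, m'⟩
  · refine .inl ⟨K, hK.trans cd, fun x hx y hy => ?_⟩
    convert K.neg_mem (m (x / a) ((mem _ _ _).2 (by rwa [div_mul_cancel₀ _ a0])) (y / b)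
      ((mem _ _ _).2 (by rwa [div_mul_cancel₀ _ b0]))) using 1
    simp only [smul_dotProduct, hφ, smul_eq_mul, skew s.alt v u]
    field_simp
  · exact (s.two m.1).elim
  · refine .inr ⟨h3, cd ▸ m, ?_⟩
    simp only [smul_dotProduct, hφ, smul_eq_mul, skew s.alt v u] at m'
    linear_combination -m'

/-- `TVn.pair` for the image of `H` in `GL (Fin n) F` (a basis of `V`; or the group of all
`g ∈ GL (Fin 2) F` whose extension by the identity on `⟨u, v⟩^⊥` lies in `H`), `φ = a B(·, u)`,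
`ψ = b B(·, v)`, `τ = - a b B(u, v)²`.  The first alternative does not depend on the choice of
`a, b ≠ 0` in the root groups (`root` is `a⁻¹ rt`); if it fails, the third holds for all `a, b`. -/
theorem Sy.dick (s : Sy B k) {u v : V} (hu : Cen s.alt H u) (hv : Cen s.alt H v) (h : B u v ≠ 0) :
    (∃ K : Subfield F, Nat.card K = Nat.card (rt s.alt H u) ∧
      ∀ a ∈ rt s.alt H u, ∀ b ∈ rt s.alt H v, a * b * B u v ^ 2 ∈ K) ∨
    ((3 : F) = 0 ∧ Nat.card (rt s.alt H u) ≤ 3 ∧
      ∀ a ∈ rt s.alt H u, ∀ b ∈ rt s.alt H v, (a * b * B u v ^ 2) ^ 5 = a * b * B u v ^ 2) := by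
  obtain ⟨-, a, a0, ha⟩ := hu
  obtain ⟨-, b, b0, hb⟩ := hv
  refine or_iff_not_imp_left.2 fun n => ?_
  obtain ⟨h1, h2, -⟩ := (dick_aux s h ha a0 hb b0).resolve_left n
  refine ⟨h1, h2, fun x hx y hy => ?_⟩
  rcases eq_or_ne x 0 with rfl | x0
  · simp
  rcases eq_or_ne y 0 with rfl | y0
  · simp
  exact ((dick_aux s h hx x0 hy y0).resolve_left n).2.2

theorem three_le_card {F : Type*} [Field F] [Finite F] (h2 : (2 : F) ≠ 0) {A : AddSubgroup F} {a : F}
    (ha : a ∈ A) (a0 : a ≠ 0) : 3 ≤ Nat.card A := by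
  have : ({0, a, -a} : Set F).ncard = 3 := Set.ncard_eq_three.2 ⟨_, _, _, a0.symm, by simpa using a0,
    fun e => mul_ne_zero h2 a0 (by linear_combination e), rfl⟩
  rw [← this]
  refine Set.ncard_le_ncard (t := (A : Set F)) ?_
  rintro _ (rfl | rfl | rfl)
  exacts [A.zero_mem, ha, A.neg_mem ha]

theorem card_le_three {F : Type*} [Field F] {A : AddSubgroup F} {a : F}
    (h : ∀ x ∈ A, x = 0 ∨ x = a ∨ x = -a) : Nat.card A ≤ 3 :=
  (Set.ncard_le_ncard (t := {0, a, -a}) h).trans ((Set.ncard_insert_le _ _).trans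
    (Nat.succ_le_succ ((Set.ncard_insert_le _ _).trans (by simp))))

/-- First case of `dick`: `b ↦ a b B(u, v)²` is injective.  Second case: it maps `rt v` into the at
most `5` roots of `x⁵ = x`, and `|rt v|` is a power of `3` (or: two elements `x, y` of an additive
group inside `{0, ±1, ±i}` have `y ∈ {0, ± x}`), while `|rt u| ≥ 3`. -/
theorem Sy.rt_le (s : Sy B k) {u v : V} (hu : Cen s.alt H u) (hv : Cen s.alt H v) (h : B u v ≠ 0) :
    Nat.card (rt s.alt H v) ≤ Nat.card (rt s.alt H u) := by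
  have := s.fin
  obtain ⟨a, a0, ha⟩ := hu.2
  obtain ⟨b, b0, hb⟩ := hv.2
  have c0 : a * B u v ^ 2 ≠ 0 := mul_ne_zero a0 (pow_ne_zero _ h)
  rcases s.dick hu hv h with ⟨K, hK, m⟩ | ⟨h3, -, m⟩
  · rw [← hK]
    exact Nat.card_le_card_of_injective (fun y : rt s.alt H v => (⟨_, m a ha y y.2⟩ : K))
      fun y z e => Subtype.ext (by simpa [a0, h] using e)
  refine le_trans (card_le_three (a := b) fun y hy => ?_) (three_le_card s.two ha a0)
  by_contra n
  push Not at n
  have f : ∀ y ∈ rt s.alt H v, y ≠ 0 → (a * B u v ^ 2) ^ 4 * y ^ 4 = 1 := fun y hy y0 =>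
    mul_left_cancel₀ (mul_ne_zero c0 y0) (by linear_combination m a ha y hy)
  have e1 := f y hy n.1
  have e2 := f b hb b0
  have e3 := f (y + b) (add_mem hy hb) fun e => n.2.2 (eq_neg_of_add_eq_zero_left e)
  have e4 : y ^ 2 + b ^ 2 = 0 := by
    refine mul_left_cancel₀ (mul_ne_zero (pow_ne_zero 4 c0) (mul_ne_zero (sub_ne_zero.2 n.2.1)
      (show y + b ≠ 0 from fun e => n.2.2 (eq_neg_of_add_eq_zero_left e)))) ?_
    linear_combination e1 - e2
  have e5 : (a * B u v ^ 2) ^ 4 * b ^ 4 * 5 = 0 := by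
    linear_combination -e3 + e2 + (a * B u v ^ 2) ^ 4 * (y ^ 2 + 4 * y * b + 5 * b ^ 2) * e4
  rw [e2] at e5
  exact s.two (by linear_combination e5 - h3)

/-- `rt_le` and `Conn.cn`. -/
theorem Sy.rt_eq (s : Sy B k) (c : Conn s.alt H) {u v : V} (hu : Cen s.alt H u)
    (hv : Cen s.alt H v) : Nat.card (rt s.alt H u) = Nat.card (rt s.alt H v) := by
  exact c.cn (fun y => Nat.card (rt s.alt H u) = Nat.card (rt s.alt H y)) ⟨u, hu, rfl⟩
    (fun x y hx hy h e => e.trans (le_antisymm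
      (s.rt_le hy hx (by rwa [skew s.alt, neg_ne_zero])) (s.rt_le hx hy h))) v hv

/-- Subfields of the same order `r` agree (the roots of `X^r - X`). -/
theorem subfield_eq {F : Type*} [Field F] [Finite F] {K K' : Subfield F}
    (h : Nat.card K = Nat.card K') : K = K' := by
  classical
  have key : ∀ K : Subfield F, (K : Set F) =
      ((Polynomial.X ^ Nat.card K - Polynomial.X : Polynomial F).roots.toFinset : Set F) := fun K => by
    have := Fintype.ofFinite K
    have h1 : 1 < Nat.card K := Finite.one_lt_card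
    have h0 := FiniteField.X_pow_card_sub_X_ne_zero F h1
    refine Set.eq_of_subset_of_ncard_le (fun x hx => ?_) ?_
    · have := congrArg Subtype.val (FiniteField.pow_card (⟨x, hx⟩ : K))
      simp only [Finset.mem_coe, Multiset.mem_toFinset, Polynomial.mem_roots h0]
      simpa [sub_eq_zero] using this
    · rw [Set.ncard_coe_finset]
      exact (Multiset.toFinset_card_le _).trans ((Polynomial.card_roots' _).trans
        (FiniteField.X_pow_card_sub_X_natDegree_eq F h1).le)
  exact SetLike.coe_injective (by rw [key, key, h])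

theorem Conn.ex_ne (s : Sy B k) (c : Conn s.alt H) {u : V} (hu : u ≠ 0) :
    ∃ v, Cen s.alt H v ∧ B u v ≠ 0 := by
  by_contra n
  push Not at n
  exact hu (s.eq_zero fun y => (span_le (p := LinearMap.ker (B u))).2 n (c.sp ▸ mem_top))

/-- Either one field contains all `2`-cycles or there is an exceptional pair.  If no pair is
exceptional, the second case of `dick` has all values in `{0, 1, -1} ⊆ ⊥`, `|⊥| = 3 = |rt u|`
(`TVn.card_bot` is in `TVn/Main`; reprove it), so the first case always holds, with one field by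
`rt_eq`, `subfield_eq`.  A centre is not perpendicular to all centres (`Conn.sp`). -/
theorem Sy.dick_all (s : Sy B k) (c : Conn s.alt H) :
    (∃ K : Subfield F, (∀ u, Cen s.alt H u → Nat.card K = Nat.card (rt s.alt H u)) ∧
      ∀ u v, u ≠ 0 → v ≠ 0 → ∀ a ∈ rt s.alt H u, ∀ b ∈ rt s.alt H v, a * b * B u v ^ 2 ∈ K) ∨
    ((3 : F) = 0 ∧ (∀ u, u ≠ 0 → Nat.card (rt s.alt H u) ≤ 3) ∧
      ∃ u v, ∃ a ∈ rt s.alt H u, ∃ b ∈ rt s.alt H v, (a * b * B u v ^ 2) ^ 2 = -1) := by
  have := s.fin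
  refine or_iff_not_imp_right.2 fun n => ?_
  have key : ∀ u v, Cen s.alt H u → Cen s.alt H v → B u v ≠ 0 →
      ∃ K : Subfield F, Nat.card K = Nat.card (rt s.alt H u) ∧
        ∀ a ∈ rt s.alt H u, ∀ b ∈ rt s.alt H v, a * b * B u v ^ 2 ∈ K := fun u v hu hv h => by
    refine (s.dick hu hv h).elim id fun ⟨h3, h1, m⟩ => ⟨⊥, ?_, fun a ha b hb => ?_⟩
    · obtain ⟨a, a0, ha⟩ := hu.2
      refine le_antisymm ((card_le_three (A := (⊥ : Subfield F).toAddSubgroup) (a := 1) fun x hx => ?_).trans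
        (three_le_card s.two ha a0)) (h1.trans (three_le_card (A := (⊥ : Subfield F).toAddSubgroup)
          s.two (one_mem (⊥ : Subfield F)) one_ne_zero))
      have : CharP F 3 := (CharP.charP_iff_prime_eq_zero Nat.prime_three).2 (by exact_mod_cast h3)
      have : Fact (Nat.Prime 3) := ⟨Nat.prime_three⟩
      obtain ⟨m, rfl⟩ := (mem_bot_iff_intCast 3 F).1 hx
      obtain ⟨d, rfl | rfl | rfl⟩ : ∃ d, m = 3 * d ∨ m = 3 * d + 1 ∨ m = 3 * d - 1 := by
        rcases (by omega : m % 3 = 0 ∨ m % 3 = 1 ∨ m % 3 = 2) with e | e | e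
        exacts [⟨m / 3, by omega⟩, ⟨m / 3, by omega⟩, ⟨m / 3 + 1, by omega⟩]
      all_goals simp [h3]
    · have e := m a ha b hb
      have ne : (a * b * B u v ^ 2) ^ 2 + 1 ≠ 0 := fun e' => n ⟨h3, fun w hw => ?_, u, v, a, ha, b, hb,
        eq_neg_of_add_eq_zero_left e'⟩
      · generalize a * b * B u v ^ 2 = t at e ne
        have : t * ((t - 1) * (t + 1)) = 0 := mul_left_cancel₀ ne (by linear_combination e)
        simp only [mul_eq_zero, sub_eq_zero, add_eq_zero_iff_eq_neg] at this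
        rcases this with rfl | rfl | rfl
        exacts [zero_mem _, one_mem _, neg_mem (one_mem _)]
      · by_cases cw : Cen s.alt H w
        · exact s.rt_eq c hu cw ▸ h1
        · exact card_le_three (a := 0) fun x hx => .inl (by_contra fun x0 => cw ⟨hw, x, x0, hx⟩)
  have := s.nontriv
  obtain ⟨x, hx⟩ := exists_ne (0 : V)
  obtain ⟨u, hu, -⟩ := c.ex_ne s hx
  obtain ⟨v, hv, h⟩ := c.ex_ne s hu.1
  obtain ⟨K, hK, -⟩ := key u v hu hv h
  refine ⟨K, fun w hw => hK.trans (s.rt_eq c hu hw), fun y z hy hz a ha b hb => ?_⟩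
  by_cases e : a * b * B y z ^ 2 = 0
  · exact e ▸ K.zero_mem
  simp only [mul_eq_zero, not_or] at e
  have cy : Cen s.alt H y := ⟨hy, a, e.1.1, ha⟩
  obtain ⟨K', hK', m⟩ := key y z cy ⟨hz, b, e.1.2, hb⟩ fun e' => e.2 (by simp [e'])
  exact subfield_eq (hK'.trans ((s.rt_eq c cy hu).trans hK.symm)) ▸ m a ha b hb

end Cfsg.Lib.R3S
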