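import Cfsg.Agent.Lib.R3S.Def

/-! S2195: reducible and imprimitive groups have rank at least four. -/

set_option autoImplicit false

namespace Cfsg.Lib.R3S

open Cfsg.Lib.Symp Module Submodule MulAction

variable {F V : Type*} [Field F] [AddCommGroup V] [Module F V] {B : LinearMap.BilinForm F V} {k : ℕ}
  [Finite V] {H : Subgroup (isom B)}

theorem Sy.ex_dual1 (s : Sy B k) {a b c : V} (h : a ∉ span F {b, c}) :
    ∃ f, B a f = 1 ∧ B b f = 0 ∧ B c f = 0 := by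
  obtain ⟨z, hz, n⟩ : ∃ z, (∀ u ∈ span F {b, c}, B u z = 0) ∧ B a z ≠ 0 := by
    by_contra n
    push Not at n
    exact h (s.dperp n)
  exact ⟨(B a z)⁻¹ • z, by simp [n], by simp [hz b (subset_span (by simp))],
    by simp [hz c (subset_span (by simp))]⟩

/-- Dual vectors: `x ↦ (B (e i) x)_i` is onto for independent `e i` (`dperp`). -/
theorem Sy.ex_dual (s : Sy B k) {e₁ e₂ e₃ : V} (h : LinearIndependent F ![e₁, e₂, e₃]) :
    ∃ f₁ f₂ f₃ : V, B e₁ f₁ = 1 ∧ B e₂ f₁ = 0 ∧ B e₃ f₁ = 0 ∧ B e₁ f₂ = 0 ∧ B e₂ f₂ = 1 ∧ B e₃ f₂ = 0 ∧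
      B e₁ f₃ = 0 ∧ B e₂ f₃ = 0 ∧ B e₃ f₃ = 1 := by
  have k : ∀ a b c : F, a • e₁ + b • e₂ + c • e₃ = 0 → a = 0 ∧ b = 0 ∧ c = 0 := fun a b c e => by
    have := Fintype.linearIndependent_iff.1 h ![a, b, c] (by simpa [Fin.sum_univ_three] using e)
    exact ⟨this 0, this 1, this 2⟩
  obtain ⟨f₁, a⟩ := s.ex_dual1 (a := e₁) (b := e₂) (c := e₃) fun m => by
    obtain ⟨x, y, e⟩ := mem_span_pair.1 m
    simpa using (k (-1) x y (by rw [← e]; module)).1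
  obtain ⟨f₂, b⟩ := s.ex_dual1 (a := e₂) (b := e₁) (c := e₃) fun m => by
    obtain ⟨x, y, e⟩ := mem_span_pair.1 m
    simpa using (k x (-1) y (by rw [← e]; module)).2.1
  obtain ⟨f₃, c⟩ := s.ex_dual1 (a := e₃) (b := e₁) (c := e₂) fun m => by
    obtain ⟨x, y, e⟩ := mem_span_pair.1 m
    simpa using (k x y (-1) (by rw [← e]; module)).2.2
  exact ⟨f₁, f₂, f₃, a.1, a.2.1, a.2.2, b.2.1, b.1, b.2.2, c.2.1, c.2.2, c.1⟩

theorem ncard_lt_of {S T : Set V} (h : S ⊆ T) {x : V} (a : x ∈ T) (b : x ∉ S) : S.ncard < T.ncard :=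
  Set.ncard_lt_ncard ⟨h, fun k => b (k a)⟩

/-- `U^⊥` is invariant, `≠ ⊥, ⊤`.  Take `y ∉ U ∪ U^⊥`; for `0 ≠ u ∈ U`, `0 ≠ z ∈ U^⊥`, `N2` relates `u` and
`z`; so `U = U^⊥` has dimension `k ≥ 3`.  Take independent `e₁, e₂, e₃ ∈ U` and dual `fᵢ`.  For
`g₁ = tv f₁ 1`, `g₂ = g₁ * tv f₂ 1`, `g₃ = g₂ * tv f₃ 1` and `x ∈ U`: `gⱼ x = x + ∑ cᵢ fᵢ` lies in `U` iff all `cᵢ`
vanish (apply `B (eᵢ)`) iff `B x fᵢ = 0` for `i ≤ j`.  The sets decrease strictly (`eⱼ`); `R3.set`. -/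
theorem Sy.not_red (s : Sy B k) (h2 : N2 H) (h3 : R3 H) {U : Submodule F V} (h0 : U ≠ ⊥)
    (inv : ∀ g ∈ H, ∀ u ∈ U, g.1 u ∈ U) : U = ⊤ := by
  by_contra ht
  have inv' : ∀ g ∈ H, ∀ u ∈ B.orthogonal U, g.1 u ∈ B.orthogonal U := fun g hg u hu v hv => by
    have : B _ u = 0 := hu _ (inv _ (H.inv_mem hg) v hv)
    rwa [← isom_apply g, app_inv] at this
  have h0' : B.orthogonal U ≠ ⊥ := fun e => ht (by
    rw [← s.orth_orth U, e]; exact LinearMap.BilinForm.orthogonal_bot)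
  have ht' : B.orthogonal U ≠ ⊤ := fun e => h0 (by
    rw [← s.orth_orth U, e]
    exact eq_bot_iff.2 fun v hv => s.eq_zero fun y => s.alt.isRefl _ _ (hv y trivial))
  obtain ⟨y, y1, y2⟩ : ∃ y, y ∉ U ∧ y ∉ B.orthogonal U := by
    obtain ⟨a, ha⟩ : ∃ a, a ∉ U := by simpa [eq_top_iff'] using ht
    obtain ⟨b, hb⟩ : ∃ a, a ∉ B.orthogonal U := by simpa [eq_top_iff'] using ht'
    by_cases c : a ∈ B.orthogonal U
    · by_cases d : b ∈ U
      · exact ⟨a + b, fun m => ha (by simpa using U.sub_mem m d),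
          fun m => hb (by simpa using (B.orthogonal U).sub_mem m c)⟩
      · exact ⟨b, d, hb⟩
    · exact ⟨a, ha, c⟩
  have y0 : y ≠ 0 := fun e => y1 (e ▸ U.zero_mem)
  have key : ∀ u ∈ U, u ≠ 0 → ∀ z ∈ B.orthogonal U, z ≠ 0 → z ∈ U ∧ u ∈ B.orthogonal U :=
    fun u hu u0 z hz z0 => by
      have i1 := @Rl.iff _ _ _ _ _ _ H (· ∈ U) inv fun c v _ m => U.smul_mem c m
      have i2 := @Rl.iff _ _ _ _ _ _ H (· ∈ B.orthogonal U) inv' fun c v _ m => smul_mem _ c m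
      rcases h2 u z y u0 z0 y0 with r | r | r
      exacts [⟨(i1 u0 z0 r).1 hu, (i2 u0 z0 r).2 hz⟩, (y1 ((i1 u0 y0 r).1 hu)).elim,
        (y2 ((i2 z0 y0 r).1 hz)).elim]
  obtain ⟨u, hu, u0⟩ := (Submodule.ne_bot_iff _).1 h0
  obtain ⟨z, hz, z0⟩ := (Submodule.ne_bot_iff _).1 h0'
  have eq : B.orthogonal U = U := le_antisymm
    (fun x hx => (eq_or_ne x 0).elim (fun e => e ▸ U.zero_mem) fun x0 => (key u hu u0 x hx x0).1)
    (fun x hx => (eq_or_ne x 0).elim (fun e => e ▸ zero_mem _) fun x0 => (key x hx x0 z hz z0).2)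
  have iso : ∀ u ∈ U, ∀ v ∈ U, B u v = 0 := fun u hu v hv => (eq.ge hv) u hu
  have d := s.finrank_orth U
  have := s.k3
  rw [eq] at d
  obtain ⟨e, he⟩ := exists_linearIndependent_of_le_finrank (R := F) (M := U) (n := 3) (by omega)
  have li : LinearIndependent F ![(e 0 : V), e 1, e 2] := by
    rw [show ![(e 0 : V), e 1, e 2] = U.subtype ∘ e from funext fun i => by fin_cases i <;> rfl]
    exact he.map' U.subtype U.ker_subtype
  obtain ⟨f₁, f₂, f₃, a1, a2, a3, b1, b2, b3, c1, c2, c3⟩ := s.ex_dual li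
  have fm : ∀ x ∈ U, ∀ a b c : F, x + a • f₁ + b • f₂ + c • f₃ ∈ U → a = 0 ∧ b = 0 ∧ c = 0 :=
    fun x hx a b c m => ⟨by simpa [iso _ (e 0).2 x hx, a1, b1, c1] using iso _ (e 0).2 _ m,
      by simpa [iso _ (e 1).2 x hx, a2, b2, c2] using iso _ (e 1).2 _ m,
      by simpa [iso _ (e 2).2 x hx, a3, b3, c3] using iso _ (e 2).2 _ m⟩
  have s1 : ∀ x ∈ U, (tv s.alt f₁ 1).1 x ∈ U ↔ B x f₁ = 0 := fun x hx =>
    ⟨fun m => (fm x hx _ 0 0 (by simpa [tv_apply] using m)).1, fun a => by rwa [tv_fix _ _ a]⟩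
  have s2 : ∀ x ∈ U, (tv s.alt f₁ 1 * tv s.alt f₂ 1).1 x ∈ U ↔ B x f₁ = 0 ∧ B x f₂ = 0 := fun x hx =>
    ⟨fun m => by
      obtain ⟨a, b, -⟩ := fm x hx (B ((tv s.alt f₂ 1).1 x) f₁) (B x f₂) 0 (by
        convert m using 1; rw [mul_app, tv_apply _ f₁]; simp only [tv_apply]; module)
      exact ⟨by rwa [tv_fix _ _ b] at a, b⟩,
    fun a => by rwa [mul_app, tv_fix _ _ a.2, tv_fix _ _ a.1]⟩
  have s3 : ∀ x ∈ U, (tv s.alt f₁ 1 * tv s.alt f₂ 1 * tv s.alt f₃ 1).1 x ∈ U →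
      B x f₁ = 0 ∧ B x f₂ = 0 ∧ B x f₃ = 0 := fun x hx m => by
    obtain ⟨a, b, c⟩ := fm x hx (B ((tv s.alt f₂ 1).1 ((tv s.alt f₃ 1).1 x)) f₁)
      (B ((tv s.alt f₃ 1).1 x) f₂) (B x f₃) (by
        convert m using 1; rw [mul_app, mul_app, tv_apply _ f₁]; simp only [tv_apply]; module)
    rw [tv_fix _ _ c] at a b
    exact ⟨by rwa [tv_fix _ _ b] at a, b, c⟩
  refine h3.set (U : Set V) inv (tv s.alt f₁ 1) (tv s.alt f₁ 1 * tv s.alt f₂ 1)
    (tv s.alt f₁ 1 * tv s.alt f₂ 1 * tv s.alt f₃ 1)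
    (ncard_lt_of (fun x hx => hx.1) (e 0).2 fun m => by simpa [a1] using (s1 _ m.1).1 m.2)
    (ncard_lt_of (x := e 1) (fun x hx => ⟨hx.1, (s1 x hx.1).2 ((s2 x hx.1).1 hx.2).1⟩)
      ⟨(e 1).2, (s1 _ (e 1).2).2 a2⟩ fun m => by simpa [b2] using ((s2 _ m.1).1 m.2).2)
    (ncard_lt_of (x := e 2) (fun x hx => ⟨hx.1, (s2 x hx.1).2 ⟨(s3 x hx.1 hx.2).1, (s3 x hx.1 hx.2).2.1⟩⟩)
      ⟨(e 2).2, (s2 _ (e 2).2).2 ⟨a3, b3⟩⟩ fun m => by simpa [c3] using (s3 _ m.1 m.2).2.2)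

/-- In a non-degenerate `U` of dimension at least `3`: `e, f` hyperbolic, `0 ≠ e' ∈ U ∩ ⟨e, f⟩^⊥`, and `f'`
(project a `y ∈ U` with `B e' y = 1` by `proj_perp`). -/
theorem Sy.ex_four (s : Sy B k) {U : Submodule F V} (h3 : 3 ≤ finrank F U)
    (nd : ∀ u ∈ U, (∀ v ∈ U, B u v = 0) → u = 0) : ∃ e ∈ U, ∃ f ∈ U, ∃ e' ∈ U, ∃ f' ∈ U, B e f = 1 ∧
      B e' f' = 1 ∧ B e e' = 0 ∧ B e f' = 0 ∧ B f e' = 0 ∧ B f f' = 0 := by
  have one : ∀ u ∈ U, u ≠ 0 → ∃ v ∈ U, B u v = 1 := fun u hu u0 => by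
    obtain ⟨v, hv, n⟩ : ∃ v ∈ U, B u v ≠ 0 := by
      by_contra n
      push Not at n
      exact u0 (nd u hu n)
    exact ⟨(B u v)⁻¹ • v, U.smul_mem _ hv, by simp [n]⟩
  obtain ⟨e, he, e0⟩ := (Submodule.ne_bot_iff U).1 fun e => by rw [e, finrank_bot] at h3; omega
  obtain ⟨f, hf, ef⟩ := one e he e0
  obtain ⟨y, hy, n⟩ : ∃ y ∈ U, y ∉ span F {e, f} := by
    by_contra n
    push Not at n
    classical
    have := (finrank_mono (show U ≤ span F {e, f} from n)).trans (finrank_span_le_card (R := F) ({e, f} : Set V))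
    have := this.trans (by simpa using Finset.card_le_two (a := e) (b := f))
    omega
  have pm : ∀ y ∈ U, y - B y f • e - B e y • f ∈ U := fun y hy =>
    U.sub_mem (U.sub_mem hy (U.smul_mem _ he)) (U.smul_mem _ hf)
  obtain ⟨a, b⟩ := proj_perp s.alt ef y
  obtain ⟨z, hz, yz⟩ := one _ (pm y hy) fun e' => n (mem_span_pair.2 ⟨B y f, B e y, by
    rw [sub_sub, sub_eq_zero] at e'; exact e'.symm⟩)
  obtain ⟨c, d⟩ := proj_perp s.alt ef z
  refine ⟨e, he, f, hf, _, pm y hy, _, pm z hz, ef, ?_, a, c, b, d⟩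
  generalize y - B y f • e - B e y • f = w at *
  simp [yz, skew s.alt w e, skew s.alt w f, a, b]

theorem Sy.imp_aux (s : Sy B k) {U₁ U₂ : Submodule F V} (hp : ∀ u ∈ U₁, ∀ v ∈ U₂, B u v = 0)
    (hs : U₁ ⊔ U₂ = ⊤) {e f e' g h g' h' : V} (m1 : e ∈ U₁) (m2 : f ∈ U₁) (m3 : e' ∈ U₁)
    (n1 : g ∈ U₂) (n2 : h ∈ U₂) (n3 : g' ∈ U₂) (n4 : h' ∈ U₂) {ε : F} (ef : B e f = ε) (ε1 : ε ^ 2 = 1)
    (ee : B e e' = 0) (fe : B f e' = 0) (gh : B g h = -ε) (gh' : B g' h' = 1)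
    (g1 : B g g' = 0) (g2 : B g h' = 0) (g3 : B h g' = 0) (g4 : B h h' = 0) {x : V} (hx : x ∈ U₁)
    {a b c : F} (ha : a = 0 ∨ a = B x (e + g)) (hb : b = 0 ∨ b = B x (e' + g'))
    (hc : c = 0 ∨ a = B x (e + g) ∧ c = B x (f + h))
    (m : x + a • (e + g) + b • (e' + g') + c • (f + h) ∈ U₁ ∨
      x + a • (e + g) + b • (e' + g') + c • (f + h) ∈ U₂) : a = 0 ∧ b = 0 ∧ c = 0 := by
  have ε0 : ε ≠ 0 := fun e => by simp [e] at ε1
  have sk := skew s.alt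
  have z := s.alt.self_eq_zero
  rcases m with m | m
  · have t1 := hp _ m g n1
    have t2 := hp _ m h n2
    have t3 := hp _ m h' n4
    simp only [map_add, map_smul, LinearMap.add_apply, LinearMap.smul_apply, smul_eq_mul, hp _ hx _ n1,
      hp _ m1 _ n1, hp _ m2 _ n1, hp _ m3 _ n1, hp _ hx _ n2, hp _ m1 _ n2, hp _ m2 _ n2, hp _ m3 _ n2,
      hp _ hx _ n4, hp _ m1 _ n4, hp _ m2 _ n4, hp _ m3 _ n4, z, gh, gh', g1, g2, g3, g4, sk h g, sk g' g,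
      sk g' h] at t1 t2 t3
    exact ⟨by simpa [ε0] using t2, by simpa using t3, by simpa [ε0] using t1⟩
  · have t1 := hp e m1 _ m
    have t2 := hp f m2 _ m
    have t3 := hp e' m3 _ m
    have x0 : x + a • e + b • e' + c • f = 0 := s.eq_zero fun y => by
      obtain ⟨u, hu, v, hv, rfl⟩ := mem_sup.1 (hs.ge (mem_top : y ∈ ⊤))
      have t := hp u hu _ m
      simp only [map_add, map_smul, LinearMap.add_apply, LinearMap.smul_apply, smul_eq_mul, hp _ hx _ hv,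
        hp _ m1 _ hv, hp _ m2 _ hv, hp _ m3 _ hv, hp _ hu _ n1, hp _ hu _ n2, hp _ hu _ n3, sk x u, sk e u,
        sk e' u, sk f u] at t ⊢
      linear_combination -t
    simp only [map_add, map_smul, smul_eq_mul, hp _ hx _ n1, hp _ m1 _ n1, hp _ m2 _ n1, hp _ m3 _ n1,
      hp _ hx _ n2, hp _ m1 _ n2, hp _ m2 _ n2, hp _ m3 _ n2, hp _ hx _ n3, hp _ m1 _ n3, hp _ m2 _ n3,
      hp _ m3 _ n3, z, ef, ee, fe, sk f e, sk e' e, sk e' f, sk e x, sk f x, sk e' x, add_zero] at t1 t2 t3 ha hb hc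
    have b0 : b = 0 := hb.elim id fun e => by rw [e]; linear_combination -t3
    rcases hc with c0 | ⟨ha, hc⟩
    · refine ⟨ha.elim id fun e => ?_, b0, c0⟩
      rw [e]; linear_combination -t1 + ε * c0
    · have : 2 * a = 0 := by linear_combination ha - t1 + ε * hc - ε * t2 - a * ε1
      have a0 : a = 0 := (mul_eq_zero.1 this).resolve_left s.two
      exact ⟨a0, b0, by linear_combination hc - t2 - ε * a0⟩

/-- `U₁ ⊓ U₂ = ⊥`, both are non-degenerate.  Take `eᵢ, fᵢ, eᵢ', fᵢ' ∈ Uᵢ` (`ex_four`), and the mutually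
perpendicular vectors `u = e₁ + e₂`, `w = e₁' + e₂'`, `z = f₁ - f₂`; `g₁ = tv u 1`, `g₂ = g₁ * tv w 1`,
`g₃ = g₂ * tv z 1`, `O = U₁ ∪ U₂`.  For `x ∈ U₁`, `g₃ x = x + B(x, u) u + B(x, w) w + B(x, z) z` lies in `U₁` iff
the three coefficients vanish; if it lies in `U₂`, then `x + B(x, e₁) e₁ + B(x, e₁') e₁' + B(x, f₁) f₁ = 0`, and
pairing with `e₁', e₁, f₁, f₁'` gives `x = 0` (`B(x, f₁) = - B(x, e₁) = B(x, e₁)`).  Similarly for `U₂` and
`g₁, g₂`.  So `{x ∈ O | gⱼ x ∈ O}` is `O ∩ u^⊥`, `O ∩ u^⊥ ∩ w^⊥`, `O ∩ u^⊥ ∩ w^⊥ ∩ z^⊥`, strictly decreasing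
(`f₁`, `f₁'`, `e₁`); `R3.set`. -/
theorem Sy.not_imp (s : Sy B k) (h3 : R3 H) {U₁ U₂ : Submodule F V} (d1 : 3 ≤ finrank F U₁)
    (d2 : 3 ≤ finrank F U₂) (hp : ∀ u ∈ U₁, ∀ v ∈ U₂, B u v = 0) (hs : U₁ ⊔ U₂ = ⊤)
    (inv : ∀ g ∈ H, ∀ u, u ∈ U₁ ∨ u ∈ U₂ → g.1 u ∈ U₁ ∨ g.1 u ∈ U₂) : False := by
  have sk := skew s.alt
  have z := s.alt.self_eq_zero
  have hp' : ∀ u ∈ U₂, ∀ v ∈ U₁, B u v = 0 := fun u hu v hv => by rw [sk, hp v hv u hu, neg_zero]
  obtain ⟨e, m1, f, m2, e', m3, f', m4, ef, ef', a1, a2, a3, a4⟩ := s.ex_four d1 fun u hu h =>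
    s.eq_zero fun y => by
      obtain ⟨a, ha, b, hb, rfl⟩ := mem_sup.1 (hs.ge (mem_top : y ∈ ⊤))
      simp [h a ha, hp u hu b hb]
  obtain ⟨g, n1, h, n2, g', n3, h', n4, gh, gh', b1, b2, b3, b4⟩ := s.ex_four d2 fun u hu h =>
    s.eq_zero fun y => by
      obtain ⟨a, ha, b, hb, rfl⟩ := mem_sup.1 (hs.ge (mem_top : y ∈ ⊤))
      simp [h b hb, hp' u hu a ha]
  have key : ∀ x, x ∈ U₁ ∨ x ∈ U₂ → ∀ a b c : F, (a = 0 ∨ a = B x (e + g)) → (b = 0 ∨ b = B x (e' + g')) →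
      (c = 0 ∨ a = B x (e + g) ∧ c = B x (f + -h)) →
      (x + a • (e + g) + b • (e' + g') + c • (f + -h) ∈ U₁ ∨
        x + a • (e + g) + b • (e' + g') + c • (f + -h) ∈ U₂) → a = 0 ∧ b = 0 ∧ c = 0 := by
    rintro x (hx | hx) a b c ha hb hc m
    · exact s.imp_aux hp hs m1 m2 m3 n1 (neg_mem n2) n3 n4 ef (one_pow 2) a1 a3 (by simp [gh]) gh'
        b1 b2 (by simp [b3]) (by simp [b4]) hx ha hb hc m
    · rw [add_comm e, add_comm e', add_comm f] at *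
      exact s.imp_aux hp' (by rw [sup_comm, hs]) n1 (neg_mem n2) n3 m1 m2 m3 m4 (ε := -1)
        (by simp [gh]) (by simp) b1 (by simp [b3]) (by simp [ef]) ef' a1 a2 a3 a4 hx ha hb hc m.symm
  have uw : B (e' + g') (e + g) = 0 := by simp [sk e' e, sk g' g, a1, b1, hp _ m3 _ n1, hp' _ n3 _ m1]
  have uz : B (f + -h) (e + g) = 0 := by simp [sk f e, sk h g, ef, gh, hp _ m2 _ n1, hp' _ n2 _ m1]
  have wz : B (f + -h) (e' + g') = 0 := by simp [a3, b3, hp _ m2 _ n3, hp' _ n2 _ m3]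
  have t1 : B f (e + g) = -1 := by simp [sk f e, ef, hp _ m2 _ n1]
  have t2 : B f' (e + g) = 0 := by simp [sk f' e, a2, hp _ m4 _ n1]
  have t3 : B f' (e' + g') = -1 := by simp [sk f' e', ef', hp _ m4 _ n3]
  have t4 : B e (e + g) = 0 := by simp [z, hp _ m1 _ n1]
  have t5 : B e (e' + g') = 0 := by simp [a1, hp _ m1 _ n3]
  have t6 : B e (f + -h) = 1 := by simp [ef, hp _ m1 _ n2]
  generalize e + g = u, e' + g' = w, f + -h = v at *
  let O : Set V := {x | x ∈ U₁ ∨ x ∈ U₂}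
  have s1 : ∀ x ∈ O, (tv s.alt u 1).1 x ∈ O ↔ B x u = 0 := fun x hx =>
    ⟨fun m => (key x hx _ 0 0 (.inr rfl) (.inl rfl) (.inl rfl) (by simpa [tv_apply, O] using m)).1,
      fun a => by rwa [tv_fix _ _ a]⟩
  have s2 : ∀ x ∈ O, (tv s.alt u 1 * tv s.alt w 1).1 x ∈ O ↔ B x u = 0 ∧ B x w = 0 := fun x hx =>
    ⟨fun m => by
      obtain ⟨a, b, -⟩ := key x hx _ _ 0 (.inr rfl) (.inr rfl) (.inl rfl) (by
        simpa [mul_app, tv_apply, uw, add_right_comm, O] using m)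
      exact ⟨a, b⟩,
    fun a => by rwa [mul_app, tv_fix _ _ a.2, tv_fix _ _ a.1]⟩
  have s3 : ∀ x ∈ O, (tv s.alt u 1 * tv s.alt w 1 * tv s.alt v 1).1 x ∈ O →
      B x u = 0 ∧ B x w = 0 ∧ B x v = 0 := fun x hx m =>
    key x hx _ _ _ (.inr rfl) (.inr rfl) (.inr ⟨rfl, rfl⟩) (by
      have : (tv s.alt u 1 * tv s.alt w 1 * tv s.alt v 1).1 x = x + B x u • u + B x w • w + B x v • v := by
        simp [mul_app, tv_apply, uw, uz, wz]; module
      exact this ▸ m)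
  exact h3.set O inv (tv s.alt u 1) (tv s.alt u 1 * tv s.alt w 1)
    (tv s.alt u 1 * tv s.alt w 1 * tv s.alt v 1)
    (ncard_lt_of (x := f) (fun x hx => hx.1) (.inl m2) fun m => by simpa [t1] using (s1 _ m.1).1 m.2)
    (ncard_lt_of (x := f') (fun x hx => ⟨hx.1, (s1 x hx.1).2 ((s2 x hx.1).1 hx.2).1⟩)
      ⟨.inl m4, (s1 _ (.inl m4)).2 t2⟩ fun m => by simpa [t3] using ((s2 _ m.1).1 m.2).2)
    (ncard_lt_of (x := e) (fun x hx => ⟨hx.1, (s2 x hx.1).2 ⟨(s3 x hx.1 hx.2).1, (s3 x hx.1 hx.2).2.1⟩⟩)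
      ⟨.inl m1, (s2 _ (.inl m1)).2 ⟨t4, t5⟩⟩ fun m => by simpa [t6] using (s3 _ m.1 m.2).2.2)

/-- The component of a centre. -/
def Cp (hA : B.IsAlt) (H : Subgroup (isom B)) (x y : V) : Prop :=
  Relation.ReflTransGen (fun a b => Cen hA H a ∧ Cen hA H b ∧ B a b ≠ 0) x y

omit [Finite V] in
theorem Cp.symm {hA : B.IsAlt} {x y : V} (h : Cp hA H x y) : Cp hA H y x := by
  induction h with
  | refl => exact .refl
  | tail _ m ih => exact .head ⟨m.2.1, m.1, by rw [skew hA]; simpa using m.2.2⟩ ih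

omit [Finite V] in
theorem Cp.cen {hA : B.IsAlt} {x y : V} (h : Cp hA H x y) (hx : Cen hA H x) : Cen hA H y := by
  induction h with
  | refl => exact hx
  | tail _ m _ => exact m.2.1

omit [Finite V] in
theorem Cp.map {hA : B.IsAlt} {x y : V} (h : Cp hA H x y) {g : isom B} (hg : g ∈ H) :
    Cp hA H (g.1 x) (g.1 y) := by
  induction h with
  | refl => exact .refl
  | tail _ m ih => exact ih.tail ⟨m.1.conj hg, m.2.1.conj hg, by rw [isom_apply]; exact m.2.2⟩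

omit [Finite V] in
theorem cp_perp {hA : B.IsAlt} {x y : V} (hx : Cen hA H x) (hy : Cen hA H y) (h : ¬ Cp hA H x y) :
    ∀ u ∈ span F {z | Cp hA H x z}, ∀ v ∈ span F {z | Cp hA H y z}, B u v = 0 := fun u hu v hv => by
  induction hu using span_induction with
  | mem a ha =>
    refine (span_le (p := LinearMap.ker (B a))).2 (fun b hb => by_contra fun n => h ?_) hv
    exact (Relation.ReflTransGen.tail ha ⟨Cp.cen ha hx, Cp.cen hb hy, n⟩).trans (Cp.symm hb)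
  | zero => simp
  | add a b _ _ c d => simp [c, d]
  | smul c a _ d => simp [d]

omit [Finite V] in
theorem cp_eq {hA : B.IsAlt} {x y : V} (h : Cp hA H x y) : {z | Cp hA H x z} = {z | Cp hA H y z} :=
  Set.ext fun _ => ⟨fun m => h.symm.trans m, fun m => h.trans m⟩

omit [Finite V] in
theorem cp_map {hA : B.IsAlt} {x p : V} {g : isom B} (hg : g ∈ H) (h : p ∈ span F {z | Cp hA H x z}) :
    g.1 p ∈ span F {z | Cp hA H (g.1 x) z} :=
  (span_le (p := (span F {z | Cp hA H (g.1 x) z}).comap g.1.toLinearMap)).2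
    (fun _ m => subset_span (Cp.map m hg)) h

/-- `sp`: `not_red`.  `cn`: for a centre `x` let `U x` be the span of its component (`Relation.ReflTransGen`
of "centres, not perpendicular").  Two centres have the same component or `U x ⊥ U y`;
`g (U x) = U (g x)`; `p ∈ U x`, `p ⊥ U x` gives `p = 0` (`sp`).  Suppose `x₀, y₀` are in different components.
`P p := ∃ x, p ∈ U x`, `Q p := ∃ x y, p ∈ U x ⊔ U y` are invariant; `P x₀`, `¬ P (x₀ + y₀)` (one of the two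
components differs from the one of `x`, say that of `x₀`; then `x₀ ⊥ U x₀`), `Q (x₀ + y₀)`, and for `z₀` in a
third component `¬ Q (x₀ + y₀ + z₀)`: `N2.false`.  So there are two components, `U x₀ ⊔ U y₀ = ⊤`.  `N2`
relates `x₀` and `y₀`, so both have dimension `k`.  `not_imp`. -/
theorem Sy.conn (s : Sy B k) (h2 : N2 H) (h3 : R3 H) {x : V} (hx : Cen s.alt H x) : Conn s.alt H := by
  have sp : span F {v | Cen s.alt H v} = ⊤ := s.not_red h2 h3
    (fun e => hx.1 (by simpa [e] using (subset_span hx : x ∈ span F {v | Cen s.alt H v})))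
    fun g hg u hu => (span_le (p := (span F {v | Cen s.alt H v}).comap g.1.toLinearMap)).2
      (fun _ m => subset_span (Cen.conj hg m)) hu
  refine ⟨sp, fun D ⟨x, hx, dx⟩ hD y hy => ?_⟩
  suffices Cp s.alt H x y by
    induction this with
    | refl => exact dx
    | tail _ m ih => exact hD _ _ m.1 m.2.1 m.2.2 (ih m.1)
  by_contra xy
  let U : V → Submodule F V := fun x => span F {z | Cp s.alt H x z}
  have me : ∀ x, x ∈ U x := fun x => subset_span Relation.ReflTransGen.refl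
  have nd : ∀ x, Cen s.alt H x → (∀ v ∈ U x, B x v = 0) → False := fun x hx h => hx.1 <|
    s.eq_zero fun y => (span_le (p := LinearMap.ker (B x))).2 (fun z hz => by
      by_cases c : Cp s.alt H x z
      exacts [h z (subset_span c), cp_perp hx hz c x (me x) z (me z)]) (sp.ge mem_top)
  have p1 : ∀ g ∈ H, ∀ v, (∃ a, Cen s.alt H a ∧ v ∈ U a) → ∃ a, Cen s.alt H a ∧ g.1 v ∈ U a :=
    fun g hg v ⟨a, ha, m⟩ => ⟨_, ha.conj hg, cp_map hg m⟩
  have p2 : ∀ (c : F) v, c ≠ 0 → (∃ a, Cen s.alt H a ∧ v ∈ U a) → ∃ a, Cen s.alt H a ∧ c • v ∈ U a :=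
    fun c v _ ⟨a, ha, m⟩ => ⟨a, ha, smul_mem _ c m⟩
  have kill : ∀ x p, Cen s.alt H x → (∀ v ∈ U x, B p v = 0) → ¬ ∀ v ∈ U x, B (x + p) v = 0 :=
    fun x p hx a b => nd x hx fun v hv => by simpa [a v hv] using b v hv
  have yx : ¬ Cp s.alt H y x := fun c => xy c.symm
  have np : ¬ ∃ a, Cen s.alt H a ∧ x + y ∈ U a := fun ⟨a, ha, m⟩ => by
    by_cases c : Cp s.alt H a x
    · exact kill y x hy (cp_perp hx hy xy x (me x))
        (cp_perp ha hy (fun d => xy (c.symm.trans d)) _ (add_comm x y ▸ m))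
    · exact kill x y hx (cp_perp hy hx yx y (me y)) (cp_perp ha hx c _ m)
  have n0 : x + y ≠ 0 := fun e => np ⟨x, hx, e ▸ zero_mem _⟩
  have two : ∀ z, Cen s.alt H z → Cp s.alt H x z ∨ Cp s.alt H y z := fun z hz => by
    by_contra n
    push Not at n
    have nq : ¬ ∃ a b, Cen s.alt H a ∧ Cen s.alt H b ∧ x + y + z ∈ U a ⊔ U b := fun ⟨a, b, ha, hb, m⟩ => by
      have key : ∀ u p, Cen s.alt H u → u + p = x + y + z → (∀ v ∈ U u, B p v = 0) →
          Cp s.alt H a u ∨ Cp s.alt H b u := fun u p hu e h => by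
        by_contra n
        push Not at n
        obtain ⟨c, hc, d, hd, e'⟩ := mem_sup.1 m
        exact kill u p hu h fun v hv => by
          simp [e, ← e', cp_perp ha hu n.1 c hc v hv, cp_perp hb hu n.2 d hd v hv]
      have k1 := key x (y + z) hx (by abel) fun v hv => by
        simp [cp_perp hy hx yx y (me y) v hv, cp_perp hz hx (fun c => n.1 c.symm) z (me z) v hv]
      have k2 := key y (x + z) hy (by abel) fun v hv => by
        simp [cp_perp hx hy xy x (me x) v hv, cp_perp hz hy (fun c => n.2 c.symm) z (me z) v hv]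
      have k3 := key z (x + y) hz (by abel) fun v hv => by
        simp [cp_perp hx hz n.1 x (me x) v hv, cp_perp hy hz n.2 y (me y) v hv]
      rcases k1 with a | a <;> rcases k2 with b | b <;> rcases k3 with c | c <;>
        first | exact xy (a.symm.trans b) | exact n.1 (a.symm.trans c) | exact n.2 (b.symm.trans c)
    exact h2.false p1 p2 (Q := fun v => ∃ a b, Cen s.alt H a ∧ Cen s.alt H b ∧ v ∈ U a ⊔ U b)
      (fun g hg v ⟨a, b, ha, hb, m⟩ => by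
        obtain ⟨c, hc, d, hd, rfl⟩ := mem_sup.1 m
        exact ⟨_, _, ha.conj hg, hb.conj hg, map_add g.1 c d ▸ add_mem_sup (cp_map hg hc) (cp_map hg hd)⟩)
      (fun c v _ ⟨a, b, ha, hb, m⟩ => ⟨a, b, ha, hb, smul_mem _ c m⟩) hx.1 n0
      (w := x + y + z) (fun e => nq ⟨x, x, hx, hx, e ▸ zero_mem _⟩) ⟨x, hx, me x⟩ np
      (fun ⟨a, ha, m⟩ => nq ⟨a, a, ha, ha, mem_sup_left m⟩) ⟨x, y, hx, hy, add_mem_sup (me x) (me y)⟩ nq
  have top : U x ⊔ U y = ⊤ := top_le_iff.1 (sp.ge.trans (span_le.2 fun z hz =>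
    (two z hz).elim (fun c => mem_sup_left (subset_span c)) fun c => mem_sup_right (subset_span c)))
  have inv : ∀ g ∈ H, ∀ a, Cen s.alt H a → ∀ u ∈ U a, g.1 u ∈ U x ∨ g.1 u ∈ U y := fun g hg a ha u m =>
    (two _ (ha.conj hg)).imp (fun c => by simpa only [U, cp_eq c] using cp_map hg m)
      fun c => by simpa only [U, cp_eq c] using cp_map hg m
  have le : ∀ {x y : V}, Cen s.alt H y → Rl H x y → x ≠ 0 → finrank F (U x) ≤ finrank F (U y) := by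
    rintro x y hy ⟨g, hg, c, e⟩ x0
    have c0 : c ≠ 0 := fun h0 => app_ne g x0 (by simp [e, h0])
    obtain ⟨w, hw, n⟩ : ∃ w, Cen s.alt H w ∧ B y w ≠ 0 := by
      by_contra n
      push Not at n
      exact hy.1 (s.eq_zero fun z => (span_le (p := LinearMap.ker (B y))).2 n (sp.ge mem_top))
    have cp : Cp s.alt H (c • y) y := (Relation.ReflTransGen.single ⟨hy.smul c0, hw, by simp [c0, n]⟩).trans
      (Cp.symm (Relation.ReflTransGen.single ⟨hy, hw, n⟩))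
    rw [← LinearEquiv.finrank_map_eq g.1]
    refine finrank_mono ?_
    rintro _ ⟨p, hp, rfl⟩
    have := cp_map hg hp
    rwa [e, cp_eq cp] at this
  have r : Rl H x y := by
    rcases h2 x y (x + y) hx.1 hy.1 n0 with r | r | r
    exacts [r, (np ((r.iff p1 p2 hx.1 n0).1 ⟨x, hx, me x⟩)).elim,
      (np ((r.iff p1 p2 hy.1 n0).1 ⟨y, hy, me y⟩)).elim]
  have d1 := le hy r hx.1
  have d2 := le hx (r.symm hx.1) hy.1
  have d3 := finrank_add_le_finrank_add_finrank (U x) (U y)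
  have := s.k3
  rw [top, finrank_top, s.dim] at d3
  exact s.not_imp (U₁ := U x) (U₂ := U y) h3 (by omega) (by omega) (cp_perp hx hy xy) top fun g hg u m =>
    m.elim (inv g hg x hx u) (inv g hg y hy u)

end Cfsg.Lib.R3S
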