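import Cfsg.Agent.Lib.R3S.Def

/-! S2195: full root groups, and the exceptional pairs. -/

set_option autoImplicit false

namespace Cfsg.Lib.R3S

open Cfsg.Lib.Symp Module Submodule MulAction

variable {F V : Type*} [Field F] [AddCommGroup V] [Module F V] {B : LinearMap.BilinForm F V} {k : ℕ}
  [Finite V] {H : Subgroup (isom B)}

omit [Finite V] in
/-- `tv u a v = v + a B(v, u) u`; `Cen.conj`, `Cen.smul`. -/
theorem cen_line {hA : B.IsAlt} (full : ∀ v, Cen hA H v → ∀ a, tv hA v a ∈ H) {u v : V}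
    (hu : Cen hA H u) (hv : Cen hA H v) (h : B u v ≠ 0) {x y : F} (h0 : x • u + y • v ≠ 0) :
    Cen hA H (x • u + y • v) := by
  rcases eq_or_ne y 0 with rfl | y0
  · simpa using hu.smul (a := x) fun e => h0 (by simp [e])
  have h' : B v u ≠ 0 := by rwa [skew hA, neg_ne_zero]
  convert (hv.conj (full u hu (x / y / B v u))).smul y0 using 1
  rw [tv_apply]
  match_scalars <;> field_simp

omit [Finite V] in
theorem Sy.ex_avoid (s : Sy B k) (a b : F) (hb : b ≠ 0) : ∃ c : F, c ≠ 0 ∧ a + c * b ≠ 0 := by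
  by_cases h : a + 1 * b = 0
  · exact ⟨-1, by simp, fun e => mul_ne_zero s.two hb (by linear_combination h - e)⟩
  · exact ⟨1, one_ne_zero, h⟩

theorem Sy.ex_two_ne (s : Sy B k) {W : Submodule F V} {a b : V} (ha : ∃ y ∈ W, B a y ≠ 0)
    (hb : ∃ y ∈ W, B b y ≠ 0) : ∃ y ∈ W, B a y ≠ 0 ∧ B b y ≠ 0 := by
  obtain ⟨x, hx, a1⟩ := ha
  obtain ⟨y, hy, b1⟩ := hb
  by_cases a2 : B a y = 0
  · by_cases b2 : B b x = 0
    · exact ⟨x + y, W.add_mem hx hy, by simpa [a2] using a1, by simpa [b2] using b1⟩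
    · exact ⟨x, hx, a1, b2⟩
  · exact ⟨y, hy, a2, b1⟩

/-- Three non-zero functionals on `W` have a common non-zero (`|F| ≥ 3`: three hyperplanes through `0`
have at most `3 q^(n-1) - 2 < q^n` elements; Mathlib has `Submodule.iUnion_ssubset_of_forall_ne_top_of_card_lt`
or `Submodule.exists_forall_notMem_of_forall_ne_top`-like lemmas). -/
theorem Sy.ex_three_ne (s : Sy B k) {W : Submodule F V} {a b c : V} (ha : ∃ y ∈ W, B a y ≠ 0)
    (hb : ∃ y ∈ W, B b y ≠ 0) (hc : ∃ y ∈ W, B c y ≠ 0) :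
    ∃ y ∈ W, B a y ≠ 0 ∧ B b y ≠ 0 ∧ B c y ≠ 0 := by
  have last : ∀ {a b c : V} {x y : V}, x ∈ W → y ∈ W → B a x ≠ 0 → B b x ≠ 0 → B c x = 0 → B a y = 0 →
      B c y ≠ 0 → ∃ y ∈ W, B a y ≠ 0 ∧ B b y ≠ 0 ∧ B c y ≠ 0 := fun {a b c x y} hx hy a1 b1 c1 a2 c2 => by
    obtain ⟨t, t0, ht⟩ := s.ex_avoid (B b y) _ b1
    exact ⟨y + t • x, W.add_mem hy (W.smul_mem t hx), by simp [a1, a2, t0], by simpa using ht,
      by simpa [c1] using c2⟩
  obtain ⟨x, hx, a1, b1⟩ := s.ex_two_ne ha hb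
  obtain ⟨y, hy, b2, c2⟩ := s.ex_two_ne hb hc
  by_cases c1 : B c x = 0
  · by_cases a2 : B a y = 0
    · exact last hx hy a1 b1 c1 a2 c2
    · exact ⟨y, hy, a2, b2, c2⟩
  · exact ⟨x, hx, a1, b1, c1⟩

/-- Call `W` good if all `x ∈ W` not perpendicular to `W` are centres.  Let `v` be a centre not
perpendicular to the good `W`, `W` not totally isotropic, `w = x + v` (`x ∈ W`) not in the radical of
`W ⊔ ⟨v⟩`.  (a) `x` not in the radical of `W`, `B v x ≠ 0`: `cen_line`.  (b) `x` not in the radical,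
`B v x = 0`: take `y ∈ W` with `B x y, B v y, B w y ≠ 0`; `x - y`, `y`, are centres; `v' = v + c y` is a centre
for all `c`, and `w = v' + (x - c y)`, where `x - c y` is a centre and `B v' (x - c y) = - c (B v y + B x y)
≠ 0` for `c = 1`.  (c) `x` in the radical of `W`: take `y ∈ W` outside the radical with `B v y ≠ 0` and
`B v (x + y) ≠ 0` (scale `y`); `v' = v + (x + y)` is a centre, `B v' y ≠ 0`, `w = v' - y`.  Finally for `x` in
the radical of `W` with `B x v ≠ 0`, `w = x + v` is a centre by (c), and `x = w - v`. -/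
theorem Sy.good_sup (s : Sy B k) (full : ∀ v, Cen s.alt H v → ∀ a, tv s.alt v a ∈ H)
    {W : Submodule F V} (hW : ∀ x ∈ W, (∃ y ∈ W, B x y ≠ 0) → Cen s.alt H x)
    (hn : ∃ x ∈ W, ∃ y ∈ W, B x y ≠ 0) {v : V} (hv : Cen s.alt H v) (hv' : ∃ y ∈ W, B v y ≠ 0) :
    ∀ x ∈ W ⊔ span F {v}, (∃ y ∈ W ⊔ span F {v}, B x y ≠ 0) → Cen s.alt H x := by
  have sk := skew s.alt
  have z := s.alt.self_eq_zero
  have ln : ∀ {u v : V}, Cen s.alt H u → Cen s.alt H v → B u v ≠ 0 → ∀ c : F, Cen s.alt H (u + c • v) :=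
    fun {u v} hu hv h c => by
      simpa using cen_line full hu hv h (x := 1) (y := c) fun e => h (by simpa [z] using congrArg (B · v) e)
  have key : ∀ x ∈ W, (∃ y ∈ W ⊔ span F {v}, B (v + x) y ≠ 0) → Cen s.alt H (v + x) := by
    rintro x hx ⟨y, hy, n⟩
    by_cases rad : ∃ y ∈ W, B x y ≠ 0
    · by_cases vx : B v x = 0
      · obtain ⟨y', hy', w, hw, rfl⟩ := mem_sup.1 hy
        obtain ⟨c, rfl⟩ := mem_span_singleton.1 hw
        obtain ⟨y, hy, a, b, d⟩ := s.ex_three_ne rad hv' (c := v + x)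
          ⟨y', hy', by simpa [z, sk x v, vx] using n⟩
        have cy := hW y hy ⟨x, hx, by rwa [sk, neg_ne_zero]⟩
        have := ln (ln hv cy b 1) (hW (x - y) (W.sub_mem hx hy) ⟨y, hy, by simpa [z] using a⟩)
          (fun e => d (by simp [z, vx, sk y x] at e ⊢; linear_combination -e)) 1
        simpa using this
      · simpa using ln hv (hW x hx rad) vx 1
    · push Not at rad
      obtain ⟨a, ha, b, hb, ab⟩ := hn
      obtain ⟨y, hy, by', vy⟩ := s.ex_two_ne (a := b) ⟨a, ha, by rwa [sk, neg_ne_zero]⟩ hv'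
      obtain ⟨t, t0, ht⟩ := s.ex_avoid (B v x) _ vy
      have yb : B y b ≠ 0 := by rwa [sk, neg_ne_zero]
      have := ln (ln hv (hW (x + t • y) (W.add_mem hx (W.smul_mem t hy))
        ⟨b, hb, by simp [rad b hb, t0, yb]⟩) (by simpa using ht) 1) (hW y hy ⟨b, hb, yb⟩)
        (by simpa [rad y hy, z] using vy) (-t)
      simpa [add_assoc] using this
  rintro _ hx' ⟨y, hy', n⟩
  obtain ⟨x, hx, w, hw, rfl⟩ := mem_sup.1 hx'
  obtain ⟨c, rfl⟩ := mem_span_singleton.1 hw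
  rcases eq_or_ne c 0 with rfl | c0
  · rw [zero_smul, add_zero] at n ⊢
    by_cases rad : ∃ y ∈ W, B x y ≠ 0
    · exact hW x hx rad
    push Not at rad
    obtain ⟨y, hy, w, hw, rfl⟩ := mem_sup.1 hy'
    obtain ⟨c, rfl⟩ := mem_span_singleton.1 hw
    have xv : B x v ≠ 0 := fun e => n (by simp [rad y hy, e])
    simpa using ln (key x hx ⟨v, mem_sup_right (mem_span_singleton_self v), by simpa [z] using xv⟩) hv
      (by simpa [z] using xv) (-1)
  · convert (key (c⁻¹ • x) (W.smul_mem _ hx) ⟨y, hy', fun e => n ?_⟩).smul c0 using 1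
    · simp [smul_smul, c0, add_comm]
    · simp only [map_add, map_smul, LinearMap.add_apply, LinearMap.smul_apply, smul_eq_mul] at e ⊢
      field_simp at e
      linear_combination e

theorem Conn.ex_adj (s : Sy B k) (c : Conn s.alt H) {u : V} (hu : u ≠ 0) :
    ∃ v, Cen s.alt H v ∧ B u v ≠ 0 := by
  by_contra n
  push Not at n
  exact hu (s.eq_zero fun y => (span_le (p := LinearMap.ker (B u))).2 n (c.sp ▸ mem_top))

/-- Take a good, not totally isotropic `W` of maximal dimension (a hyperbolic line on two centres is one,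
`Conn.sp`).  By `good_sup`, every centre not perpendicular to `W` lies in `W`; by `Conn.cn`, `Conn.sp`,
`W = ⊤`.  `eq_top_of_tv_mem`. -/
theorem Sy.eq_top_of_full (s : Sy B k) (c : Conn s.alt H)
    (full : ∀ v, Cen s.alt H v → ∀ a, tv s.alt v a ∈ H) : H = ⊤ := by
  have := s.nontriv
  obtain ⟨x, hx⟩ := exists_ne (0 : V)
  obtain ⟨u, hu, -⟩ := c.ex_adj s hx
  obtain ⟨v, hv, h⟩ := c.ex_adj s hu.1
  obtain ⟨W, ⟨hW, hn⟩, mx⟩ := exists_maximal_of_wellFoundedGT (fun W : Submodule F V =>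
    (∀ x ∈ W, (∃ y ∈ W, B x y ≠ 0) → Cen s.alt H x) ∧ ∃ x ∈ W, ∃ y ∈ W, B x y ≠ 0)
    ⟨span F {u, v}, fun x hx ⟨y, _, n⟩ => by
      obtain ⟨a, b, rfl⟩ := mem_span_pair.1 hx
      exact cen_line full hu hv h fun e => n (by simp [e]),
      u, subset_span (by simp), v, subset_span (by simp), h⟩
  obtain ⟨a, ha, b, hb, ab⟩ := id hn
  have : ⊤ ≤ W := c.sp.ge.trans (span_le.2 (c.cn (· ∈ W) ⟨a, hW a ha ⟨b, hb, ab⟩, ha⟩
    fun x y _ hy n hx => mx ⟨s.good_sup full hW hn hy ⟨x, hx, by rwa [skew s.alt, neg_ne_zero]⟩,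
      a, mem_sup_left ha, b, mem_sup_left hb, ab⟩ le_sup_left (mem_sup_right (mem_span_singleton_self y))))
  refine eq_top_of_tv_mem s.alt s.nd H fun w a => ?_
  rcases eq_or_ne w 0 with rfl | w0
  · rw [show tv s.alt (0 : V) a = 1 from ext' fun x => by simp [tv_apply]]
    exact H.one_mem
  obtain ⟨y, hy⟩ := s.ex_one w0
  exact full w (hW w (this mem_top) ⟨y, this mem_top, by simp [hy]⟩) a

omit [Finite V] in
/-- `g = tv u a * tv v b` acts on `⟨u, v⟩` with `g² = t g - 1`, `t = 2 - τ`, `t² = t + 1` (`3 = 0`, `τ² = -1`), so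
`g⁵ = (t⁴ - 3 t² + 1) g - (t³ - 2 t) = -1` there. -/
theorem exc_neg {hA : B.IsAlt} (h3 : (3 : F) = 0) {u v : V} {a b : F}
    (h : (a * b * B u v ^ 2) ^ 2 = -1) :
    ((tv hA u a * tv hA v b) ^ 5).1 u = -u ∧ ((tv hA u a * tv hA v b) ^ 5).1 v = -v := by
  have key : ∀ (g : isom B) (t : F) (w : V), t ^ 2 = t + 1 → g.1 (g.1 w) = t • g.1 w - w →
      (g ^ 5).1 w = -w := fun g t w ht h => by
    simp only [pow_succ', pow_zero, mul_one, mul_app, h, map_sub, map_smul]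
    match_scalars
    · linear_combination (t ^ 2 + t - 1) * ht
    · linear_combination (-t - 1) * ht
  have ht : (2 - a * b * B u v ^ 2) ^ 2 = 2 - a * b * B u v ^ 2 + 1 := by
    linear_combination h - a * b * B u v ^ 2 * h3
  constructor <;> refine key _ _ _ ht ?_ <;>
    simp only [mul_app, tv_apply, map_add, map_smul, LinearMap.add_apply, LinearMap.smul_apply,
      smul_eq_mul, hA.self_eq_zero, skew hA v u] <;> module

theorem Sy.exc_aux (s : Sy B k) {r l u v : V} {c a b : F} (r0 : r ≠ 0) (c0 : c ≠ 0)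
    (hr : Nat.card (rt s.alt H r) ≤ 3) (h3 : (3 : F) = 0) (rl : B r l = 0) (ru : B r u = 0) (rv : B r v = 0)
    (m : hs s.alt r (c • l) ∈ H) (ha : a ∈ rt s.alt H u) (hb : b ∈ rt s.alt H v)
    (h : (a * b * B u v ^ 2) ^ 2 = -1) : B l u = 0 := by
  have := s.fin
  have key : ∀ y d, B r y = 0 → d ∈ rt s.alt H y → 2 * c ^ 2 * (d * B l y ^ 2) ∈ rt s.alt H r :=
    fun y d ry hd => by
      have t := H.mul_mem (H.mul_mem hd m) (H.inv_mem hd)
      rw [conj_hs, tv_fix _ _ ry] at t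
      have t' := H.mul_mem (H.mul_mem (H.mul_mem t m) (H.inv_mem t)) (H.inv_mem m)
      rw [hs_comm s.alt (by simp [tv_apply, rl, ry]) (by simp [rl])] at t'
      rw [mem_rt]
      convert t' using 2
      simp [tv_apply, s.alt.self_eq_zero]
      ring
  have k1 := key u a ru ha
  have k2 := key v b rv hb
  have k3 := key _ b (by simp [tv_apply, ru, rv]) ((rt_conj s.alt ha v).ge hb)
  have k4 := key _ b (by simp [tv_apply, ru, rv]) ((rt_conj s.alt ((rt s.alt H u).neg_mem ha) v).ge hb)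
  have k5 : (a * b * B u v ^ 2) * (2 * c ^ 2 * (a * B l u ^ 2)) ∈ rt s.alt H r := by
    convert (rt s.alt H r).sub_mem (add_mem k2 k2) (add_mem k3 k4) using 1
    simp only [tv_apply, map_add, map_smul, smul_eq_mul, skew s.alt v u]
    linear_combination (2 * c ^ 2 * a ^ 2 * b * B u v ^ 2 * B l u ^ 2) * h3
  by_contra n
  have a0 : a ≠ 0 := fun e => by simp [e] at h
  have x0 : 2 * c ^ 2 * (a * B l u ^ 2) ≠ 0 := by simp [s.two, c0, a0, n]
  generalize 2 * c ^ 2 * (a * B l u ^ 2) = x at k1 k5 x0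
  generalize a * b * B u v ^ 2 = τ at h k5
  have t0 : τ ≠ 0 := fun e => by simp [e] at h
  have t1 : τ ^ 2 ≠ 1 := fun e => s.two (by linear_combination h - e)
  have : ({τ * x, 0, x, -x} : Set F).ncard = 4 := by
    rw [Set.ncard_insert_of_notMem, Set.ncard_eq_three.2 ⟨_, _, _, x0.symm, by simpa using x0,
      fun e => mul_ne_zero s.two x0 (by linear_combination e), rfl⟩]
    rintro (e | e | e)
    · exact mul_ne_zero t0 x0 e
    · exact t1 (by rw [mul_right_cancel₀ x0 (e.trans (one_mul x).symm), one_pow])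
    · exact t1 (by rw [mul_right_cancel₀ x0 (e.trans (neg_one_mul x).symm), neg_one_sq])
  have le := Set.ncard_le_ncard (s := {τ * x, 0, x, -x}) (t := (rt s.alt H r : Set F)) (by
    rintro _ (rfl | rfl | rfl | rfl)
    exacts [k5, zero_mem _, k1, neg_mem k1])
  exact absurd (this.ge.trans (le.trans hr)) (by norm_num)

/-- `L = ⟨u, v⟩ ≠ ⊤`, so (`Conn`) some centre `z ∉ L` is not perpendicular to `L`: `z = l + r`, `0 ≠ l ∈ L`,
`0 ≠ r ⊥ L`, `0 ≠ c ∈ rt z`.  By `exc_neg`, `c ∈ rt (l - r)`, and `tv (l + r) c * tv (l - r) (-c) = hs r (2 c l)`.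
Conjugating by `g ∈ H` fixing `r` and `hs_comm` give `8 c² B(g l, l) ∈ rt r`.  For `g = tv y d`, `y ∈ L`,
`d ∈ rt y`: `B(g l, l) = - d B(l, y)²`.  So `A = {x | 8 c² x ∈ rt r}`, an additive group of order at most
`3`, contains `a X²`, `b Y²` (`X = B l u`, `Y = B l v`) and, for `y = tv u (± a) v` (`rt_conj`),
`b (Y ∓ a β X)²`, whose sum is `2 b Y² + 2 τ (a X²)`.  If `X ≠ 0`, `A ∋ x, τ x, 0, -x` with `x = a X² ≠ 0`: four
elements as `τ² = -1 ≠ 1`.  If `Y ≠ 0` exchange `u` and `v`. -/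
theorem Sy.not_exc (s : Sy B k) (c : Conn s.alt H) (h3 : (3 : F) = 0)
    (hr : ∀ u, u ≠ 0 → Nat.card (rt s.alt H u) ≤ 3) {u v : V} {a b : F} (ha : a ∈ rt s.alt H u)
    (hb : b ∈ rt s.alt H v) (h : (a * b * B u v ^ 2) ^ 2 = -1) : False := by
  classical
  have sk := skew s.alt
  have a0 : a ≠ 0 := fun e => by simp [e] at h
  have b0 : b ≠ 0 := fun e => by simp [e] at h
  have uv : B u v ≠ 0 := fun e => by simp [e] at h
  obtain ⟨x, z, -, ⟨-, d, d0, hd⟩, xz, hx, hz⟩ : ∃ x z, Cen s.alt H x ∧ Cen s.alt H z ∧ B x z ≠ 0 ∧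
      x ∈ span F {u, v} ∧ z ∉ span F {u, v} := by
    by_contra n
    push Not at n
    have := finrank_mono (c.sp.ge.trans (span_le.2 (c.cn (· ∈ span F {u, v})
      ⟨u, ⟨fun e => uv (by simp [e]), a, a0, ha⟩, subset_span (by simp)⟩ n)))
    have := this.trans ((finrank_span_le_card (R := F) ({u, v} : Set V)).trans
      (by simpa using Finset.card_le_two (a := u) (b := v)))
    rw [finrank_top, s.dim] at this
    have := s.k3
    omega
  obtain ⟨p1, p2⟩ := proj_perp s.alt (e := u) (f := (B u v)⁻¹ • v) (by simp [uv]) z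
  obtain ⟨l, hl⟩ : ∃ l, l = B z ((B u v)⁻¹ • v) • u + B u z • (B u v)⁻¹ • v := ⟨_, rfl⟩
  obtain ⟨r, hr'⟩ : ∃ r, r = z - l := ⟨_, rfl⟩
  rw [sub_sub, ← hl, ← hr'] at p1 p2
  have ru : B r u = 0 := by rw [sk, p1, neg_zero]
  have rv : B r v = 0 := by simpa [uv, sk v r] using p2
  have ml : l ∈ span F {u, v} := mem_span_pair.2 ⟨_, _, by rw [hl, smul_smul]⟩
  have rl : B r l = 0 := by simp [hl, ru, rv]
  have r0 : r ≠ 0 := fun e => hz (sub_eq_zero.1 (hr' ▸ e) ▸ ml)
  obtain rfl : z = l + r := by rw [hr']; abel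
  obtain ⟨e1, e2⟩ := exc_neg (hA := s.alt) h3 h
  have gm := H.pow_mem (H.mul_mem ha hb) 5
  have gr : ((tv s.alt u a * tv s.alt v b) ^ 5).1 r = r := by
    simp only [pow_succ', pow_zero, mul_one, mul_app, tv_fix _ _ ru, tv_fix _ _ rv]
  have gl : ((tv s.alt u a * tv s.alt v b) ^ 5).1 l = -l := by
    rw [hl]; simp only [map_add, map_smul, e1, e2]; module
  have hd' := (rt_conj s.alt gm (l + r)).ge hd
  rw [map_add, gl, gr] at hd'
  have m : hs s.alt r ((2 * d) • l) ∈ H := by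
    convert H.mul_mem hd ((rt s.alt H _).neg_mem hd') using 1
    refine ext' fun y => ?_
    rw [hs_apply _ (by simp [rl]), mul_app, tv_apply, tv_apply]
    simp only [map_add, map_smul, map_neg, LinearMap.add_apply, LinearMap.smul_apply, LinearMap.neg_apply,
      smul_eq_mul, s.alt.self_eq_zero, rl, sk l r]
    module
  have k1 := s.exc_aux r0 (mul_ne_zero s.two d0) (hr r r0) h3 rl ru rv m ha hb h
  have k2 := s.exc_aux r0 (mul_ne_zero s.two d0) (hr r r0) h3 rl rv ru m hb ha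
    (by rw [sk v u]; linear_combination h)
  obtain ⟨α, β, rfl⟩ := mem_span_pair.1 hx
  exact xz (by simp [sk u l, sk v l, sk u r, sk v r, k1, k2, ru, rv])

end Cfsg.Lib.R3S
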