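import Cfsg.Agent.Lib.R3S.Dk
import Cfsg.Agent.Lib.R3S.P1
import Cfsg.Agent.Lib.R3S.P2

/-! S2195: groups over a subfield have three orbits on points. -/

set_option autoImplicit false

namespace Cfsg.Lib.R3S

open Cfsg.Lib.Symp Module Submodule MulAction

variable {F V : Type*} [Field F] [AddCommGroup V] [Module F V] {B : LinearMap.BilinForm F V} {k : ℕ}
  [Finite V] {H : Subgroup (isom B)}

/-- All root groups have the order of `K`, all `2`-cycles lie in `K`. -/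
structure Fm (hA : B.IsAlt) (H : Subgroup (isom B)) (K : Subfield F) : Prop where
  cn : Conn hA H
  card : ∀ u, Cen hA H u → Nat.card K = Nat.card (rt hA H u)
  two : ∀ u v, u ≠ 0 → v ≠ 0 → ∀ a ∈ rt hA H u, ∀ b ∈ rt hA H v, a * b * B u v ^ 2 ∈ K

variable {K : Subfield F}

/-- Take a centre `v` with `B u v ≠ 0` (`Conn.sp`), `0 ≠ b ∈ rt v`; `x ↦ x b B(u, v)²` is a bijection
`rt u → K`. -/
theorem Fm.mem_iff (s : Sy B k) (h : Fm s.alt H K) {u : V} (hu : u ≠ 0) {a : F} (ha : a ≠ 0)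
    (m : a ∈ rt s.alt H u) (x : F) : x ∈ rt s.alt H u ↔ x / a ∈ K := by
  have := s.fin
  obtain ⟨v, ⟨v0, b, b0, hb⟩, n⟩ := h.cn.ex_ne s hu
  have c0 : b * B u v ^ 2 ≠ 0 := mul_ne_zero b0 (pow_ne_zero _ n)
  have ma := h.two u v hu v0 a m b hb
  refine ⟨fun hx => ?_, fun hx => ?_⟩
  · convert K.div_mem (h.two u v hu v0 x hx b hb) ma using 1
    field_simp
  · obtain ⟨⟨y, hy⟩, e⟩ := (Nat.bijective_iff_injective_and_card
      (fun y : rt s.alt H u => (⟨_, h.two u v hu v0 y y.2 b hb⟩ : K))).2 ⟨fun c d e => Subtype.ext (by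
        simpa [b0, n] using e), (h.card u ⟨hu, a, ha, m⟩).symm⟩ |>.2 ⟨_, K.mul_mem hx ma⟩
    have : y * b * B u v ^ 2 = x / a * (a * b * B u v ^ 2) := congrArg Subtype.val e
    rwa [show x = y from mul_right_cancel₀ c0 (by rw [← mul_assoc y, this]; field_simp)]

/-- `c ∈ rt z'` for `z' = tv y b z = z + b B(z, y) y`; expand `a c B(x, z')²`. -/
theorem Fm.three (s : Sy B k) (h : Fm s.alt H K) {x y z : V} (hx : x ≠ 0) (hy : y ≠ 0) (hz : z ≠ 0)
    {a b c : F} (ha : a ∈ rt s.alt H x) (hb : b ∈ rt s.alt H y) (hc : c ∈ rt s.alt H z) :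
    a * b * c * (B x y * B y z * B z x) ∈ K := by
  have k1 := h.two x _ hx (app_ne (tv s.alt y b) hz) a ha c ((rt_conj s.alt hb z).ge hc)
  have k2 := K.sub_mem (K.sub_mem k1 (h.two x z hx hz a ha c hc))
    (K.mul_mem (h.two x y hx hy a ha b hb) (h.two y z hy hz b hb c hc))
  convert K.div_mem k2 (natCast_mem K 2) using 1
  simp only [tv_apply, map_add, map_smul, smul_eq_mul, skew s.alt z y, skew s.alt z x, Nat.cast_ofNat]
  field_simp [s.two]
  ring

/-- **A `K`-form.**  Fix a centre `x`, `0 ≠ a ∈ rt x`, `O = {x} ∪ {v | Cen v, a B(x, v) = 1}`.  For `v ∈ O`,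
`a ∈ rt v` (`b / a ∈ K` by `two`, `mem_iff`), and `a B(v, w) ∈ K` on `O` (`three`).  `A` is the additive
closure of the `c • v`, `c ∈ K`, `v ∈ O`.  A centre `z` with `B x z ≠ 0` is a multiple of an element of `O`.
If `B x z = 0` and `B z v ≠ 0` for some `x ≠ v ∈ O`, scale to `a B(z, v) = 1`; then `tv v a z = z + v ∈ O`,
so `z ∈ A`.  By `Conn.cn` (a centre not perpendicular to an element of the span of `O` is not
perpendicular to an element of `O`) every centre has a multiple in `A`. -/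
theorem Fm.form (s : Sy B k) (h : Fm s.alt H K) : ∃ (a : F) (A : AddSubgroup V), a ≠ 0 ∧
    (∀ c ∈ K, ∀ v ∈ A, c • v ∈ A) ∧ (∀ v ∈ A, ∀ w ∈ A, a * B v w ∈ K) ∧
    ∀ z, Cen s.alt H z → ∃ c : F, c ≠ 0 ∧ c • z ∈ A := by
  have := s.nontriv
  have sk := skew s.alt
  obtain ⟨x₀, hx₀⟩ := exists_ne (0 : V)
  obtain ⟨x, ⟨x0, a, a0, ha⟩, -⟩ := h.cn.ex_ne s hx₀
  let O : Set V := {v | v = x ∨ Cen s.alt H v ∧ a * B x v = 1}
  have o1 : ∀ v ∈ O, v ≠ 0 ∧ a ∈ rt s.alt H v := by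
    rintro v (rfl | ⟨⟨v0, b, b0, hb⟩, e⟩)
    · exact ⟨x0, ha⟩
    refine ⟨v0, (h.mem_iff s v0 b0 hb a).2 ?_⟩
    convert K.inv_mem (h.two x v x0 v0 a ha b hb) using 1
    rw [eq_inv_of_mul_eq_one_right e]
    field_simp
  have o2 : ∀ v ∈ O, ∀ w ∈ O, a * B v w ∈ K := fun v hv w hw => by
    have := h.three s x0 (o1 v hv).1 (o1 w hw).1 ha (o1 v hv).2 (o1 w hw).2
    rcases hv with rfl | ⟨-, e⟩ <;> rcases hw with rfl | ⟨-, e'⟩
    · simp [s.alt.self_eq_zero]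
    · exact e' ▸ K.one_mem
    · rw [sk, mul_neg, e]; exact K.neg_mem K.one_mem
    · convert K.neg_mem this using 1
      rw [sk w x]
      linear_combination (-a * B v w) * e + (-a * B v w * (a * B x v)) * e'
  let A := AddSubgroup.closure {y | ∃ c ∈ K, ∃ v ∈ O, y = c • v}
  have oA : ∀ v ∈ O, v ∈ A := fun v hv => AddSubgroup.subset_closure ⟨1, K.one_mem, v, hv, by simp⟩
  have ind : ∀ {P : V → Prop}, (∀ c ∈ K, ∀ v ∈ O, P (c • v)) → P 0 → (∀ u v, P u → P v → P (u + v)) →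
      (∀ u, P u → P (-u)) → ∀ v ∈ A, P v := fun h1 h2 h3 h4 v hv => by
    induction hv using AddSubgroup.closure_induction with
    | mem y hy => obtain ⟨c, hc, v, hv, rfl⟩ := hy; exact h1 c hc v hv
    | zero => exact h2
    | add u v _ _ a b => exact h3 u v a b
    | neg u _ a => exact h4 u a
  have ne : ∀ z, Cen s.alt H z → B x z ≠ 0 → (a * B x z)⁻¹ • z ∈ O := fun z hz n =>
    .inr ⟨hz.smul (inv_ne_zero (mul_ne_zero a0 n)), by simp; field_simp⟩
  refine ⟨a, A, a0, fun c hc => ind (fun d hd v hv => AddSubgroup.subset_closure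
    ⟨c * d, K.mul_mem hc hd, v, hv, smul_smul _ _ _⟩) (by simp) (fun u v a b => smul_add c u v ▸ A.add_mem a b)
    (fun u a => smul_neg c u ▸ A.neg_mem a), ind (fun c hc v hv => ind (fun d hd w hw => ?_) (by simp)
      (fun u v a b => by simpa [mul_add] using K.add_mem a b) fun u a => by simpa using a) (by simp)
      (fun u v a b w hw => by simpa [mul_add] using K.add_mem (a w hw) (b w hw))
      (fun u a w hw => by simpa using a w hw),
    h.cn.cn _ ⟨x, ⟨x0, a, a0, ha⟩, 1, one_ne_zero, oA _ (by simp [O])⟩ fun y z _ hz n ⟨c, c0, m⟩ => ?_⟩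
  · convert K.mul_mem (K.mul_mem hc hd) (o2 v hv w hw) using 1
    simp only [map_smul, LinearMap.smul_apply, smul_eq_mul]
    ring
  by_cases xz : B x z = 0; swap
  · exact ⟨_, inv_ne_zero (mul_ne_zero a0 xz), oA _ (ne z hz xz)⟩
  obtain ⟨v, hv, n'⟩ : ∃ v ∈ O, B z v ≠ 0 := by
    by_contra k
    push Not at k
    have := ind (P := fun v => B z v = 0) (fun c _ v hv => by simp [k v hv]) (by simp)
      (fun u v a b => by simp [a, b]) (fun u a => by simp [a]) _ m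
    exact n (by simpa [c0, sk z y] using this)
  have c1 : (a * B z v)⁻¹ ≠ 0 := inv_ne_zero (mul_ne_zero a0 n')
  refine ⟨_, c1, ?_⟩
  have e : (tv s.alt v a).1 ((a * B z v)⁻¹ • z) = (a * B z v)⁻¹ • z + v := by
    rw [tv_apply]; simp only [map_smul, LinearMap.smul_apply, smul_eq_mul]
    match_scalars <;> field_simp
  have := (hz.smul c1).conj (o1 v hv).2
  rw [e] at this
  rcases id hv with rfl | ⟨-, e'⟩
  · exact (n' (by rw [sk, xz, neg_zero])).elim
  · simpa using A.sub_mem (oA _ (.inr ⟨this, by simp [xz, e']⟩)) (oA v hv)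

section form

variable {a : F} {A : AddSubgroup V}

theorem Sy.form_dual (s : Sy B k) (ha : a ≠ 0) (h1 : ∀ c ∈ K, ∀ v ∈ A, c • v ∈ A)
    (h2 : ∀ v ∈ A, ∀ w ∈ A, a * B v w ∈ K) (h3 : span F (A : Set V) = ⊤) {u w : V} (hu : u ∈ A)
    (hw : w ∈ A) (li : LinearIndependent F ![u, w]) :
    (∃ y ∈ A, B u y ≠ 0 ∧ B w y = 0) ∧ ∃ y ∈ A, B u y = 0 ∧ B w y ≠ 0 := by
  have ex : ∀ p, p ≠ 0 → ∃ y ∈ A, B p y ≠ 0 := fun p hp => by
    by_contra n
    push Not at n
    exact hp (s.eq_zero fun y => (span_le (p := LinearMap.ker (B p))).2 n (h3 ▸ mem_top))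
  rw [LinearIndependent.pair_iff] at li
  obtain ⟨y, hy, n⟩ := ex u fun e => by simpa using (li 1 0 (by simp [e])).1
  obtain ⟨z, hz, n'⟩ := ex ((-B w y) • u + B u y • w) fun e => n (li _ _ e).2
  simp only [map_add, map_smul, LinearMap.add_apply, LinearMap.smul_apply, smul_eq_mul] at n'
  refine ⟨⟨_, A.sub_mem (h1 _ (h2 w hw z hz) y hy) (h1 _ (h2 w hw y hy) z hz), fun e => ?_, ?_⟩,
    _, A.sub_mem (h1 _ (h2 u hu z hz) y hy) (h1 _ (h2 u hu y hy) z hz), ?_, fun e => ?_⟩ <;>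
    simp only [map_sub, map_smul, smul_eq_mul] at *
  · exact mul_ne_zero ha n' (by linear_combination e)
  · ring
  · ring
  · exact mul_ne_zero ha n' (by linear_combination -e)

/-- `A` spans `V`, so some `y₁, y₂ ∈ A` have `B u y₁ B w y₂ ≠ B u y₂ B w y₁` (take `y₁` with `B u y₁ ≠ 0`;
otherwise `B(u, y₁) w - B(w, y₁) u ⊥ A`).  With `y = a B(w, y₂) y₁ - a B(w, y₁) y₂ ∈ A`, `B w y = 0 ≠ B u y`,
so `c ∈ K`; similarly `c θ ∈ K`. -/
theorem Sy.form_notMem (s : Sy B k) (ha : a ≠ 0) (h1 : ∀ c ∈ K, ∀ v ∈ A, c • v ∈ A)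
    (h2 : ∀ v ∈ A, ∀ w ∈ A, a * B v w ∈ K) (h3 : span F (A : Set V) = ⊤) {u w : V} (hu : u ∈ A)
    (hw : w ∈ A) (li : LinearIndependent F ![u, w]) {θ c : F} (hθ : θ ∉ K) (hc : c ≠ 0) :
    c • (u + θ • w) ∉ A := by
  intro m
  obtain ⟨⟨y, hy, a1, a2⟩, z, hz, b1, b2⟩ := s.form_dual ha h1 h2 h3 hu hw li
  have k1 := K.div_mem (h2 _ m y hy) (h2 u hu y hy)
  have k2 := K.div_mem (h2 _ m z hz) (h2 w hw z hz)
  refine hθ ?_
  convert K.div_mem k2 k1 using 1
  simp only [map_add, map_smul, LinearMap.add_apply, LinearMap.smul_apply, smul_eq_mul, a2, b1, mul_zero,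
    add_zero, zero_add]
  field_simp

/-- For `x ∈ A`, the projection `x'` of `x` to `⟨y, z⟩^⊥` lies in `A` (coefficients `B x z / B y z ∈ K`), and
`a B(u, x') + θ a B(w, x') = 0` gives `B u x' = B w x' = 0`.  As `A` spans, `u, w ⊥ ⟨y, z⟩^⊥`, so
`u, w ∈ ⟨y, z⟩` (`dperp`), and `B u w` is a non-zero determinant times `B y z`. -/
theorem Sy.form_sec (s : Sy B k) (ha : a ≠ 0) (h1 : ∀ c ∈ K, ∀ v ∈ A, c • v ∈ A)
    (h2 : ∀ v ∈ A, ∀ w ∈ A, a * B v w ∈ K) (h3 : span F (A : Set V) = ⊤) {u w y z : V} (hu : u ∈ A)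
    (hw : w ∈ A) (hy : y ∈ A) (hz : z ∈ A) (li : LinearIndependent F ![u, w]) (yz : B y z ≠ 0)
    {θ : F} (hθ : θ ∉ K) (m : u + θ • w ∈ span F {y, z}) : B u w ≠ 0 := by
  have sk := skew s.alt
  have z0 := s.alt.self_eq_zero
  have key : ∀ x ∈ A, ∃ x' ∈ A, B y x' = 0 ∧ B z x' = 0 ∧ x - x' ∈ span F {y, z} := fun x hx =>
    ⟨_, A.sub_mem (A.sub_mem hx (h1 _ (K.div_mem (h2 x hx z hz) (h2 y hy z hz)) y hy))
      (h1 _ (K.div_mem (h2 y hy x hx) (h2 y hy z hz)) z hz), by simp [z0]; field_simp; ring,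
      by simp [z0, sk z y, sk z x]; field_simp; ring, mem_span_pair.2 ⟨_, _, by rw [sub_sub, sub_sub_cancel]⟩⟩
  have k2 : ∀ x ∈ A, B y x = 0 → B z x = 0 → B u x = 0 ∧ B w x = 0 := fun x hx a1 a2 => by
    obtain ⟨α, β, e⟩ := mem_span_pair.1 m
    have e' := congrArg (B · x) e
    simp only [map_add, map_smul, LinearMap.add_apply, LinearMap.smul_apply, smul_eq_mul, a1, a2] at e'
    have : B w x = 0 := by_contra fun n => hθ (by
      convert K.neg_mem (K.div_mem (h2 u hu x hx) (h2 w hw x hx)) using 1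
      field_simp
      linear_combination -e')
    exact ⟨by rw [this] at e'; linear_combination -e', this⟩
  have k3 : ∀ p, (∀ x ∈ A, B y x = 0 → B z x = 0 → B p x = 0) → p ∈ span F {y, z} := fun p hp => by
    obtain ⟨a1, a2⟩ := proj_perp s.alt (e := y) (f := (B y z)⁻¹ • z) (by simp [yz]) p
    have m' : B p ((B y z)⁻¹ • z) • y + B y p • (B y z)⁻¹ • z ∈ span F {y, z} :=
      mem_span_pair.2 ⟨_, _, by rw [smul_smul]⟩
    rw [sub_sub] at a1 a2
    generalize B p ((B y z)⁻¹ • z) • y + B y p • (B y z)⁻¹ • z = l at *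
    have a3 : B z (p - l) = 0 := by simpa [yz] using a2
    refine sub_eq_zero.1 (s.eq_zero fun v => (span_le (p := LinearMap.ker (B (p - l)))).2
      (fun x hx => ?_) (h3 ▸ mem_top)) ▸ m'
    obtain ⟨x', hx', b1, b2, b3⟩ := key x hx
    obtain ⟨c, d, e⟩ := mem_span_pair.1 b3
    obtain ⟨c', d', rfl⟩ := mem_span_pair.1 m'
    rw [SetLike.mem_coe, LinearMap.mem_ker, ← eq_sub_iff_add_eq.1 e, map_add, map_add, map_smul, map_smul,
      sk _ y, sk _ z, a1, a3]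
    simp [hp x' hx' b1 b2, b1, b2]
  obtain ⟨α, β, rfl⟩ := mem_span_pair.1 (k3 u fun x hx a b => (k2 x hx a b).1)
  obtain ⟨γ, δ, rfl⟩ := mem_span_pair.1 (k3 w fun x hx a b => (k2 x hx a b).2)
  intro e
  simp only [map_add, map_smul, LinearMap.add_apply, LinearMap.smul_apply, smul_eq_mul, z0, sk z y] at e
  have d : α * δ - β * γ = 0 := mul_right_cancel₀ yz (by linear_combination e)
  rw [LinearIndependent.pair_iff] at li
  have l1 := li δ (-β) (by match_scalars; exacts [by linear_combination d, by ring])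
  have l2 := li γ (-α) (by match_scalars; exacts [by ring, by linear_combination -d])
  simpa using (li 1 0 (by simp [neg_eq_zero.1 l1.2, neg_eq_zero.1 l2.2])).1

end form

/-- Let `θ ∉ K`, `x, v ∈ A` centres with `B x v ≠ 0`, `w ≠ 0` the projection to `⟨x, v⟩^⊥` of an element of
`A \ ⟨x, v⟩`.  `N2.false` with `P = Cen`, `Q p := ∃ y z, Cen y ∧ Cen z ∧ B y z ≠ 0 ∧ p ∈ ⟨y, z⟩` and the
points `x`, `x + θ v`, `x + θ w`. -/
theorem Fm.eq_top (s : Sy B k) (h : Fm s.alt H K) (h2 : N2 H) : K = ⊤ := by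
  classical
  by_contra ne
  obtain ⟨θ, hθ⟩ : ∃ θ, θ ∉ K := by simpa [eq_top_iff, SetLike.le_def] using ne
  obtain ⟨a, A, ha, h1, h2', h4⟩ := h.form s
  have h3 : span F (A : Set V) = ⊤ := top_le_iff.1 (h.cn.sp.ge.trans (span_le.2 fun z hz => by
    obtain ⟨c, c0, m⟩ := h4 z hz
    exact (smul_mem_iff _ c0).1 (subset_span m)))
  have := s.nontriv
  obtain ⟨x₀, hx₀⟩ := exists_ne (0 : V)
  obtain ⟨x, hx, -⟩ := h.cn.ex_ne s hx₀
  obtain ⟨v, hv, n⟩ := h.cn.ex_ne s hx.1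
  obtain ⟨c, c0, mx⟩ := h4 x hx
  obtain ⟨d, d0, mv⟩ := h4 v hv
  replace n : B (c • x) (d • v) ≠ 0 := by simp [c0, d0, n]
  replace hx := hx.smul c0
  replace hv := hv.smul d0
  generalize c • x = x, d • v = v at *
  obtain ⟨y, hy, ny⟩ : ∃ y ∈ A, y ∉ span F {x, v} := by
    by_contra k
    push Not at k
    have := (finrank_mono (h3.ge.trans (span_le.2 k))).trans ((finrank_span_le_card (R := F)
      ({x, v} : Set V)).trans (by simpa using Finset.card_le_two (a := x) (b := v)))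
    rw [finrank_top, s.dim] at this
    have := s.k3
    omega
  obtain ⟨w, hw, wx, wv, w0⟩ : ∃ w ∈ A, B x w = 0 ∧ B w v = 0 ∧ w ≠ 0 :=
    ⟨_, A.sub_mem (A.sub_mem hy (h1 _ (K.div_mem (h2' y hy v mv) (h2' x mx v mv)) x mx))
      (h1 _ (K.div_mem (h2' x mx y hy) (h2' x mx v mv)) v mv),
      by simp [s.alt.self_eq_zero]; field_simp; ring, by simp [s.alt.self_eq_zero]; field_simp; ring,
      fun e => ny (mem_span_pair.2 ⟨_, _, by rw [sub_sub, sub_eq_zero] at e; exact e.symm⟩)⟩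
  have li := linearIndependent_pair_of_ne_zero s.alt n
  have li' : LinearIndependent F ![x, w] := LinearIndependent.pair_iff.2 fun α β e => by
    have : α = 0 := by simpa [n, wv] using congrArg (B · v) e
    exact ⟨this, by simpa [this, w0] using e⟩
  have nc : ∀ {w}, w ∈ A → LinearIndependent F ![x, w] → ¬ Cen s.alt H (x + θ • w) := fun hw li m => by
    obtain ⟨c, c0, m⟩ := h4 _ m
    exact s.form_notMem ha h1 h2' h3 mx hw li hθ c0 m
  have nz : ∀ {w}, LinearIndependent F ![x, w] → x + θ • w ≠ 0 := fun li e => by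
    simpa using (LinearIndependent.pair_iff.1 li 1 θ (by simpa using e)).1
  refine h2.false (P := Cen s.alt H)
    (Q := fun p => ∃ y z, Cen s.alt H y ∧ Cen s.alt H z ∧ B y z ≠ 0 ∧ p ∈ span F {y, z})
    (fun g hg v c => c.conj hg) (fun c v c0 m => m.smul c0) (fun g hg p ⟨y, z, hy, hz, n, m⟩ => ?_)
    (fun c v _ ⟨y, z, hy, hz, n, m⟩ => ⟨y, z, hy, hz, n, smul_mem _ c m⟩) hx.1 (nz li) (nz li') hx
    (nc mv li) (nc hw li') ⟨x, v, hx, hv, n, mem_span_pair.2 ⟨1, θ, by simp⟩⟩ fun ⟨y, z, hy, hz, n, m⟩ => ?_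
  · obtain ⟨α, β, rfl⟩ := mem_span_pair.1 m
    exact ⟨_, _, hy.conj hg, hz.conj hg, by rwa [isom_apply], mem_span_pair.2 ⟨α, β, by simp⟩⟩
  · obtain ⟨c, c0, my⟩ := h4 y hy
    obtain ⟨d, d0, mz⟩ := h4 z hz
    obtain ⟨α, β, e⟩ := mem_span_pair.1 m
    exact s.form_sec ha h1 h2' h3 mx hw my mz li' (by simp [c0, d0, n]) hθ
      (mem_span_pair.2 ⟨α / c, β / d, by rw [← e]; match_scalars <;> field_simp⟩) wx

/-- `conn`, `dick_all`, `not_exc`, `Fm.eq_top`, `Fm.mem_iff`, `eq_top_of_full`. -/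
theorem Sy.part2 (s : Sy B k) (h2 : N2 H) (h3 : R3 H) (hH : ¬ NoTv s.alt H) : H = ⊤ := by
  simp only [NoTv, not_forall] at hH
  obtain ⟨v, a, hv, m, ha⟩ := hH
  have c := s.conn h2 h3 ⟨hv, a, ha, m⟩
  rcases s.dick_all c with ⟨K, k1, k2⟩ | ⟨t, hr, u, v, a, ha, b, hb, e⟩
  · have f : Fm s.alt H K := ⟨c, k1, k2⟩
    refine s.eq_top_of_full c fun v ⟨v0, a, a0, m⟩ x => (f.mem_iff s v0 a0 m x).2 ?_
    rw [f.eq_top s h2]
    trivial
  · exact (s.not_exc c t hr ha hb e).elim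

end Cfsg.Lib.R3S
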