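import Mathlib

/-! S2195: the numerical contradiction for two orbits on points. -/

set_option autoImplicit false

namespace Cfsg.Lib.R3S

theorem num_f {q m ε P f : ℚ} (q3 : 3 ≤ q) (m3 : 3 * q ≤ m) (e1 : ε ≤ 1)
    (hP : P * (q - 1) = q ^ 2 * m ^ 2 - 1) (hf : 2 * f = P - 1 - ε * q * m) : q * m ^ 2 ≤ 2 * f := by
  have h1 : (P - 1 - q * m ^ 2) * (q - 1) = q * (m ^ 2 - 1) := by linear_combination hP
  have h2 : q * m * (q - 1) ≤ q * (m ^ 2 - 1) := by
    have : m * (q - 1) ≤ m ^ 2 - 1 := by nlinarith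
    nlinarith
  have h3 : q * m ≤ P - 1 - q * m ^ 2 := le_of_mul_le_mul_right (h1 ▸ h2) (by linarith)
  have h4 : ε * (q * m) ≤ 1 * (q * m) := mul_le_mul_of_nonneg_right e1 (by nlinarith)
  linarith

theorem num_S {q m : ℕ} {ε : ℚ} {S : ℤ} (q3 : (3 : ℚ) ≤ q) (m3 : 3 * (q : ℚ) ≤ m) (hε : ε = 1 ∨ ε = -1)
    (d0 : (m + ε) * S < q * m + ε) : (S : ℚ) ≤ q ∧ (q : ℚ) - 1 ≤ q * m + ε - (m + ε) * S := by
  rcases hε with rfl | rfl
  · have : (S : ℚ) < q := by
      by_contra! n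
      nlinarith
    have : S < (q : ℤ) := by exact_mod_cast this
    have : (S : ℚ) ≤ q - 1 := by exact_mod_cast (by omega : S ≤ (q : ℤ) - 1)
    exact ⟨by linarith, by nlinarith⟩
  · have : (S : ℚ) < q + 1 := by
      by_contra! n
      nlinarith
    have : S < (q : ℤ) + 1 := by exact_mod_cast this
    have : (S : ℚ) ≤ q := by exact_mod_cast (by omega : S ≤ (q : ℤ))
    exact ⟨this, by nlinarith⟩

theorem num_g {q m a b d r f S : ℚ} (q3 : 3 ≤ q) (m0 : 0 < m) (b0 : 0 < b) (a0 : b ≤ a) (r0 : 0 < r) (s0 : 0 ≤ S)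
    (sq : S ≤ q) (d1 : q - 1 ≤ d) (f1 : q * m ^ 2 ≤ 2 * f)
    (k7 : S * (m * (q - 1)) * (r * a + b * S) = d * (r * a + b * S) + d * (b * (S + r) * f)) : b * m < 2 * a := by
  have q0 : 0 < q := by linarith
  have q1 : 0 < q - 1 := by linarith
  have ap : 0 < a := by linarith
  have fp : 0 < f := by have : 0 < q * m ^ 2 := by positivity
                        linarith
  have g1 : r * a + b * S ≤ a * (S + r) := by have := mul_le_mul_of_nonneg_right a0 s0; linarith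
  have g0 : 0 < r * a + b * S := by positivity
  have t1 : (q - 1) * (b * (S + r) * f) ≤ d * (b * (S + r) * f) := mul_le_mul_of_nonneg_right d1 (by positivity)
  have t2 : 0 < d * (r * a + b * S) := mul_pos (by linarith) g0
  have t3 : S * (m * (q - 1)) * (r * a + b * S) ≤ q * (m * (q - 1)) * (a * (S + r)) :=
    mul_le_mul (mul_le_mul_of_nonneg_right sq (by positivity)) g1 g0.le (by positivity)
  have g4 : b * f < q * m * a := lt_of_mul_lt_mul_left (a := (q - 1) * (S + r)) (by linarith) (by positivity)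
  have := mul_le_mul_of_nonneg_left f1 b0.le
  exact lt_of_mul_lt_mul_left (a := q * m) (by linarith) (by positivity)

/-- `a = q m + ε`, `b = m + ε`; `c κ = (q m - ε) a`, `c r = (q m - ε) b`, so `r > 0`, `κ b = r a`, and
`d = a - b S > 0`.  As `S` is an integer, `S ≤ q - 1` (`ε = 1`) or `S ≤ q` (`ε = -1`), so `S ≤ q` and
`d ≥ q - 1`.  `h5` times `b / r`: `N d = (a - b) (κ + S)`, `a - b = m (q - 1)`.  `h6` divided by `m`:
`N S = κ + S + (S + r) f` with `2 f = P - 1 - ε q m ≥ q m²` (`(P - 1 - q m²) (q - 1) = q (m² - 1)`).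
Multiply by `d b`: `S (a - b) (r a + b S) = d (r a + b S) + d b (S + r) f > (q - 1) b (S + r) f`, and
`r a + b S ≤ a (r + S)`.  So `q m a > b f ≥ b q m² / 2`, `2 a > b m`, which is false since `m ≥ q² ≥ 3 q`
(`ε = 1`), `m - 1 ≥ q² - 1 ≥ 2 q` (`ε = -1`). -/
theorem num_false {q m : ℕ} (hq : 3 ≤ q) (hm : q ^ 2 ≤ m) {c ε r κ N P : ℚ} {S : ℤ} (hc : 0 < c)
    (hP : P * (q - 1) = q ^ 2 * m ^ 2 - 1) (hε : ε = 1 ∨ ε = -1)
    (h1 : c * κ = q * m ^ 2 - 1 + (q - 1) * (q * m ^ 2))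
    (h2 : c * r = q * m ^ 2 - 1 + (q - 1) * ε * m) (h3 : 0 ≤ S) (h4 : r * S < κ)
    (h5 : N * (κ - r * S) = (κ - r) * (κ + S))
    (h6 : (N * S - S - κ) * (2 * ε * m) = (S + r) * (ε * m * (P - 1) - q * m ^ 2)) : False := by
  have q3 : (3 : ℚ) ≤ q := by exact_mod_cast hq
  have m2 : (q : ℚ) ^ 2 ≤ m := by exact_mod_cast hm
  have e2 : ε ^ 2 = 1 := by rcases hε with rfl | rfl <;> norm_num
  have e1 : -1 ≤ ε ∧ ε ≤ 1 := by rcases hε with rfl | rfl <;> norm_num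
  have s0 : (0 : ℚ) ≤ S := by exact_mod_cast h3
  have m3 : 3 * (q : ℚ) ≤ m := by nlinarith
  obtain ⟨a, ha⟩ : ∃ a : ℚ, a = q * m + ε := ⟨_, rfl⟩
  obtain ⟨b, hb⟩ : ∃ b : ℚ, b = m + ε := ⟨_, rfl⟩
  have m0 : (0 : ℚ) < m := by linarith
  have b0 : 0 < b := by linarith
  have qm : (m : ℚ) ≤ q * m := le_mul_of_one_le_left m0.le (by linarith)
  have u0 : 0 < (q : ℚ) * m - ε := by linarith
  have k1 : c * κ = (q * m - ε) * a := by rw [h1, ha]; linear_combination e2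
  have k2 : c * r = (q * m - ε) * b := by rw [h2, hb]; linear_combination e2
  have r0 : 0 < r := (mul_pos_iff_of_pos_left hc).1 (k2 ▸ mul_pos u0 b0)
  have k3 : κ * b = r * a := mul_left_cancel₀ hc.ne' (by linear_combination b * k1 - a * k2)
  have d0 : b * S < a := by
    have := mul_lt_mul_of_pos_right h4 b0
    rw [k3] at this
    exact lt_of_mul_lt_mul_left (a := r) (by linarith) r0.le
  obtain ⟨sq, d1⟩ := num_S (S := S) q3 m3 hε (by rwa [← ha, ← hb])
  rw [← ha, ← hb] at d1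
  have k5 : N * (a - b * S) = (a - b) * (κ + S) := mul_left_cancel₀ r0.ne' (by
    linear_combination b * h5 + (κ + S - N) * k3)
  obtain ⟨f, hf⟩ : ∃ f : ℚ, 2 * f = P - 1 - ε * q * m := ⟨(P - 1 - ε * q * m) / 2, by ring⟩
  have k6 : N * S = κ + S + (S + r) * f := mul_left_cancel₀ (mul_pos two_pos m0).ne' (by
    linear_combination ε * h6 - (S + r) * m * hf + (-(N * S - S - κ) * 2 * m + (S + r) * m * (P - 1)) * e2)
  have ab : a - b = m * (q - 1) := by rw [ha, hb]; ring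
  have g6 := num_g (a := a) q3 m0 b0 (by linarith) r0 s0 sq d1 (num_f q3 m3 e1.2 hP hf) (by
    rw [← ab]
    linear_combination (a - b * S) * b * k6 - b * S * k5 - (S * (a - b) - (a - b * S)) * k3)
  rw [ha, hb] at g6
  clear k1 k2 k3 k5 k6 h1 h2 h4 h5 h6 hP hf d0 d1 ha hb ab
  rcases hε with rfl | rfl <;> nlinarith

end Cfsg.Lib.R3S
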