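import Cfsg.Agent.Lib.R3S.Mat
import Cfsg.Agent.Lib.R3S.Num

/-! S2195: the points; a point stabiliser without transvections is transitive on them. -/

set_option autoImplicit false

namespace Cfsg.Lib.R3S

open Cfsg.Lib.Symp Module Submodule MulAction

open scoped LinearAlgebra.Projectivization

variable {F V : Type*} [Field F] [AddCommGroup V] [Module F V] {B : LinearMap.BilinForm F V} {k : ℕ}
  [Finite V] {H : Subgroup (isom B)}

/-- Non-perpendicular points. -/
def NP (B : LinearMap.BilinForm F V) (p p' : ℙ F V) : Prop := B p.rep p'.rep ≠ 0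

omit [Finite V] in
theorem np_mk {u v : V} (hu : u ≠ 0) (hv : v ≠ 0) :
    NP B (Projectivization.mk F u hu) (Projectivization.mk F v hv) ↔ B u v ≠ 0 := by
  obtain ⟨a, ha⟩ := Projectivization.exists_smul_eq_mk_rep F u hu
  obtain ⟨b, hb⟩ := Projectivization.exists_smul_eq_mk_rep F v hv
  simp [NP, ← ha, ← hb, Units.smul_def]

omit [Finite V] in
theorem smul_mk' (g : isom B) {u : V} (hu : u ≠ 0) :
    g • Projectivization.mk F u hu = Projectivization.mk F (g.1 u) (app_ne g hu) := by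
  rw [Subgroup.smul_def, Projectivization.smul_mk]; rfl

omit [Finite V] in
theorem li_of_ne {u v : V} (hu : u ≠ 0) (hv : v ≠ 0)
    (h : Projectivization.mk F v hv ≠ Projectivization.mk F u hu) : LinearIndependent F ![u, v] :=
  (LinearIndependent.pair_iff' hu).2 fun a e => h ((Projectivization.mk_eq_mk_iff' F _ _ hv hu).2 ⟨a, e⟩)

omit [Finite V] in
theorem mem_orth_span {S : Set V} {v : V} : v ∈ B.orthogonal (span F S) ↔ ∀ x ∈ S, B x v = 0 :=
  ⟨fun h x hx => h x (subset_span hx), fun h _ hx =>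
    (span_le (p := LinearMap.ker (B.flip v))).2 (fun x hx => h x hx) hx⟩

theorem Sy.ex_perp (s : Sy B k) {u : V} (hu : u ≠ 0) : ∃ v, B u v = 0 ∧ v ∉ span F {u} := by
  by_contra! n
  have a := s.finrank_orth (span F {u})
  have b := finrank_mono (show B.orthogonal (span F {u}) ≤ span F {u} from
    fun v hv => n v (hv u (mem_span_singleton_self u)))
  rw [finrank_span_singleton hu] at a b
  have := s.k3
  omega

theorem Sy.pair_pts (s : Sy B k) {u v w : V} (hu : u ≠ 0) (hv : v ≠ 0) (hw : w ≠ 0)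
    (a : Projectivization.mk F v hv ≠ Projectivization.mk F u hu)
    (b : Projectivization.mk F w hw ≠ Projectivization.mk F u hu) (e : B u v = B u w) :
    ∃ g : isom B, g • Projectivization.mk F u hu = Projectivization.mk F u hu ∧
      g • Projectivization.mk F v hv = Projectivization.mk F w hw := by
  obtain ⟨g, hg, h1, h2⟩ := exists_isom_of_pair s.alt s.nd (li_of_ne hu hv a) (li_of_ne hu hw b) e
  exact ⟨⟨g, hg⟩, by simp only [smul_mk', h1], by simp only [smul_mk', h2]⟩

/-- Witt: `exists_isom_of_ne_zero`, `exists_isom_of_pair` (rescale the second vectors). -/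
theorem Sy.r3g_pts (s : Sy B k) : R3G (isom B) (ℙ F V) (NP B) := by
  have irr : ∀ p : ℙ F V, ¬ NP B p p := fun p h => h (s.alt.self_eq_zero _)
  have := s.nontriv
  obtain ⟨u₀, h0⟩ := exists_ne (0 : V)
  refine ⟨fun g p p' => ?_, fun p p' h e => h (by rw [skew s.alt, e, neg_zero]), irr, fun p p' => ?_,
    fun p p' p'' a b => ?_, fun p p' p'' a b c d => ?_, ?_, ?_⟩
  · induction p using Projectivization.ind with | _ u hu =>
    induction p' using Projectivization.ind with | _ v hv =>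
    rw [smul_mk', smul_mk', np_mk, np_mk, isom_apply]; exact id
  · induction p using Projectivization.ind with | _ u hu =>
    induction p' using Projectivization.ind with | _ v hv =>
    obtain ⟨g, hg, e⟩ := exists_isom_of_ne_zero s.alt s.nd hu hv
    exact ⟨⟨g, hg⟩, by simp only [smul_mk', e]⟩
  · have a' : p' ≠ p := fun e => irr p (e ▸ a)
    have b' : p'' ≠ p := fun e => irr p (e ▸ b)
    induction p using Projectivization.ind with | _ u hu =>
    induction p' using Projectivization.ind with | _ v hv =>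
    induction p'' using Projectivization.ind with | _ w hw =>
    rw [np_mk] at a b
    have hw' := smul_ne_zero (div_ne_zero a b) hw
    have e : Projectivization.mk F w hw = Projectivization.mk F _ hw' :=
      ((Projectivization.mk_eq_mk_iff' F _ _ hw' hw).2 ⟨_, rfl⟩).symm
    rw [e] at b' ⊢
    exact s.pair_pts hu hv hw' a' b' (by simp [b])
  · induction p using Projectivization.ind with | _ u hu =>
    induction p' using Projectivization.ind with | _ v hv =>
    induction p'' using Projectivization.ind with | _ w hw =>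
    rw [np_mk, not_not] at c d
    exact s.pair_pts hu hv hw a b (c.trans d.symm)
  · obtain ⟨y, hy⟩ := s.ex_one h0
    have : y ≠ 0 := fun e => by simp [e] at hy
    exact ⟨_, _, (np_mk h0 this).2 (by simp [hy])⟩
  · obtain ⟨y, hy, n⟩ := s.ex_perp h0
    have : y ≠ 0 := fun e => n (e ▸ zero_mem _)
    refine ⟨_, _, fun e => n (mem_span_singleton.2 ((Projectivization.mk_eq_mk_iff' F _ _ this h0).1 e.symm)), ?_⟩
    rw [np_mk, hy]; simp

theorem Sy.card_pts (s : Sy B k) : Nat.card (ℙ F V) * (Nat.card F - 1) = Nat.card F ^ (2 * k) - 1 := by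
  rw [← Projectivization.card, s.card_V]

/-- A set of non-zero vectors closed under scalars has `q - 1` vectors on each point. -/
theorem card_cone [Finite F] (P : V → Prop) (h0 : ¬ P 0) (h : ∀ (c : F) v, c ≠ 0 → P v → P (c • v)) :
    {p : ℙ F V | P p.rep}.ncard * (Nat.card F - 1) = {v | P v}.ncard := by
  have inj : Function.Injective fun x : ℙ F V × Fˣ => x.2 • x.1.rep := fun ⟨p, a⟩ ⟨p', b⟩ e => by
    have e' : p = p' := by
      rw [← p.mk_rep, ← p'.mk_rep, Projectivization.mk_eq_mk_iff]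
      exact ⟨a⁻¹ * b, by rw [mul_smul, inv_smul_eq_iff]; exact e.symm⟩
    subst e'
    exact Prod.ext rfl (Units.ext (smul_left_injective F p.rep_nonzero e))
  rw [← Nat.card_units, ← Set.ncard_univ, ← Set.ncard_prod, ← Set.ncard_image_of_injective _ inj]
  congr 1
  ext v
  constructor
  · rintro ⟨⟨p, a⟩, ⟨hp, -⟩, rfl⟩
    exact h a _ a.ne_zero hp
  · intro hv
    have v0 : v ≠ 0 := fun e => h0 (e ▸ hv)
    obtain ⟨a, ha⟩ := Projectivization.exists_smul_eq_mk_rep F v v0
    exact ⟨(Projectivization.mk F v v0, a⁻¹), ⟨by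
      change P _; rw [← ha]; exact h a _ a.ne_zero hv, trivial⟩, by simp [← ha]⟩

open Classical in
theorem sum_ite {X : Type*} [Fintype X] (P : X → Prop) :
    ∑ x, (if P x then 1 else 0 : ℚ) = {x | P x}.ncard := by
  rw [Finset.sum_boole, ← Set.ncard_coe_finset]; simp

theorem ncard_ne (X : Type*) [Finite X] (P : X → Prop) :
    ({x | ¬ P x}.ncard : ℚ) = Nat.card X - {x | P x}.ncard := by
  rw [← Set.ncard_add_ncard_compl {x | P x}]; push_cast; rw [add_sub_cancel_left]; rfl

theorem Sy.c0 (s : Sy B k) : (Nat.card V : ℚ) = (Nat.card F : ℚ) ^ 2 * ((Nat.card F : ℚ) ^ (k - 1)) ^ 2 := by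
  have := s.k3
  rw [s.card_V, show 2 * k = 2 + (k - 1) * 2 by omega, pow_add, pow_mul]; push_cast; rfl

theorem Sy.c1 (s : Sy B k) {u : V} (hu : u ≠ 0) :
    ({v | B u v = 0}.ncard : ℚ) = (Nat.card F : ℚ) * ((Nat.card F : ℚ) ^ (k - 1)) ^ 2 := by
  have := s.k3
  have a := s.finrank_orth (span F {u})
  rw [finrank_span_singleton hu] at a
  have e : {v | B u v = 0} = (B.orthogonal (span F {u}) : Set V) := by
    ext v; simp only [SetLike.mem_coe, mem_orth_span, Set.mem_singleton_iff, forall_eq]; rfl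
  rw [e, s.card_sub, show finrank F (B.orthogonal (span F {u})) = 1 + (k - 1) * 2 by omega, pow_add, pow_mul]
  push_cast; rw [pow_one]

theorem Sy.c2 (s : Sy B k) {u u' : V} (h : LinearIndependent F ![u, u']) :
    ({v | B u v = 0 ∧ B u' v = 0}.ncard : ℚ) = ((Nat.card F : ℚ) ^ (k - 1)) ^ 2 := by
  have := s.k3
  have a := s.finrank_orth (span F (Set.range ![u, u']))
  rw [finrank_span_eq_card h, Fintype.card_fin] at a
  have e : {v | B u v = 0 ∧ B u' v = 0} = (B.orthogonal (span F (Set.range ![u, u'])) : Set V) := by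
    ext v; simp only [SetLike.mem_coe, mem_orth_span, Set.forall_mem_range, Fin.forall_fin_two]; rfl
  rw [e, s.card_sub, show finrank F (B.orthogonal (span F (Set.range ![u, u']))) = (k - 1) * 2 by omega, pow_mul]
  push_cast; rfl

theorem Sy.cone (s : Sy B k) (P : V → Prop) (h0 : ¬ P 0) (h : ∀ (c : F) v, c ≠ 0 → P v → P (c • v)) {a : ℚ}
    (e : ({v | P v}.ncard : ℚ) = a * (Nat.card F - 1)) : ({p : ℙ F V | P p.rep}.ncard : ℚ) = a := by
  have := s.fin
  have q := s.three_le
  have q' : (3 : ℚ) ≤ Nat.card F := by exact_mod_cast q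
  rw [← card_cone P h0 h, Nat.cast_mul, Nat.cast_pred (by omega)] at e
  exact mul_right_cancel₀ (by linarith) e

/-- `q^(2k) - q^(2k-1)` vectors are not perpendicular to `u`; for independent `u`, `v`,
`q^(2k) - 2 q^(2k-1) + q^(2k-2) = (q - 1)² q^(2k-2)` vectors are perpendicular to neither
(`card_sub`, `finrank_orth`, `card_cone`). -/
theorem Sy.np_mul (s : Sy B k) [Fintype (ℙ F V)] [DecidableEq (ℙ F V)] :
    rm (NP B) * jm (ℙ F V) (ℙ F V) = ((Nat.card F : ℚ) * ((Nat.card F : ℚ) ^ (k - 1)) ^ 2) • jm _ _ ∧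
    rm (NP B) * rm (NP B) = ((Nat.card F : ℚ) ^ (k - 1)) ^ 2 • (1 : Matrix (ℙ F V) (ℙ F V) ℚ) +
      (((Nat.card F : ℚ) - 1) * ((Nat.card F : ℚ) ^ (k - 1)) ^ 2) • jm _ _ := by
  have k1 : ∀ p : ℙ F V, ({z : ℙ F V | B p.rep z.rep ≠ 0}.ncard : ℚ) =
      (Nat.card F : ℚ) * ((Nat.card F : ℚ) ^ (k - 1)) ^ 2 := fun p =>
    s.cone (fun v => B p.rep v ≠ 0) (by simp) (fun c v hc h => by simp [hc, h]) (by
      rw [ncard_ne, s.c0, s.c1 p.rep_nonzero]; ring)
  refine ⟨mul_jm (fun p => (sum_ite _).trans (k1 p)) _, ?_⟩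
  ext p p'
  have k2 : (rm (NP B) * rm (NP B)) p p' = {z : ℙ F V | B p.rep z.rep ≠ 0 ∧ B p'.rep z.rep ≠ 0}.ncard := by
    rw [← sum_ite, Matrix.mul_apply]
    refine Finset.sum_congr rfl fun z _ => ?_
    by_cases a : B p.rep z.rep = 0 <;> by_cases b : B p'.rep z.rep = 0 <;> simp [rm, NP, a, b, skew s.alt z.rep]
  rw [k2]
  rcases eq_or_ne p' p with rfl | n
  · simp only [and_self, k1]; simp [jm]; ring
  have li := li_of_ne p.rep_nonzero p'.rep_nonzero (by rwa [p.mk_rep, p'.mk_rep])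
  rw [s.cone (fun v => B p.rep v ≠ 0 ∧ B p'.rep v ≠ 0) (by simp) (fun c v hc h => by simp [hc, h.1, h.2])
    (a := ((Nat.card F : ℚ) - 1) * ((Nat.card F : ℚ) ^ (k - 1)) ^ 2)]
  · simp [jm, n.symm]
  have u := congrArg (Nat.cast (R := ℚ)) (Set.ncard_union_add_ncard_inter {v | B p.rep v = 0} {v | B p'.rep v = 0})
  push_cast at u
  rw [s.c1 p.rep_nonzero, s.c1 p'.rep_nonzero, ← Set.setOf_and, s.c2 li, ← Set.setOf_or] at u
  simp only [← not_or]
  rw [ncard_ne, s.c0]
  linear_combination -u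

/-- `t_{v,1} u = u + B(u, v) v`.  For `p = p' = ⟨u⟩`: `v ⊥ u` (otherwise `v ∈ ⟨u⟩`, so `v ⊥ u`).  For
`p ≠ p' = ⟨u'⟩`: `v = α u + β u'`, `B(u, v) = β δ`, `δ = B(u, u')`, and the condition is
`1 + α β δ = 0`: `q - 1` solutions if `δ ≠ 0`, none otherwise. -/
theorem Sy.card_tv_pts (s : Sy B k) [DecidableEq (ℙ F V)] (p p' : ℙ F V) :
    ({v : V | v ≠ 0 ∧ tv s.alt v 1 • p = p'}.ncard : ℚ) =
      (((Nat.card F : ℚ) * ((Nat.card F : ℚ) ^ (k - 1)) ^ 2 - 1) • (1 : Matrix (ℙ F V) (ℙ F V) ℚ) +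
        ((Nat.card F : ℚ) - 1) • rm (NP B)) p p' := by
  have := s.fin
  induction p using Projectivization.ind with | _ u hu =>
  induction p' using Projectivization.ind with | _ u' hu' =>
  simp only [smul_mk', Projectivization.mk_eq_mk_iff', tv_apply, one_mul, Matrix.add_apply, Matrix.smul_apply,
    rm, Matrix.of_apply, np_mk, smul_eq_mul]
  have key : ∀ (v : V) (a : F), a • u' = u + B u v • v → a * B u u' = B u v * B u v := fun v a e => by
    simpa [s.alt.self_eq_zero] using congrArg (B u) e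
  by_cases n : Projectivization.mk F u hu = Projectivization.mk F u' hu'
  · obtain ⟨b, hb⟩ := (Projectivization.mk_eq_mk_iff' F _ _ hu' hu).1 n.symm
    obtain ⟨b', hb'⟩ := (Projectivization.mk_eq_mk_iff' F _ _ hu hu').1 n
    have d : B u u' = 0 := by simp [← hb, s.alt.self_eq_zero]
    have e : {v : V | v ≠ 0 ∧ ∃ a : F, a • u' = u + B u v • v} = {v | B u v = 0} \ {0} := by
      ext v
      exact ⟨fun ⟨a, c, e⟩ => ⟨mul_self_eq_zero.1 (by rw [← key v c e, d, mul_zero]), a⟩,
        fun ⟨a, c⟩ => ⟨c, b', by rw [a, hb']; simp⟩⟩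
    rw [e, Set.ncard_diff_singleton_of_mem (by simp), Nat.cast_pred ((Set.ncard_pos).2 ⟨0, by simp⟩), s.c1 hu, n]
    simp [np_mk, s.alt.self_eq_zero]
  have nz : ∀ (v : V) (a : F), a • u' = u + B u v • v → B u v ≠ 0 := fun v a e z =>
    n ((Projectivization.mk_eq_mk_iff' F _ _ hu hu').2 ⟨a, by simpa [z] using e⟩)
  rw [Matrix.one_apply_ne n, mul_zero, zero_add]
  by_cases d : B u u' = 0
  · have e : {v : V | v ≠ 0 ∧ ∃ a : F, a • u' = u + B u v • v} = ∅ := Set.eq_empty_of_forall_notMem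
      fun v ⟨_, a, e⟩ => nz v a e (mul_self_eq_zero.1 (by rw [← key v a e, d, mul_zero]))
    rw [e]; simp [np_mk, d]
  have bf : ∀ β : F, B u (β • u' - (β * B u u')⁻¹ • u) = β * B u u' := fun β => by simp [s.alt.self_eq_zero]
  have e : {v : V | v ≠ 0 ∧ ∃ a : F, a • u' = u + B u v • v} =
      (fun β : F => β • u' - (β * B u u')⁻¹ • u) '' {β | ¬ β = 0} := by
    ext v
    constructor
    · rintro ⟨-, a, e⟩
      have c := nz v a e
      have c' : a / B u v * B u u' = B u v := by rw [div_mul_eq_mul_div, key v a e, mul_div_cancel_right₀ _ c]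
      refine ⟨a / B u v, fun z => c (by rw [← c', z, zero_mul]), smul_right_injective V c ?_⟩
      simp only [c', smul_sub, smul_smul, mul_div_cancel₀ _ c, mul_inv_cancel₀ c, one_smul, e, add_sub_cancel_left]
    · rintro ⟨β, hβ, rfl⟩
      have c := mul_ne_zero hβ d
      refine ⟨fun z => c (by rw [← bf, show β • u' - (β * B u u')⁻¹ • u = 0 from z, map_zero]),
        β * B u u' * β, ?_⟩
      rw [bf, smul_sub, smul_smul, smul_smul, mul_inv_cancel₀ c, one_smul, add_sub_cancel]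
  rw [e, Set.ncard_image_of_injective _ fun a b e => mul_right_cancel₀ d ((bf a).symm.trans ((congrArg (B u) e).trans (bf b))),
    ncard_ne]
  simp [np_mk, d]

variable {X : Type*} [MulAction (isom B) X]

/-- Otherwise `{x} ∪ Adj x` is closed under all transvections (`tv v a • y` is `y` or adjacent to
`y`), so its setwise stabiliser is `⊤` (`eq_top_of_tv_mem`; `X` is finite), against `ex2`, `tr`. -/
theorem Sy.adj_conn (s : Sy B k) [Finite X] (h : R3G (isom B) X (Adj s.alt)) :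
    ∃ x y z : X, Adj s.alt x y ∧ Adj s.alt y z ∧ x ≠ z ∧ ¬ Adj s.alt x z := by
  by_contra! n
  obtain ⟨x, y, a, b⟩ := h.ex2
  have cl : ∀ v c z, (z = x ∨ Adj s.alt x z) → (tv s.alt v c • z = x ∨ Adj s.alt x (tv s.alt v c • z)) := by
    intro v c z hz
    by_cases v0 : v = 0
    · have : tv s.alt v c = 1 := ext' fun y => by simp [tv_apply, v0]
      simpa [this] using hz
    by_cases c0 : c = 0
    · simpa [c0] using hz
    have ad : Adj s.alt z (tv s.alt v c • z) := ⟨v, c, v0, c0, rfl⟩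
    rcases hz with rfl | hz
    · exact .inr ad
    · exact or_iff_not_imp_left.2 fun e => n _ _ _ hz ad (Ne.symm e)
  let K : Subgroup (isom B) :=
    { carrier := {g | ∀ z, (z = x ∨ Adj s.alt x z) ↔ (g • z = x ∨ Adj s.alt x (g • z))}
      one_mem' := fun z => by simp
      mul_mem' := fun {g g'} hg hg' z => by rw [mul_smul, ← hg, ← hg']
      inv_mem' := fun {g} hg z => by rw [hg (g⁻¹ • z), smul_inv_smul] }
  have t : K = ⊤ := eq_top_of_tv_mem s.alt s.nd K fun v c z => ⟨cl v c z, fun e => by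
    simpa [← tv_inv] using cl v (-c) _ e⟩
  obtain ⟨g, rfl⟩ := h.tr x y
  exact ((t.ge (Subgroup.mem_top g) x).1 (.inl rfl)).elim a.symm b

/-- `#{v ≠ 0 | tv v 1 • x = y}` is invariant (`conj_tv`), `0` on non-edges and on the diagonal,
and positive on one edge, so a positive constant on edges (`e1`, `tr`). -/
theorem Sy.card_tv_adj (s : Sy B k) (h : R3G (isom B) X (Adj s.alt)) :
    ∃ c : ℚ, 0 < c ∧ ∀ x y : X, ({v : V | v ≠ 0 ∧ tv s.alt v 1 • x = y}.ncard : ℚ) =
      (c • rm (Adj s.alt)) x y := by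
  have := s.nontriv
  obtain ⟨v₀, h0⟩ := exists_ne (0 : V)
  obtain ⟨x₀, -⟩ := h.ex1
  have iv : ∀ (g : isom B) (x y : X), {v : V | v ≠ 0 ∧ tv s.alt v 1 • g • x = g • y}.ncard =
      {v : V | v ≠ 0 ∧ tv s.alt v 1 • x = y}.ncard := fun g x y => by
    rw [← Set.ncard_image_of_injective {v : V | v ≠ 0 ∧ tv s.alt v 1 • x = y} g.1.injective]
    congr 1
    ext v
    obtain ⟨v, rfl⟩ := g.1.surjective v
    rw [g.1.injective.mem_set_image]
    simp only [Set.mem_setOf_eq, ← conj_tv, mul_smul, inv_smul_smul, smul_left_cancel_iff, Ne,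
      g.1.map_eq_zero_iff]
  have ad : Adj s.alt x₀ (tv s.alt v₀ 1 • x₀) := ⟨v₀, 1, h0, one_ne_zero, rfl⟩
  refine ⟨{v : V | v ≠ 0 ∧ tv s.alt v 1 • x₀ = tv s.alt v₀ 1 • x₀}.ncard,
    Nat.cast_pos.2 ((Set.ncard_pos).2 ⟨v₀, h0, rfl⟩), fun x y => ?_⟩
  by_cases a : Adj s.alt x y
  · obtain ⟨g, rfl⟩ := h.tr x₀ x
    obtain ⟨g', b, rfl⟩ := h.e1 _ _ _ (h.inv g _ _ ad) a
    have := iv g' (g • x₀) (g • tv s.alt v₀ 1 • x₀)
    rw [b, iv] at this
    simp [rm, a, this]
  · have e : {v : V | v ≠ 0 ∧ tv s.alt v 1 • x = y} = ∅ :=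
      Set.eq_empty_of_forall_notMem fun v ⟨b, c⟩ => a ⟨v, 1, b, one_ne_zero, c⟩
    rw [e]
    simp [rm, a]

open Classical in
theorem sum_fib {Y : Type*} [Fintype Y] (f : V → Y) (P : Y → Prop) :
    ∑ y, ({v | v ≠ 0 ∧ f v = y}.ncard : ℚ) * (if P y then 1 else 0) = {v | v ≠ 0 ∧ P (f v)}.ncard := by
  have := Fintype.ofFinite V
  simp only [← sum_ite, Finset.sum_mul]
  rw [Finset.sum_comm]
  refine Finset.sum_congr rfl fun v _ => ?_
  rw [Finset.sum_eq_single (f v) (fun y _ n => by simp [n.symm]) (by simp)]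
  by_cases h : v = 0 <;> simp [h]

/-- Let `u, u'` be unrelated, `R y p := ∃ g, g • x = y ∧ g • ⟨u⟩ = p`; `R x ⟨u⟩` and `¬ R x ⟨u'⟩`.  Both
sides of `hT` at `(y, p)` count the `v ≠ 0` with `R (t_v y) p`, that is `R y (t_v⁻¹ p)`
(`Finset.card_eq_sum_card_fiberwise`).  Then `two_orb` and `num_false` with `m = q^(k-1)`. -/
theorem Sy.caseD (s : Sy B k) [Finite X] (h : R3G (isom B) X (Adj s.alt)) (x : X) :
    Tr (stabilizer (isom B) x) := by
  classical
  intro u u' hu hu'
  by_contra n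
  have := Fintype.ofFinite X
  have := Fintype.ofFinite (ℙ F V)
  obtain ⟨c, hc, h1⟩ := s.card_tv_adj h
  let R : X → ℙ F V → Prop := fun y p => ∃ g : isom B, g • x = y ∧ g • Projectivization.mk F u hu = p
  have hR : ∀ (g : isom B) y p, R y p → R (g • y) (g • p) := fun g y p ⟨g', a, b⟩ =>
    ⟨g * g', by rw [mul_smul, a], by rw [mul_smul, b]⟩
  have q := s.three_le
  have q' : (3 : ℚ) ≤ Nat.card F := by exact_mod_cast q
  have k3 := s.k3
  have m2 : Nat.card F ^ 2 ≤ Nat.card F ^ (k - 1) := Nat.pow_le_pow_right (by omega) (by omega)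
  have m2' : (Nat.card F : ℚ) ^ 2 ≤ (Nat.card F : ℚ) ^ (k - 1) := by exact_mod_cast m2
  obtain ⟨ε, r, κ, S, hε, a1, a2, a3, a4, a5, a6⟩ := two_orb h s.r3g_pts (s.adj_conn h) hR
    ⟨x, _, 1, one_smul _ _, one_smul _ _⟩ ⟨x, Projectivization.mk F u' hu', fun ⟨g, a, b⟩ => n (by
      rw [smul_mk', Projectivization.mk_eq_mk_iff'] at b
      exact ⟨g, a, b.imp fun _ => Eq.symm⟩)⟩ hc (m := (Nat.card F : ℚ) ^ (k - 1)) (by positivity)
    (e := (Nat.card F : ℚ) - 1) (by linarith)
    (F₀ := (Nat.card F : ℚ) * ((Nat.card F : ℚ) ^ (k - 1)) ^ 2 - 1) (by nlinarith) (by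
      ext y p
      simp only [Matrix.mul_apply, ← h1, ← s.card_tv_pts]
      simp only [rm, Matrix.of_apply, ← eq_inv_smul_iff (b := p),
        mul_comm (ite (R y _) _ _), eq_comm (b := _ • p)]
      rw [sum_fib, sum_fib]
      congr 2
      ext v
      exact and_congr_right fun _ => ⟨fun e => by simpa using hR (tv s.alt v 1)⁻¹ _ _ e,
        fun e => by simpa using hR (tv s.alt v 1) _ _ e⟩) s.np_mul.2 s.np_mul.1
  refine num_false q m2 hc (P := Fintype.card (ℙ F V)) ?_ hε (by exact_mod_cast a1) (by exact_mod_cast a2) a3 a4 a5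
    (by exact_mod_cast a6)
  have := congrArg (Nat.cast (R := ℚ)) s.card_pts
  rw [← s.card_V, Nat.cast_mul, Nat.cast_pred (by omega), Nat.cast_pred Nat.card_pos, s.c0,
    Nat.card_eq_fintype_card] at this
  exact_mod_cast this

end Cfsg.Lib.R3S
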