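import Cfsg.Agent.Lib.R3S.T1

/-! S2195: anisotropic pairs of commuting transvections. -/

set_option autoImplicit false

namespace Cfsg.Lib.R3S

open Cfsg.Lib.Symp Module Submodule MulAction

variable {F V : Type*} [Field F] [AddCommGroup V] [Module F V] {B : LinearMap.BilinForm F V} {k : ℕ}
  [Finite V] {H : Subgroup (isom B)}

/-- The support of an anisotropic element `tv u a * tv w b ∈ H`. -/
def UL (hA : B.IsAlt) (H : Subgroup (isom B)) (L : Submodule F V) : Prop :=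
  ∃ (u w : V) (a b : F), L = span F {u, w} ∧ finrank F L = 2 ∧ B u w = 0 ∧
    ¬ IsSquare (-(a * b)) ∧ tv hA u a * tv hA w b ∈ H

omit [Finite V] in
/-- Complete the square: `z = σ u + ρ w`, `n = b σ² + a ρ² ≠ 0`, `e = a ρ u - b σ w`,
`tv u a * tv w b = tv e n⁻¹ * tv z (a b / n)`. -/
theorem UL.sq {hA : B.IsAlt} {L : Submodule F V} (h : UL hA H L) {z : V} (hz : z ∈ L) (h0 : z ≠ 0) :
    ∃ (e : V) (α γ : F), α ≠ 0 ∧ L = span F {e, z} ∧ B e z = 0 ∧ tv hA e α * tv hA z γ ∈ H := by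
  obtain ⟨u, w, a, b, rfl, -, uw, ns, m⟩ := h
  obtain ⟨σ, ρ, rfl⟩ := mem_span_pair.1 hz
  have wu : B w u = 0 := by rw [skew hA, uw, neg_zero]
  have n0 : b * σ ^ 2 + a * ρ ^ 2 ≠ 0 := fun e => ns (by
    by_cases hσ : σ = 0
    · have : ρ ≠ 0 := fun hρ => h0 (by simp [hσ, hρ])
      simp [show a = 0 by simpa [hσ, this] using e]
    · exact ⟨a * ρ / σ, by field_simp; linear_combination (-a) * e⟩)
  generalize hn : b * σ ^ 2 + a * ρ ^ 2 = n at n0
  have mu : u ∈ span F {u, w} := subset_span (by simp)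
  have mw : w ∈ span F {u, w} := subset_span (by simp)
  refine ⟨(a * ρ) • u - (b * σ) • w, n⁻¹, a * b / n, inv_ne_zero n0, le_antisymm (span_le.2 (Set.pair_subset
    (mem_span_pair.2 ⟨ρ / n, b * σ / n, ?_⟩) (mem_span_pair.2 ⟨-σ / n, a * ρ / n, ?_⟩)))
    (span_le.2 (Set.pair_subset (sub_mem (smul_mem _ _ mu) (smul_mem _ _ mw)) hz)),
    by simp [uw, wu, hA.self_eq_zero], ?_⟩
  · match_scalars <;> field_simp
    exacts [by linear_combination hn, by ring]
  · match_scalars <;> field_simp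
    exacts [by ring, by linear_combination hn]
  convert m using 1
  refine ext' fun x => ?_
  simp only [mul_app, tv_apply, map_add, map_sub, map_smul, LinearMap.add_apply, LinearMap.smul_apply,
    smul_eq_mul, uw, wu, hA.self_eq_zero]
  match_scalars <;> field_simp
  · linear_combination a * B x u * n * hn
  · linear_combination b * B x w * n * hn

theorem Sy.ul_aux (s : Sy B k) {W : Submodule F V} {e z p : V} {α γ : F} (hα : α ≠ 0) (he : e ∈ W)
    (hz : ∀ y ∈ W, B y z = 0) (m : tv s.alt e α * tv s.alt z γ ∈ H) (hp : p ∈ W) (pe : B p e ≠ 0)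
    (h : ∀ d ∈ H, Fx d W → ∃ c : F, d.1 p = c • p) {d : isom B} (hd : d ∈ H) (fd : Fx d W) :
    ∃ c : F, d.1 p = c • p ∧ d.1 e = c • e := by
  have z0 := s.alt.self_eq_zero
  have ap : ∀ y ∈ W, (tv s.alt e α * tv s.alt z γ).1 y = y + (α * B y e) • e := fun y hy => by
    rw [mul_app, tv_fix _ _ (hz y hy), tv_apply]
  have ai : ∀ y ∈ W, (tv s.alt e α * tv s.alt z γ)⁻¹.1 y ∈ W := fun y hy => by
    have := W.sub_mem hy (W.smul_mem (α * B y e) he)
    have k := inv_app (tv s.alt e α * tv s.alt z γ) (y - (α * B y e) • e) ▸ this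
    rwa [ap _ this, show y - (α * B y e) • e + (α * B (y - (α * B y e) • e) e) • e = y by simp [z0]] at k
  generalize tv s.alt e α * tv s.alt z γ = g at *
  have step : ∀ p, (∀ d ∈ H, Fx d W → ∃ c : F, d.1 p = c • p) →
      ∀ d ∈ H, Fx d W → ∃ c : F, d.1 (g.1 p) = c • g.1 p := fun p h d hd fd => by
    obtain ⟨c, hc⟩ := h _ (H.mul_mem (H.mul_mem (H.inv_mem m) hd) (H.inv_mem (H.inv_mem m))) (fd.conj ai)
    exact ⟨c, by rw [← map_smul, ← hc, inv_inv, mul_app, mul_app, app_inv]⟩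
  obtain ⟨c₀, h0⟩ := h d hd fd
  obtain ⟨c₁, h1⟩ := step p h d hd fd
  obtain ⟨c₂, h2⟩ := step _ (step p h) d hd fd
  have mp := ap p hp
  rw [ap _ (mp ▸ W.add_mem hp (W.smul_mem _ he))] at h2
  rw [mp] at h1 h2
  simp only [map_add, map_smul, h0, LinearMap.add_apply, LinearMap.smul_apply, z0, smul_zero, add_zero] at h1 h2
  have e' : (c₀ - 2 * c₁ + c₂) • p + (2 * (α * B p e) * (c₂ - c₁)) • e = 0 := by
    linear_combination (norm := module) (2 : F) • h1 - h2
  have k1 : c₀ - 2 * c₁ + c₂ = 0 := by simpa [pe, z0] using congrArg (B · e) e'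
  have k2 : c₂ - c₁ = 0 := by
    simpa [pe, z0, hα, s.two] using congrArg (B p) e'
  refine ⟨c₀, h0, smul_right_injective V (mul_ne_zero hα pe) ?_⟩
  rw [show c₁ = c₀ by linear_combination k2 - k1] at h1
  linear_combination (norm := module) h1

/-- `t = tv e α`, `t' = tv f α'`; the other two factors commute with everything here (`tv_comm`), so
`d = ⁅t, t'⁆ ∈ H`, `Fx d W`.  `h = t * tv z γ ∈ H` preserves `W` and `W^⊥` and acts on `W` as `t`.  Let
`0 ≠ p ∈ W` be an eigenvector of all `x ∈ H` with `Fx x W`; so are `t p`, `t² p` (conjugate by `h`).  If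
`B p e ≠ 0`, then `p`, `p + c e`, `p + 2 c e` are eigenvectors of `d`, so `d = μ` is scalar on `W`; otherwise
`B p f ≠ 0`, use `t'`.  Finally `t t' e = μ t' t e` gives `μ = 1` and `α α' B(e, f)² = 0`. -/
theorem Sy.irr_of_ul (s : Sy B k) {e f z z' : V} {α γ α' γ' : F} (hα : α ≠ 0) (hα' : α' ≠ 0)
    (ef : B e f ≠ 0) (h1 : B e z = 0) (h2 : B f z = 0) (h3 : B e z' = 0) (h4 : B f z' = 0)
    (h5 : B z z' = 0) (m : tv s.alt e α * tv s.alt z γ ∈ H) (m' : tv s.alt f α' * tv s.alt z' γ' ∈ H) :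
    Irr H (span F {e, f}) := by
  have sk := skew s.alt
  have z0 := s.alt.self_eq_zero
  have me : e ∈ span F {e, f} := subset_span (by simp)
  have mf : f ∈ span F {e, f} := subset_span (by simp)
  refine ⟨⟨e, _, by simp [ef], (pl_span s.alt me (smul_mem _ (B e f)⁻¹ mf) (by simp [ef])).symm⟩,
    fun p hp p0 => by_contra fun n => ?_⟩
  push Not at n
  have c1 := tv_comm s.alt α γ h1
  have c2 := tv_comm s.alt α' γ h2
  have c3 := tv_comm s.alt α γ' h3
  have c4 := tv_comm s.alt α' γ' h4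
  have c5 := tv_comm s.alt γ γ' h5
  have hd : tv s.alt e α * tv s.alt f α' * (tv s.alt f α' * tv s.alt e α)⁻¹ ∈ H := by
    convert H.mul_mem (H.mul_mem m m') (H.inv_mem (H.mul_mem m' m)) using 1
    rw [c2.symm.mul_mul_mul_comm, c3.symm.mul_mul_mul_comm, c5.eq]
    group
  have fd : Fx (tv s.alt e α * tv s.alt f α' * (tv s.alt f α' * tv s.alt e α)⁻¹) (span F {e, f}) :=
    ((fx_tv _ me _).mul (fx_tv _ mf _)).mul ((fx_tv _ mf _).mul (fx_tv _ me _)).inv
  have pz : ∀ {z}, B e z = 0 → B f z = 0 → ∀ y ∈ span F {e, f}, B y z = 0 := fun a b y hy => by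
    obtain ⟨x, y, rfl⟩ := mem_span_pair.1 hy
    simp [a, b]
  obtain ⟨c, hc⟩ : ∃ c : F, ∀ y ∈ span F {e, f},
      (tv s.alt e α * tv s.alt f α' * (tv s.alt f α' * tv s.alt e α)⁻¹).1 y = c • y := by
    have fin : ∀ a ∈ span F {e, f}, B p a ≠ 0 → ∀ d : isom B, (∃ c : F, d.1 p = c • p ∧ d.1 a = c • a) →
        ∃ c : F, ∀ y ∈ span F {e, f}, d.1 y = c • y := fun a ha pa d ⟨c, x1, x2⟩ => ⟨c, fun y hy => by
      obtain ⟨u, v, rfl⟩ := mem_span_pair.1 ((pl_span s.alt hp ha pa).ge hy)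
      rw [map_add, map_smul, map_smul, x1, x2]; module⟩
    by_cases pe : B p e = 0
    · have pf : B p f ≠ 0 := fun pf => by
        obtain ⟨x, y, rfl⟩ := mem_span_pair.1 hp
        simp [z0, ef, sk f e] at pe pf
        exact p0 (by simp [pe, pf])
      exact fin f mf pf _ (s.ul_aux hα' mf (pz h3 h4) m' hp pf n hd fd)
    · exact fin e me pe _ (s.ul_aux hα me (pz h1 h2) m hp pe n hd fd)
  have := hc ((tv s.alt f α' * tv s.alt e α).1 e) (s.app_mem ((fx_tv _ mf _).mul (fx_tv _ me _)) me)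
  rw [mul_app _ _⁻¹, inv_app] at this
  have k1 := congrArg (B e) this
  have k2 := congrArg (B · f) this
  simp [mul_app, tv_apply, z0, sk f e, hα', ef] at k1 k2
  exact mul_ne_zero (mul_ne_zero hα hα') (pow_ne_zero 3 ef) (by rw [k1] at k2; linear_combination -k2)

/-- `L' = ⟨f, z⟩` by `sq`; take `0 ≠ z₀ ∈ L` perpendicular to `f` (so to `L'`), `L = ⟨e, z₀⟩`.  If
`B e f ≠ 0`: `irr_of_ul`, `not_irr`. -/
theorem Sy.ul_perp (s : Sy B k) (hH : NoTv s.alt H) (t : Tr H) {L L' : Submodule F V}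
    (h : UL s.alt H L) (h' : UL s.alt H L') {z : V} (hz : z ∈ L') (h0 : z ≠ 0)
    (hp : ∀ y ∈ L, B y z = 0) : ∀ y ∈ L, ∀ z' ∈ L', B y z' = 0 := by
  obtain ⟨f, α', γ', hα', rfl, fz, m'⟩ := h'.sq hz h0
  obtain ⟨z₀, hz₀, z0, zf⟩ : ∃ z₀ ∈ L, z₀ ≠ 0 ∧ B f z₀ = 0 := by
    obtain ⟨-, -, -, -, -, d, -⟩ := h
    have k := LinearMap.finrank_range_add_finrank_ker ((B f).domRestrict L)
    have := (finrank_le (LinearMap.range ((B f).domRestrict L))).trans (finrank_self F).le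
    obtain ⟨x, hx, x0⟩ := (Submodule.ne_bot_iff (LinearMap.ker ((B f).domRestrict L))).1 fun e => by
      rw [e, finrank_bot] at k; omega
    exact ⟨x, x.2, fun e => x0 (Subtype.ext e), hx⟩
  obtain ⟨e, α, γ, hα, rfl, ez, m⟩ := h.sq hz₀ z0
  have e1 := hp e (subset_span (by simp))
  have ef : B e f = 0 := by_contra fun ef =>
    s.not_irr hH t _ (s.irr_of_ul hα hα' ef ez zf e1 fz (hp _ hz₀) m m')
  intro y hy z' hz'
  obtain ⟨a, b, rfl⟩ := mem_span_pair.1 hy
  obtain ⟨c, d, rfl⟩ := mem_span_pair.1 hz'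
  simp [ef, e1, hp _ hz₀, skew s.alt z₀ f, zf]

open scoped Pointwise

omit [Finite V] in
theorem UL.smul {hA : B.IsAlt} {L : Submodule F V} (h : UL hA H L) {g : isom B} (hg : g ∈ H) :
    UL hA H (g • L) := by
  obtain ⟨u, w, a, b, rfl, d, uw, ns, m⟩ := h
  refine ⟨g.1 u, g.1 w, a, b, ?_, (LinearEquiv.finrank_map_eq g.1 _).trans d, by rwa [isom_apply], ns, ?_⟩
  · exact (map_span g.1.toLinearMap _).trans (by rw [Set.image_pair]; rfl)
  · convert H.mul_mem (H.mul_mem hg m) (H.inv_mem hg) using 1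
    rw [← conj_tv, ← conj_tv]; group

/-- `uniq`: let `v ∈ L ∩ L'`, `w ∈ L' \ L`, `z ⊥ L` with `B w z ≠ 0` (`dperp`), `z ∈ L''`.  Then `L ⊥ L''`,
so `v ⊥ L''`, so `L'' ⊥ L'` (`ul_perp` twice), a contradiction; so `L' ≤ L`. -/
theorem Sy.ul_spr (s : Sy B k) (hH : NoTv s.alt H) (t : Tr H) {L : Submodule F V}
    (h : UL s.alt H L) : Spr B {L | UL s.alt H L} := by
  have dim : ∀ L, UL s.alt H L → finrank F L = 2 := fun L ⟨_, _, _, _, _, d, _⟩ => d
  have cov : ∀ v : V, v ≠ 0 → ∃ L, UL s.alt H L ∧ v ∈ L := fun v hv => by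
    obtain ⟨x, hx, x0⟩ := (Submodule.ne_bot_iff L).1 fun e => by
      have := dim L h
      rw [e, finrank_bot] at this
      omega
    obtain ⟨g, hg, c, m⟩ := t x v x0 hv
    exact ⟨_, h.smul hg, (smul_mem_iff _ fun c0 => app_ne g x0 (by rw [m, c0, zero_smul])).1 ⟨x, hx, m⟩⟩
  refine ⟨dim, cov, fun L a L' b v hv m m' => ?_, fun L a L' b z hz z0 => s.ul_perp hH t a b hz z0⟩
  refine (eq_of_le_of_finrank_eq (fun w hw => s.dperp fun z hz => ?_) ((dim _ b).trans (dim _ a).symm)).symm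
  rcases eq_or_ne z 0 with rfl | z0
  · simp
  obtain ⟨L'', c, mz⟩ := cov z z0
  rw [skew s.alt, s.ul_perp hH t c b m' hv (fun y hy => by
    rw [skew s.alt, s.ul_perp hH t a c mz z0 hz v m y hy, neg_zero]) z mz w hw, neg_zero]

/-- `B u w = 0` (`partner_perp`); `u, w` are independent (if `w = c u`, the product is
`tv u (a + c² b)`, so `a = - c² b`, `- a b = (c b)²`).  `ul_spr`, `Spr.false_iso`. -/
theorem Sy.caseT (s : Sy B k) (hH : NoTv s.alt H) (t : Tr H) (h3 : R3 H) {u w : V} {a b : F}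
    (hu : u ≠ 0) (hw : w ≠ 0) (hab : ¬ IsSquare (-(a * b))) (h : tv s.alt u a * tv s.alt w b ∈ H) :
    False := by
  have uw := s.partner_perp hH t hab h
  have li : LinearIndependent F ![u, w] := (LinearIndependent.pair_iff' hu).2 fun c e => by
    rw [← e, tv_smul, tv_mul] at h
    exact hab ⟨c * b, by linear_combination (-b) * hH u _ hu h⟩
  have d := finrank_span_eq_card li
  rw [Matrix.range_cons_cons_empty] at d
  refine (s.ul_spr hH t ⟨u, w, a, b, rfl, d, uw, hab, h⟩).false_iso s ?_ (fun g hg L m => UL.smul m hg) h3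
  rintro _ ⟨u, w, -, -, rfl, -, uw, -⟩ x hx y hy
  obtain ⟨a, b, rfl⟩ := mem_span_pair.1 hx
  obtain ⟨c, d, rfl⟩ := mem_span_pair.1 hy
  simp [uw, skew s.alt w u, s.alt.self_eq_zero]

end Cfsg.Lib.R3S
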