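import Cfsg.Agent.Lib.R3S.Bur
import Cfsg.Agent.Lib.R3S.Pts
import Cfsg.Agent.Lib.R3S.A3
import Cfsg.Agent.Lib.R3S.T2
import Cfsg.Agent.Lib.R3S.P3

/-! S2195: assembly. -/

set_option autoImplicit false

namespace Cfsg.Lib.R3S

open Cfsg.Lib.Symp Module Submodule MulAction

open scoped LinearAlgebra.Projectivization

variable {F V : Type*} [Field F] [AddCommGroup V] [Module F V] {B : LinearMap.BilinForm F V} {k : ℕ}
  [Finite V] {H : Subgroup (isom B)}

variable {X : Type*} [MulAction (isom B) X] [Finite X]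

omit [Finite V] [Finite X] in
theorem adj_smul (hA : B.IsAlt) (g : isom B) (x y : X) (h : Adj hA x y) : Adj hA (g • x) (g • y) := by
  obtain ⟨v, a, hv, ha, rfl⟩ := h
  exact ⟨g.1 v, a, app_ne g hv, ha, by rw [← conj_tv, mul_smul, mul_smul, inv_smul_smul]⟩

theorem Sy.not_fpf (s : Sy B k) (x : X) (tr : ∀ x y : X, ∃ g : isom B, g • x = y)
    (h3 : Nat.card (orbitRel.Quotient (stabilizer (isom B) x) X) = 3) (h : Fpf s.alt X) : False := by
  have : Nonempty X := ⟨x⟩
  have := s.nontriv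
  obtain ⟨u, hu⟩ := exists_ne (0 : V)
  obtain ⟨b, hb⟩ := s.ex_nsq
  have b0 : b ≠ 0 := fun e => hb (e ▸ IsSquare.zero)
  have r := r3g_of_card (E := Adj s.alt) x tr h3 (adj_smul s.alt)
    (by
      rintro y _ ⟨v, a, hv, ha, rfl⟩
      exact ⟨v, -a, hv, neg_ne_zero.2 ha, by rw [← tv_inv, inv_smul_smul]⟩)
    (fun y ⟨v, a, hv, ha, e⟩ => ha (h y v a hv e)) ⟨_, u, 1, hu, one_ne_zero, rfl⟩ (by
      by_contra n
      push Not at n
      exact (s.caseA h).not_ge (s.card_le_of_adj x n))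
  obtain ⟨g, g1, g2⟩ := r.e1 x _ _ ⟨u, b, hu, b0, rfl⟩ ⟨u, 1, hu, one_ne_zero, rfl⟩
  refine s.caseT (a := -1) (b := b) (fun v a hv m => h x v a hv m) (s.caseD r x) (r3_of_card x h3) hu
    (app_ne g hu) (by simpa using hb) ?_
  rw [mem_stabilizer_iff, mul_smul, ← conj_tv, mul_smul, mul_smul, inv_smul_eq_iff.2 g1.symm, g2,
    ← tv_inv, inv_smul_smul]

theorem Sy.main (s : Sy B k) (x : X) (tr : ∀ x y : X, ∃ g : isom B, g • x = y)
    (h3 : Nat.card (orbitRel.Quotient (stabilizer (isom B) x) X) = 3) :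
    Nat.card X * (Nat.card F - 1) = Nat.card F ^ (2 * k) - 1 := by
  have := s.fin
  have : Finite (isom B) := Finite.of_injective (fun g : isom B => (g.1 : V → V))
    fun _ _ e => ext' (congrFun e)
  by_cases h2 : N2 (stabilizer (isom B) x)
  · exfalso
    by_cases hn : NoTv s.alt (stabilizer (isom B) x)
    · refine s.not_fpf x tr h3 fun y v a hv e => ?_
      obtain ⟨g, rfl⟩ := tr x y
      refine hn _ a (app_ne g⁻¹ hv) ?_
      rw [mem_stabilizer_iff, ← conj_tv, mul_smul, mul_smul, inv_inv, e, inv_smul_smul]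
    · have ht := s.part2 h2 (r3_of_card x h3) hn
      have : Subsingleton X := ⟨fun y z => by
        obtain ⟨g, rfl⟩ := tr x y
        obtain ⟨g', rfl⟩ := tr x z
        rw [show g • x = x from ht.ge (Subgroup.mem_top g), show g' • x = x from ht.ge (Subgroup.mem_top g')]⟩
      have := h3.ge.trans ((Nat.card_le_card_of_surjective _ Quotient.mk_surjective).trans
        (Finite.card_le_one_iff_subsingleton.2 this))
      omega
  · simp only [N2, not_forall, not_or] at h2
    obtain ⟨u, v, w, hu, hv, hw, a, b, c⟩ := h2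
    have key : ∀ {u v : V} (hu : u ≠ 0) (hv : v ≠ 0), ¬ Rl (stabilizer (isom B) x) u v →
        ∀ g ∈ stabilizer (isom B) x, g • Projectivization.mk F u hu ≠ Projectivization.mk F v hv :=
      fun hu hv n g hg e => by
        rw [Subgroup.smul_def, Projectivization.smul_mk, Projectivization.mk_eq_mk_iff'] at e
        exact n ⟨g, hg, e.imp fun _ e => e.symm⟩
    rw [card_eq_of_three x (tr x) h3 s.r3g_pts (key hu hv a) (key hu hw b) (key hv hw c), s.card_pts]

end Cfsg.Lib.R3S
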