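import Cfsg.Agent.Lib.R3S.Def

/-! S2195: two rank 3 graphs and an invariant incidence relation. -/

set_option autoImplicit false

namespace Cfsg.Lib.R3S

open Cfsg.Lib.Symp Module Submodule MulAction

open Matrix

variable {G X Y : Type*} [Group G] [MulAction G X] [MulAction G Y] [Fintype X] [Fintype Y]
  [DecidableEq X] [DecidableEq Y] {E : X → X → Prop} {E' : Y → Y → Prop}

open Classical in
/-- The `0/1`-matrix of a relation. -/
noncomputable def rm {X Y : Type*} (R : X → Y → Prop) : Matrix X Y ℚ :=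
  Matrix.of fun x y => if R x y then 1 else 0

/-- The all-one matrix. -/
def jm (X Y : Type*) : Matrix X Y ℚ := Matrix.of fun _ _ => 1

/-- An invariant matrix. -/
def Iv (G : Type*) [Group G] {X Y : Type*} [MulAction G X] [MulAction G Y] (M : Matrix X Y ℚ) : Prop :=
  ∀ (g : G) x y, M (g • x) (g • y) = M x y

section iv
variable {W Z : Type*}
omit [DecidableEq X] [DecidableEq Y]

omit [Fintype X] in
theorem Iv.mul [MulAction G Z] {M : Matrix X Y ℚ} {N : Matrix Y Z ℚ} (a : Iv G M) (b : Iv G N) :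
    Iv G (M * N) := fun g x z => by
  rw [mul_apply, mul_apply, ← Equiv.sum_comp (MulAction.toPerm g)]
  exact Finset.sum_congr rfl fun y _ => by rw [toPerm_apply, a, b]

omit [Fintype X] [Fintype Y] in
theorem iv_rm {R : X → Y → Prop} (h : ∀ (g : G) x y, R x y → R (g • x) (g • y)) : Iv G (rm R) := fun g x y => by
  have : R (g • x) (g • y) ↔ R x y := ⟨fun e => by simpa using h g⁻¹ _ _ e, h g x y⟩
  simp only [rm, of_apply]
  rw [propext this]

omit [Fintype X] in
theorem Iv.rs {M : Matrix X Y ℚ} (a : Iv G M) (tr : ∀ x y : X, ∃ g : G, g • x = y) (x x' : X) :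
    ∑ y, M x' y = ∑ y, M x y := by
  obtain ⟨g, rfl⟩ := tr x x'
  rw [← Equiv.sum_comp (MulAction.toPerm g)]
  exact Finset.sum_congr rfl fun y _ => a g x y

omit [Fintype X] in
theorem mul_jm {M : Matrix W Y ℚ} {o : ℚ} (h : ∀ x, ∑ y, M x y = o) (Z : Type*) :
    M * jm Y Z = o • jm W Z := by
  ext x z; simp [mul_apply, jm, h]

omit [Fintype X] in
theorem jm_mul {M : Matrix Y W ℚ} {o : ℚ} (h : ∀ x, ∑ y, M y x = o) (Z : Type*) :
    jm Z Y * M = o • jm Z W := by
  ext x z; simp [mul_apply, jm, h]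

omit [Fintype X] in
theorem rs_of {M : Matrix W Y ℚ} {o : ℚ} (h : M * jm Y Z = o • jm W Z) (z : Z) (x : W) : ∑ y, M x y = o := by
  simpa [mul_apply, jm] using congrFun (congrFun h x) z

omit [Fintype X] in
theorem jm_jm (W Z : Type*) : jm W Y * jm Y Z = (Fintype.card Y : ℚ) • jm W Z :=
  mul_jm (fun _ => by simp [jm]) Z

theorem smul_jm {a : ℚ} (h : a • jm W Z = 0) (w : W) (z : Z) : a = 0 := by
  simpa [jm] using congrFun (congrFun h w) z

omit [Fintype X] in
theorem R3G.tA (h : R3G G X E) : (rm E)ᵀ = rm E := by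
  ext x y; simp only [rm, transpose_apply, of_apply]
  rw [propext (⟨h.symm y x, h.symm x y⟩ : E y x ↔ E x y)]

theorem R3G.trace (h : R3G G X E) : (rm E).trace = 0 := by simp [Matrix.trace, rm, h.irr]

theorem trace_jm : (jm X X).trace = Fintype.card X := by simp [Matrix.trace, jm]

end iv

/-- An invariant matrix is constant on the diagonal, on edges and on non-edges. -/
theorem R3G.span (h : R3G G X E) (M : Matrix X X ℚ) (hM : ∀ (g : G) x y, M (g • x) (g • y) = M x y) :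
    ∃ a b c : ℚ, M = a • (1 : Matrix X X ℚ) + b • rm E + c • jm X X := by
  obtain ⟨u, v, e⟩ := h.ex1
  obtain ⟨u', v', n, e'⟩ := h.ex2
  refine ⟨M u u - M u' v', M u v - M u' v', M u' v', ?_⟩
  ext x y
  by_cases h0 : x = y
  · obtain ⟨g, rfl⟩ := h.tr u x
    simp [← h0, rm, jm, h.irr, hM]
  by_cases h1 : E x y
  · obtain ⟨g, rfl⟩ := h.tr u x
    obtain ⟨k, a, b⟩ := h.e1 _ _ _ (h.inv g _ _ e) h1
    have : M (g • u) y = M u v := by rw [← b, ← hM g u v, ← hM k (g • u) (g • v), a]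
    simp [rm, jm, h0, h1, this]
  · obtain ⟨g, rfl⟩ := h.tr u' x
    obtain ⟨k, a, b⟩ := h.e2 (g • u') (g • v') y (fun k => n ((smul_left_cancel_iff g).1 k).symm) (Ne.symm h0)
      (fun k => e' (by simpa using h.inv g⁻¹ _ _ k)) h1
    have : M (g • u') y = M u' v' := by rw [← b, ← hM g u' v', ← hM k (g • u') (g • v'), a]
    simp [rm, jm, h0, h1, this]

/-- Evaluate at a non-edge, an edge, a diagonal entry. -/
theorem R3G.indep (h : R3G G X E) {a b c : ℚ}
    (e : a • (1 : Matrix X X ℚ) + b • rm E + c • jm X X = 0) : a = 0 ∧ b = 0 ∧ c = 0 := by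
  obtain ⟨u, v, k⟩ := h.ex1
  obtain ⟨u', v', n, k'⟩ := h.ex2
  have n' : u ≠ v := fun e => h.irr u (e ▸ k)
  have e1 := congrFun (congrFun e u') v'
  have e2 := congrFun (congrFun e u) v
  have e3 := congrFun (congrFun e u) u
  simp [rm, jm, n, n', k, k', h.irr] at e1 e2 e3
  exact ⟨by linarith, by linarith, e1⟩

/-- The parameters: `κ` neighbours, `l`, `μ` common neighbours on edges, non-edges. -/
theorem R3G.srg (h : R3G G X E) (conn : ∃ x y z, E x y ∧ E y z ∧ x ≠ z ∧ ¬ E x z) :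
    ∃ κ l μ : ℕ, 0 < μ ∧ μ ≤ κ ∧ rm E * jm X X = (κ : ℚ) • jm X X ∧
      rm E * rm E = ((κ : ℚ) - μ) • (1 : Matrix X X ℚ) + ((l : ℚ) - μ) • rm E + (μ : ℚ) • jm X X := by
  classical
  obtain ⟨x, y, z, h1, h2, h3, h4⟩ := conn
  have iv := iv_rm h.inv
  have k : ∀ u v, (rm E * rm E) u v = ((Finset.univ.filter fun w => E u w ∧ E w v).card : ℕ) := fun u v => by
    simp [mul_apply, rm, ite_and, Finset.card_filter]
    exact Finset.sum_congr rfl fun w _ => by split_ifs <;> rfl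
  obtain ⟨a, b, c, e⟩ := h.span _ (iv.mul iv)
  have n' : x ≠ y := fun e => h.irr x (e ▸ h1)
  have e1 := (k x x).symm.trans (congrFun (congrFun e x) x)
  have e2 := (k x y).symm.trans (congrFun (congrFun e x) y)
  have e3 := (k x z).symm.trans (congrFun (congrFun e x) z)
  simp only [Matrix.add_apply, Matrix.smul_apply, rm, jm, of_apply, Matrix.one_apply, h.irr, h1, h3, h4, n', if_true, if_false,
    smul_eq_mul, mul_one, mul_zero, add_zero, zero_add] at e1 e2 e3
  refine ⟨(Finset.univ.filter fun w => E x w ∧ E w x).card, (Finset.univ.filter fun w => E x w ∧ E w y).card,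
    (Finset.univ.filter fun w => E x w ∧ E w z).card, Finset.card_pos.2 ⟨y, by simp [h1, h2]⟩,
    Finset.card_le_card fun w => by simp only [Finset.mem_filter]; exact fun a => ⟨a.1, a.2.1, h.symm _ _ a.2.1⟩,
    mul_jm (fun x' => ?_) X, by rw [e, e1, e2, e3]; simp⟩
  rw [iv.rs h.tr x, ← k, mul_apply]
  exact Finset.sum_congr rfl fun w _ => by
    by_cases a : E x w
    · simp [rm, a, h.symm _ _ a]
    · simp [rm, a]

/-- A rational root of a monic integral quadratic is an integer. -/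
theorem int_of_quad {r : ℚ} {a b : ℤ} (h : r ^ 2 = a * r + b) : ∃ n : ℤ, r = n := by
  have : IsIntegral ℤ r := ⟨Polynomial.X ^ 2 - Polynomial.C a * Polynomial.X - Polynomial.C b, by monicity!,
    by simp only [Polynomial.eval₂_sub, Polynomial.eval₂_mul, Polynomial.eval₂_C, Polynomial.eval₂_X_pow,
      Polynomial.eval₂_X]; simp [h]⟩
  obtain ⟨n, hn⟩ := IsIntegrallyClosed.isIntegral_iff.1 this
  exact ⟨n, hn.symm⟩

/-- Let `A = rm E`, `N = rm E'` (symmetric), `M = rm R`, `T = F₀ + e N`.  Row sums of `M` are a constant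
`o > 0` (`hX.tr`), column sums are constant (`hY.tr`), so `M₀ = M - (o / |Y|) J` has `M₀ J = 0`, `J M₀ = 0`,
and `M₀ ≠ 0` (`M` has entries `0` and `1`).  Multiply `hT` by `J`: `c κ = F₀ + e n`; so `c A M₀ = M₀ T`
(`J N = n J`).  With `srg`: `M₀ (T² - c (l - μ) T - c² (κ - μ)) = c² μ J M₀ = 0` and `M₀ N² = m² M₀`, so
`α M₀ + β M₀ N = 0`, `β = e (2 F₀ - c (l - μ))`, `α = F₀² + e² m² - c (l - μ) F₀ - c² (κ - μ)`.
If `β = 0` then `α = 0` reads `e² m² - F₀² = c² (κ - μ) ≥ 0`, false.  So `M₀ N = θ M₀`, `θ² = m²`,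
`θ = ε m`, and `A M₀ = r M₀` with `c r = F₀ + e ε m > 0`, `r² = (l - μ) r + (κ - μ)`; `r` is an integer,
`S = r - (l - μ)`, `r S = κ - μ ≥ 0`.  `srg` times `J`: `κ² = (κ - μ) + (l - μ) κ + μ |X|`.
`P = M₀ M₀ᵀ = x + y A + z J` (`span`), `A P = r P` and `indep` give `x = y S`; `P J = 0` gives
`x + y κ + z |X| = 0`, so `trace P = y (|X| S - S - κ)`, and `M₀ᵀ P = (x + y r) M₀ᵀ`.
`Q = M₀ᵀ M₀ = x' + y' N + z' J`, `Q N = ε m Q` gives `x' = ε m y'`, `trace Q = y' (ε m (|Y| - 1) - n)`,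
`Q Q = Q (x' + y' N + z' J) = 2 ε m y' Q` and `Q Q = M₀ᵀ P M₀ = y (S + r) Q`.  `Q ≠ 0` and `Q Q ≠ 0`
(`M₀ᵀ M₀ = 0` forces `M₀ = 0` over `ℚ`; `Q` is symmetric), so `y (S + r) = 2 ε m y' ≠ 0`, and
`trace P = trace Q`. -/
theorem two_orb (hX : R3G G X E) (hY : R3G G Y E') (conn : ∃ x y z, E x y ∧ E y z ∧ x ≠ z ∧ ¬ E x z)
    {R : X → Y → Prop} (hR : ∀ (g : G) x y, R x y → R (g • x) (g • y)) (r1 : ∃ x y, R x y)
    (r2 : ∃ x y, ¬ R x y) {c F₀ e m n b : ℚ} (hc : 0 < c) (hm : 0 < m) (he : 0 < e) (hF : e * m < F₀)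
    (hT : (c • rm E) * rm R = rm R * (F₀ • (1 : Matrix Y Y ℚ) + e • rm E'))
    (hN : rm E' * rm E' = m ^ 2 • (1 : Matrix Y Y ℚ) + b • jm Y Y) (hJ : rm E' * jm Y Y = n • jm Y Y) :
    ∃ (ε r κ : ℚ) (S : ℤ), (ε = 1 ∨ ε = -1) ∧ c * κ = F₀ + e * n ∧ c * r = F₀ + e * ε * m ∧ 0 ≤ S ∧
      r * S < κ ∧ (Fintype.card X : ℚ) * (κ - r * S) = (κ - r) * (κ + S) ∧
      ((Fintype.card X : ℚ) * S - S - κ) * (2 * ε * m) =
        (S + r) * (ε * m * ((Fintype.card Y : ℚ) - 1) - n) := by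
  obtain ⟨κ, l, μ, μ0, μκ, aJ, aA⟩ := hX.srg conn
  obtain ⟨x₁, y₁, r1⟩ := r1
  obtain ⟨x₂, y₂, r2⟩ := r2
  have tA := hX.tA
  have tN := hY.tA
  have iM := iv_rm hR
  have cX : (0 : ℚ) < Fintype.card X := by exact_mod_cast Fintype.card_pos_iff.2 ⟨x₁⟩
  have cY : (0 : ℚ) < Fintype.card Y := by exact_mod_cast Fintype.card_pos_iff.2 ⟨y₁⟩
  have ra := rs_of aJ x₁
  have rn := rs_of hJ y₁
  have rn' : ∀ y, ∑ z, rm E' z y = n := fun y => by
    rw [← rn y]; exact Finset.sum_congr rfl fun z _ => congrFun (congrFun tN y) z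
  obtain ⟨o, ho⟩ : ∃ o, ∀ x, ∑ y, rm R x y = o := ⟨_, iM.rs hX.tr x₁⟩
  obtain ⟨o', ho'⟩ : ∃ o, ∀ y, ∑ x, rm R x y = o :=
    ⟨_, Iv.rs (M := (rm R)ᵀ) (fun g y x => iM g x y) hY.tr y₁⟩
  have o0 : 0 < o := by
    rw [← ho x₁]
    exact Finset.sum_pos' (fun y _ => by simp only [rm, of_apply]; positivity) ⟨y₁, Finset.mem_univ _, by simp [rm, r1]⟩
  have oo : Fintype.card X * o = Fintype.card Y * o' := by
    have := Finset.sum_comm (s := Finset.univ) (t := Finset.univ) (f := fun x y => rm R x y)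
    simpa [ho, ho'] using this
  obtain ⟨M, hM⟩ : ∃ M, M = rm R - (o / Fintype.card Y) • jm X Y := ⟨_, rfl⟩
  have iM' : Iv G M := fun g x y => by rw [hM]; simp [iM g x y, jm]
  have m1 : ∀ x, ∑ y, M x y = 0 := fun x => by
    simp [hM, ho, jm]; field_simp; ring
  have m2 : ∀ y, ∑ x, M x y = 0 := fun y => by
    simp [hM, ho', jm]; field_simp; linarith
  have m0 : M ≠ 0 := fun e => by
    have a := congrFun (congrFun (hM.symm.trans e) x₁) y₁
    have b := congrFun (congrFun (hM.symm.trans e) x₂) y₂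
    simp only [Matrix.sub_apply, Matrix.smul_apply, rm, jm, of_apply, r1, r2, if_true, if_false, Matrix.zero_apply] at a b
    linarith
  have can : ∀ {a : ℚ}, a • M = 0 → a = 0 := fun e => (smul_eq_zero.1 e).resolve_right m0
  have k1 : c * κ = F₀ + e * n := by
    have := congrArg (· * jm Y Y) hT
    simp only [Matrix.mul_assoc, Matrix.add_mul, Matrix.smul_mul, Matrix.one_mul, hJ, Matrix.mul_add,
      Matrix.mul_smul, mul_jm ho, mul_jm ra] at this
    have := smul_jm (a := o * (c * κ - (F₀ + e * n))) (by linear_combination (norm := module) this) x₁ y₁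
    linear_combination (mul_eq_zero.1 this).resolve_left o0.ne'
  have h1 : c • (rm E * M) = F₀ • M + e • (M * rm E') := by
    simp only [Matrix.smul_mul, Matrix.mul_add, Matrix.mul_smul, Matrix.mul_one] at hT
    simp only [hM, Matrix.mul_sub, Matrix.sub_mul, Matrix.mul_smul, Matrix.smul_mul, mul_jm ra, jm_mul rn']
    linear_combination (norm := module) hT - (k1 • ((o / Fintype.card Y) • jm X Y))
  have h2 : M * rm E' * rm E' = m ^ 2 • M := by
    rw [Matrix.mul_assoc, hN]; simp [Matrix.mul_add, mul_jm m1]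
  have h3 : rm E * (rm E * M) = ((κ : ℚ) - μ) • M + ((l : ℚ) - μ) • (rm E * M) := by
    rw [← Matrix.mul_assoc, aA]; simp [Matrix.add_mul, jm_mul m2]
  have h4 := congrArg (· * rm E') h1
  have h5 := congrArg (rm E * ·) h1
  simp only [Matrix.add_mul, Matrix.smul_mul, Matrix.mul_add, Matrix.mul_smul, h2, h3, Matrix.mul_assoc] at h4 h5
  have h6 : (F₀ ^ 2 + e ^ 2 * m ^ 2 - c * (l - μ) * F₀ - c ^ 2 * (κ - μ)) • M +
      (e * (2 * F₀ - c * (l - μ))) • (M * rm E') = 0 := by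
    linear_combination (norm := module) (c * (l - μ) - F₀) • h1 - e • h4 - c • h5
  have em := mul_pos he hm
  have km : (μ : ℚ) ≤ κ := by exact_mod_cast μκ
  have b0 : e * (2 * F₀ - c * (l - μ)) ≠ 0 := fun z => by
    rw [z, zero_smul, add_zero] at h6
    have a := can h6
    have b := (mul_eq_zero.1 z).resolve_left he.ne'
    have : e * m * (e * m) < F₀ * F₀ := mul_self_lt_mul_self em.le hF
    have := mul_nonneg (sq_nonneg c) (sub_nonneg.2 km)
    have : F₀ * (2 * F₀ - c * (l - μ)) = 0 := by rw [b, mul_zero]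
    linarith
  obtain ⟨θ, hθ⟩ : ∃ θ : ℚ, M * rm E' = θ • M :=
    ⟨-(F₀ ^ 2 + e ^ 2 * m ^ 2 - c * (l - μ) * F₀ - c ^ 2 * (κ - μ)) / (e * (2 * F₀ - c * (l - μ))),
      smul_right_injective _ b0 (by
        simp only [smul_smul, mul_div_cancel₀ _ b0]; linear_combination (norm := module) h6)⟩
  obtain ⟨ε, hε, rfl⟩ : ∃ ε : ℚ, (ε = 1 ∨ ε = -1) ∧ θ = ε * m := by
    rw [hθ, Matrix.smul_mul, hθ] at h2
    have := can (a := (θ - m) * (θ + m)) (by linear_combination (norm := module) h2)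
    rcases mul_eq_zero.1 this with a | a
    exacts [⟨1, .inl rfl, by linarith⟩, ⟨-1, .inr rfl, by linarith⟩]
  obtain ⟨r, hr⟩ : ∃ r, c * r = F₀ + e * ε * m := ⟨_, mul_div_cancel₀ _ hc.ne'⟩
  have r0 : 0 < r := (mul_pos_iff_of_pos_left hc).1 (by rw [hr]; rcases hε with rfl | rfl <;> linarith)
  have h7 : rm E * M = r • M := smul_right_injective _ hc.ne' (by
    simp only [h1, hθ, smul_smul, hr]; module)
  have h8 : r ^ 2 = ((l : ℤ) - μ : ℤ) * r + ((κ : ℤ) - μ : ℤ) := by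
    rw [h7, Matrix.mul_smul, h7] at h3
    have := can (a := r ^ 2 - ((l - μ) * r + (κ - μ))) (by linear_combination (norm := module) h3)
    push_cast; linarith
  obtain ⟨t, ht⟩ := int_of_quad h8
  obtain ⟨S, hS⟩ : ∃ S : ℤ, (S : ℚ) = r - (l - μ) := ⟨t - (l - μ), by push_cast; rw [ht]⟩
  have rS : r * S = κ - μ := by push_cast at h8; rw [hS]; linarith
  have h9 : (κ : ℚ) ^ 2 = κ - μ + (l - μ) * κ + μ * Fintype.card X := by
    have := congrArg (· * jm X X) aA
    simp only [Matrix.mul_assoc, Matrix.add_mul, Matrix.smul_mul, Matrix.one_mul, aJ, Matrix.mul_smul, jm_jm] at this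
    have := smul_jm (a := (κ : ℚ) ^ 2 - (κ - μ + (l - μ) * κ + μ * Fintype.card X))
      (by linear_combination (norm := module) this) x₁ x₁
    linarith
  have μ0' : (0 : ℚ) < μ := by exact_mod_cast μ0
  refine ⟨ε, r, κ, S, hε, k1, hr, ?_, by linarith, by linear_combination -h9 - (Fintype.card X - 1) * rS - κ * hS, ?_⟩
  · have : (0 : ℚ) ≤ S := nonneg_of_mul_nonneg_right (by linarith) r0
    exact_mod_cast this
  have iT : Iv G Mᵀ := fun g y x => iM' g x y
  obtain ⟨x, y, z, hP⟩ := hX.span _ (iM'.mul iT)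
  obtain ⟨x', y', z', hQ⟩ := hY.span _ (iT.mul iM')
  have p1 : rm E * (M * Mᵀ) = r • (M * Mᵀ) := by rw [← Matrix.mul_assoc, h7, Matrix.smul_mul]
  rw [hP] at p1
  simp only [Matrix.mul_add, Matrix.mul_smul, Matrix.mul_one, aA, aJ] at p1
  have p2 := (hX.indep (a := y * (κ - μ) - r * x) (b := x + y * (l - μ) - r * y) (c := y * μ + z * κ - r * z)
    (by linear_combination (norm := module) p1)).1
  have p3 : x = y * S := mul_left_cancel₀ r0.ne' (by linear_combination -p2 - y * rS)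
  have p4 : M * Mᵀ * jm X X = 0 := by rw [Matrix.mul_assoc, mul_jm (M := Mᵀ) m2]; simp
  rw [hP] at p4
  simp only [Matrix.add_mul, Matrix.smul_mul, Matrix.one_mul, aJ, jm_jm] at p4
  have p5 := smul_jm (a := x + y * κ + z * Fintype.card X) (by linear_combination (norm := module) p4) x₁ x₁
  have q1 : Mᵀ * M * rm E' = (ε * m) • (Mᵀ * M) := by rw [Matrix.mul_assoc, hθ, Matrix.mul_smul]
  have q4 : Mᵀ * M * jm Y Y = 0 := by rw [Matrix.mul_assoc, mul_jm m1]; simp
  have q6 : Mᵀ * M * (Mᵀ * M) = (x' + y' * (ε * m)) • (Mᵀ * M) := by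
    nth_rw 2 [hQ]
    simp only [Matrix.mul_add, Matrix.mul_smul, Matrix.mul_one, q1, q4]; module
  have q7 : Mᵀ * M * (Mᵀ * M) = (x + y * r) • (Mᵀ * M) := by
    rw [Matrix.mul_assoc, ← Matrix.mul_assoc M, hP]
    simp only [Matrix.mul_add, Matrix.mul_smul, Matrix.add_mul, Matrix.smul_mul, Matrix.one_mul, h7, jm_mul m2,
      zero_smul, smul_zero, add_zero]
    module
  rw [hQ] at q1 q4
  simp only [Matrix.add_mul, Matrix.smul_mul, Matrix.one_mul, hN, hJ, jm_jm, jm_mul rn'] at q1 q4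
  have q2 := (hY.indep (a := y' * m ^ 2 - ε * m * x') (b := x' - ε * m * y') (c := y' * b + z' * n - ε * m * z')
    (by linear_combination (norm := module) q1)).2.1
  have q5 := smul_jm (a := x' + y' * n + z' * Fintype.card Y) (by linear_combination (norm := module) q4) y₁ y₁
  have q0 : Mᵀ * M ≠ 0 := fun e => m0 (by
    rwa [← conjTranspose_eq_transpose_of_trivial, conjTranspose_mul_self_eq_zero] at e)
  have q8 : x' + y' * (ε * m) - (x + y * r) = 0 :=
    (smul_eq_zero.1 (by linear_combination (norm := module) q7 - q6)).resolve_right q0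
  have y0 : y ≠ 0 := fun e => m0 (by
    have z0 : z = 0 := by simpa [p3, e, cX.ne'] using p5
    rw [p3, e, z0] at hP
    simp only [zero_mul, zero_smul, add_zero] at hP
    rwa [← conjTranspose_eq_transpose_of_trivial, self_mul_conjTranspose_eq_zero] at hP)
  have tr := Matrix.trace_mul_comm M Mᵀ
  rw [hP, hQ] at tr
  simp only [trace_add, trace_smul, trace_one, hX.trace, hY.trace, trace_jm, smul_eq_mul] at tr
  refine mul_left_cancel₀ y0 ?_
  linear_combination (2 * ε * m) * tr - (2 * ε * m) * p5 + (2 * ε * m) * q5 -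
    (2 * ε * m) * (Fintype.card X - 1) * p3 + (ε * m * (Fintype.card Y - 1) - n) * (q8 + p3) +
    (ε * m * (Fintype.card Y - 1) + n) * q2

end Cfsg.Lib.R3S
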