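import Cfsg.Agent.Lib.R3S.Dk

/-! S2195: the plane lemma. -/

set_option autoImplicit false

namespace Cfsg.Lib.R3S

open Cfsg.Lib.Symp Module Submodule MulAction

variable {F V : Type*} [Field F] [AddCommGroup V] [Module F V] {B : LinearMap.BilinForm F V} {k : ℕ}
  [Finite V] {H : Subgroup (isom B)}

/-- Elements of `H` fixing `U^⊥` pointwise. -/
def fxs (H : Subgroup (isom B)) (U : Submodule F V) : Subgroup (isom B) where
  carrier := {g | g ∈ H ∧ Fx g U}
  one_mem' := ⟨H.one_mem, fun _ _ => rfl⟩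
  mul_mem' a b := ⟨H.mul_mem a.1 b.1, a.2.mul b.2⟩
  inv_mem' a := ⟨H.inv_mem a.1, a.2.inv⟩

/-- The data of the plane lemma: `Π = ⟨e, f, r⟩` has radical `r`, and the elements of `H` fixing `Π^⊥`
pointwise are irreducible on `Π / r`. -/
structure PlD (H : Subgroup (isom B)) (e f r : V) : Prop where
  ef : B e f = 1
  ne : r ≠ 0
  re : B r e = 0
  rf : B r f = 0
  irr : ∀ p ∈ span F {e, f}, p ≠ 0 → ∃ g ∈ fxs H (span F {e, f, r}), g.1 p ∉ span F {p, r}

omit [Finite V] in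
theorem pl_line (hA : B.IsAlt) {e f p y : V} (ef : B e f = 1) (hp : p ∈ span F {e, f}) (h0 : p ≠ 0)
    (hy : y ∈ span F {e, f}) (h : B y p = 0) : ∃ c : F, y = c • p := by
  obtain ⟨a, b, rfl⟩ := mem_span_pair.1 hp
  obtain ⟨c, d, rfl⟩ := mem_span_pair.1 hy
  simp only [map_add, map_smul, LinearMap.add_apply, LinearMap.smul_apply, smul_eq_mul, ef,
    skew hA f e, hA.self_eq_zero] at h
  by_cases ha : a = 0
  · have hb : b ≠ 0 := fun e => h0 (by simp [ha, e])
    refine ⟨d / b, ?_⟩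
    match_scalars
    · field_simp; linear_combination h
    · field_simp
  · refine ⟨c / a, ?_⟩
    match_scalars
    · field_simp
    · field_simp; linear_combination -h

omit [Finite V] in
theorem pl_span (hA : B.IsAlt) {e f a b : V} (ha : a ∈ span F {e, f}) (hb : b ∈ span F {e, f})
    (h : B a b ≠ 0) : span F {a, b} = span F {e, f} := by
  refine le_antisymm (span_le.2 (Set.pair_subset ha hb)) ?_
  obtain ⟨x, y, rfl⟩ := mem_span_pair.1 ha
  obtain ⟨z, w, rfl⟩ := mem_span_pair.1 hb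
  have d : x * w - y * z ≠ 0 := fun d => h (by
    simp only [map_add, map_smul, LinearMap.add_apply, LinearMap.smul_apply, smul_eq_mul,
      skew hA f e, hA.self_eq_zero]
    linear_combination B e f * d)
  generalize hd : x * w - y * z = δ at d
  refine span_le.2 (Set.pair_subset (mem_span_pair.2 ⟨w / δ, -y / δ, ?_⟩)
    (mem_span_pair.2 ⟨-z / δ, x / δ, ?_⟩))
  · match_scalars
    · field_simp; linear_combination hd
    · field_simp; ring
  · match_scalars
    · field_simp; ring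
    · field_simp; linear_combination hd

omit [Finite V] in
theorem pl_mem {e f r y : V} : y ∈ span F {e, f, r} ↔ ∃ a ∈ span F {e, f}, ∃ c : F, y = a + c • r := by
  simp only [mem_span_triple, mem_span_pair]
  exact ⟨fun ⟨a, b, c, h⟩ => ⟨_, ⟨a, b, rfl⟩, c, h.symm⟩, fun ⟨_, ⟨a, b, rfl⟩, c, h⟩ => ⟨a, b, c, h.symm⟩⟩

omit [Finite V] in
theorem pl_span3 {e f a b : V} (h : span F {a, b} = span F {e, f}) (r : V) :
    span F {a, b, r} = span F {e, f, r} := by
  ext y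
  rw [pl_mem, pl_mem, h]

omit [Finite V] in
theorem pl_perp {e f r a : V} (re : B r e = 0) (rf : B r f = 0) (ha : a ∈ span F {e, f}) : B r a = 0 := by
  obtain ⟨x, y, rfl⟩ := mem_span_pair.1 ha
  simp [re, rf]

omit [Finite V] in
theorem pl_r (hA : B.IsAlt) {e f r : V} (re : B r e = 0) (rf : B r f = 0) {g : isom B}
    (hg : Fx g (span F {e, f, r})) : g.1 r = r := hg r fun u hu => by
  obtain ⟨a, ha, c, rfl⟩ := pl_mem.1 hu
  simp [skew hA a r, pl_perp re rf ha, hA.self_eq_zero]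

theorem Sy.app_mem (s : Sy B k) {g : isom B} {U : Submodule F V} (h : Fx g U) {y : V} (hy : y ∈ U) :
    g.1 y ∈ U := by simpa using U.add_mem (s.sub_mem h y) hy

/-- Elements of `K = fxs H Π` fix `r` and preserve `Π` (`sub_mem`).  By `eq_hs`, `g = hs r m`,
`m = m₀ + c r`, `m₀ = α f - β e`.  If `m₀ ≠ 0`, take `x ∈ K` with `x m₀ ∉ ⟨m₀, r⟩`; then `B(x m, m) ≠ 0`
(in `Π`, `m₀^⊥ = ⟨m₀, r⟩`) and `hs_comm` for `hs r m`, `x g x⁻¹ = hs r (x m)` is a transvection in `H`.  So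
`g = hs r (c r) = tv r (2 c)`, `c = 0`. -/
theorem Sy.pl_inj (s : Sy B k) (hH : NoTv s.alt H) {e f r : V} (h : PlD H e f r) {g : isom B}
    (hg : g ∈ fxs H (span F {e, f, r})) {α β : F} (h1 : g.1 e = e + α • r) (h2 : g.1 f = f + β • r) :
    g = 1 := by
  obtain ⟨c, rfl⟩ := s.eq_hs h.ef h.ne h.re h.rf hg.2 h1 h2
  have hm : α • f - β • e ∈ span F {e, f} := mem_span_pair.2 ⟨-β, α, by module⟩
  generalize α • f - β • e = m at hg hm
  by_cases m0 : m = 0
  · rw [m0, zero_add, hs_smul] at hg ⊢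
    rw [hH r _ h.ne hg.1, tv_zero]
  obtain ⟨x, hx, n⟩ := h.irr m hm m0
  have xr := pl_r s.alt h.re h.rf hx.2
  have rm := pl_perp h.re h.rf hm
  obtain ⟨y, hy, d, e'⟩ := pl_mem.1 (s.app_mem hx.2 (y := m) (pl_mem.2 ⟨m, hm, 0, by simp⟩))
  have ry := pl_perp h.re h.rf hy
  have t := H.mul_mem (H.mul_mem hx.1 hg.1) (H.inv_mem hx.1)
  rw [conj_hs, xr, map_add, map_smul, xr, e'] at t
  have t' := H.mul_mem (H.mul_mem (H.mul_mem hg.1 t) (H.inv_mem hg.1)) (H.inv_mem t)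
  rw [hs_comm s.alt (by simp [rm, s.alt.self_eq_zero]) (by simp [ry, s.alt.self_eq_zero])] at t'
  obtain ⟨a, ha⟩ := pl_line s.alt h.ef hm m0 hy (by
    simpa [s.two, rm, skew s.alt y r, ry, s.alt.self_eq_zero] using hH r _ h.ne t')
  exact (n (mem_span_pair.2 ⟨a, d, by rw [e', ha]⟩)).elim

/-- `ρ g = !![B (g e) f, B (g f) f; B e (g e), B e (g f)]` (a vector `y = α e + β f + γ r` has
`α = B y f`, `β = B e y`) is a homomorphism `K → SL(2, F)`; apply `neg_mem_sl` to its range. -/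
theorem Sy.pl_neg (s : Sy B k) {e f r : V} (ef : B e f = 1) (re : B r e = 0) (rf : B r f = 0)
    {x y : isom B} (hx : x ∈ fxs H (span F {e, f, r})) (hy : y ∈ fxs H (span F {e, f, r}))
    {a b c₁ c₂ c₃ c₄ : F} (ha : a ≠ 0) (hb : b ≠ 0) (x1 : x.1 e = e + c₁ • r)
    (x2 : x.1 f = f + a • e + c₂ • r) (y1 : y.1 e = e + b • f + c₃ • r) (y2 : y.1 f = f + c₄ • r) :
    ∃ j ∈ fxs H (span F {e, f, r}), ∃ c c' : F, j.1 e = -e + c • r ∧ j.1 f = -f + c' • r := by
  have := s.fin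
  have hr : ∀ g ∈ fxs H (span F {e, f, r}), g.1 r = r := fun g hg => pl_r s.alt re rf hg.2
  let P : Subgroup (Matrix.SpecialLinearGroup (Fin 2) F) :=
    { carrier := {M | ∃ g ∈ fxs H (span F {e, f, r}), ∃ c c' : F,
        g.1 e = M 0 0 • e + M 1 0 • f + c • r ∧ g.1 f = M 0 1 • e + M 1 1 • f + c' • r}
      one_mem' := ⟨1, one_mem _, 0, 0, by simp, by simp⟩
      mul_mem' := by
        rintro M N ⟨g, hg, c, c', a, b⟩ ⟨g', hg', d, d', a', b'⟩
        refine ⟨g * g', mul_mem hg hg', N 0 0 * c + N 1 0 * c' + d, N 0 1 * c + N 1 1 * c' + d', ?_, ?_⟩ <;>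
          simp only [mul_app, a', b', map_add, map_smul, a, b, hr g hg,
            Matrix.SpecialLinearGroup.coe_mul, Matrix.mul_apply, Fin.sum_univ_two] <;> module
      inv_mem' := by
        rintro M ⟨g, hg, c, c', a, b⟩
        have d := M.det_coe
        rw [Matrix.det_fin_two] at d
        refine ⟨g⁻¹, inv_mem hg, M 1 0 * c' - M 1 1 * c, M 0 1 * c - M 0 0 * c', ?_, ?_⟩ <;>
          refine g.1.injective ?_ <;>
          simp only [app_inv, map_add, map_smul, a, b, hr g hg, Matrix.SpecialLinearGroup.coe_inv,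
            Matrix.adjugate_fin_two, Matrix.of_apply, Matrix.cons_val', Matrix.cons_val_zero,
            Matrix.cons_val_one, Matrix.cons_val_fin_one] <;>
          match_scalars <;> first | ring1 | linear_combination -d }
  obtain ⟨j, hj, c, c', h1, h2⟩ := neg_mem_sl s.two (P := P) ha hb
    (x := ⟨!![1, a; 0, 1], by simp⟩) (y := ⟨!![1, 0; b, 1], by simp⟩)
    ⟨x, hx, c₁, c₂, by simp [x1], by simp [x2, add_comm]⟩ ⟨y, hy, c₃, c₄, by simp [y1], by simp [y2]⟩ rfl rfl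
  exact ⟨j, hj, c, c', by simpa using h1, by simpa using h2⟩

theorem Sy.pl_core (s : Sy B k) (hH : NoTv s.alt H) {e f r : V} (h : PlD H e f r) {x y : isom B}
    (hx : x ∈ fxs H (span F {e, f, r})) (hy : y ∈ fxs H (span F {e, f, r})) (x0 : x ≠ 1) (y0 : y ≠ 1)
    {c d : F} (x1 : x.1 e = e + c • r) (y2 : y.1 f = f + d • r) :
    ∃ l : V →ₗ[F] F, l r ≠ 0 ∧
      ∀ g ∈ fxs H (span F {e, f, r}), ∀ y ∈ span F {e, f, r}, l (g.1 y) = l y := by
  have me : e ∈ span F {e, f, r} := subset_span (by simp)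
  have mf : f ∈ span F {e, f, r} := subset_span (by simp)
  have hr : ∀ g ∈ fxs H (span F {e, f, r}), g.1 r = r := fun g hg => pl_r s.alt h.re h.rf hg.2
  obtain ⟨α, β, γ, x2⟩ := mem_span_triple.1 (s.app_mem hx.2 mf)
  obtain ⟨α', β', γ', y1⟩ := mem_span_triple.1 (s.app_mem hy.2 me)
  obtain rfl : β = 1 := by
    simpa [x1, ← x2, h.ef, h.re, h.rf, s.alt.self_eq_zero, skew s.alt e r] using isom_apply x e f
  obtain rfl : α' = 1 := by
    simpa [y2, ← y1, h.ef, h.re, h.rf, s.alt.self_eq_zero, skew s.alt e r, skew s.alt f r] using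
      isom_apply y e f
  obtain ⟨j, hj, a, b, j1, j2⟩ := s.pl_neg h.ef h.re h.rf hx hy (a := α) (b := β') (c₂ := γ) (c₃ := γ')
    (fun e => x0 (s.pl_inj hH h hx x1 (β := γ) (by simp [← x2, e])))
    (fun e => y0 (s.pl_inj hH h hy (α := γ') (by simp [← y1, e]) y2)) x1 (by rw [← x2]; module)
    (by rw [← y1]; module) y2
  have jy : ∀ y ∈ span F {e, f, r}, ∃ c : F, j.1 y = -y + c • r := fun y hy => by
    obtain ⟨u, v, w, rfl⟩ := mem_span_triple.1 hy
    exact ⟨u * a + v * b + 2 * w, by simp only [map_add, map_smul, j1, j2, hr j hj]; module⟩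
  obtain ⟨r', hr'⟩ := s.ex_one h.ne
  refine ⟨B.flip r' ∘ₗ (LinearMap.id + j.1.toLinearMap), ?_, fun g hg y hy => ?_⟩
  · simpa [hr j hj, hr', one_add_one_eq_two] using s.two
  have key : ∀ y ∈ span F {e, f, r}, ∃ c : F, ((j * g)⁻¹ * (g * j)).1 y = y + c • r := fun y hy => by
    obtain ⟨u, hu⟩ := jy y hy
    obtain ⟨v, hv⟩ := jy _ (s.app_mem hg.2 hy)
    refine ⟨u - v, (j * g).1.injective ?_⟩
    rw [mul_app (j * g)⁻¹, app_inv, mul_app, hu, map_add, map_add, map_smul, map_smul, hr g hg,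
      hr _ (mul_mem hj hg), mul_app, hv, map_neg]
    module
  obtain ⟨u, hu⟩ := key e me
  obtain ⟨v, hv⟩ := key f mf
  have cm := inv_mul_eq_one.1 (s.pl_inj hH h (mul_mem (inv_mem (mul_mem hj hg)) (mul_mem hg hj)) hu hv)
  obtain ⟨w, hw⟩ := jy y hy
  have : g.1 y + j.1 (g.1 y) = y + j.1 y := by
    rw [← mul_app, cm, mul_app, ← map_add, hw, add_neg_cancel_left, map_smul, hr g hg]
  simpa using congrArg (B · r') this

/-- Let `π = B r ·`-dual functional: `π y = B y r'` with `B r r' = 1`.  If `p ∤ |K|` (`p = ringChar F`),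
`l = ∑_{g ∈ K} π ∘ g`, `l r = |K| ≠ 0`.  Otherwise let `x ∈ K` have order `p`; `(x - 1)^p = 0`, so `x`
fixes modulo `r` some `0 ≠ a ∈ ⟨e, f⟩` (last non-zero term of `(x - 1)^i e` modulo `r`, or: `ρ x` has
eigenvalue `1`).  Take `z ∈ K` with `z a ∉ ⟨a, r⟩`, and `b ∈ ⟨e, f⟩` with `B a b = 1`,
`z a ∈ ⟨b, r⟩`; `⟨a, b⟩ = ⟨e, f⟩`.  `x b = b + α a + ..` (`B (x a) (x b) = 1`) with `α ≠ 0` by `pl_inj`, and
`y = z x z⁻¹` fixes `b` modulo `r`; `pl_neg` gives `j`, acting as `-1` on `Π / r`.  `j` is central in `K`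
(`pl_inj` for the commutator).  Put `l y = π (y + j y)`; for `y ∈ Π`, `y + j y ∈ ⟨r⟩` is fixed by `K`,
and `l r = 2`. -/
theorem Sy.pl (s : Sy B k) (hH : NoTv s.alt H) {e f r : V} (h : PlD H e f r) :
    ∃ l : V →ₗ[F] F, l r ≠ 0 ∧
      ∀ g ∈ fxs H (span F {e, f, r}), ∀ y ∈ span F {e, f, r}, l (g.1 y) = l y := by
  classical
  have := s.fin
  have := s.nontriv
  have : Finite (isom B) := Finite.of_injective (fun g : isom B => (g.1 : V → V))
    fun _ _ e => ext' (congrFun e)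
  have := Fintype.ofFinite (fxs H (span F {e, f, r}))
  have hr : ∀ g ∈ fxs H (span F {e, f, r}), g.1 r = r := fun g hg => pl_r s.alt h.re h.rf hg.2
  obtain ⟨p, hp⟩ := CharP.exists F
  have : Fact p.Prime := ⟨CharP.char_is_prime F p⟩
  by_cases hd : p ∣ Fintype.card (fxs H (span F {e, f, r})); swap
  · obtain ⟨r', hr'⟩ := s.ex_one h.ne
    refine ⟨∑ g : fxs H (span F {e, f, r}), B.flip r' ∘ₗ g.1.1.toLinearMap, ?_, fun g hg y _ => ?_⟩
    · simpa [LinearMap.sum_apply, fun g : fxs H (span F {e, f, r}) => hr g g.2, hr',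
        CharP.cast_eq_zero_iff F p] using hd
    · simp only [LinearMap.sum_apply]
      exact Fintype.sum_equiv (Equiv.mulRight ⟨g, hg⟩) _ _ fun _ => rfl
  obtain ⟨⟨x, hx⟩, ox⟩ := exists_prime_orderOf_dvd_card p hd
  have x0 : x ≠ 1 := fun e => (Fact.out : p.Prime).one_lt.ne (by
    rw [← ox, eq_comm, orderOf_eq_one_iff]; exact Subtype.ext e)
  have : CharP (Module.End F V) p := charP_of_injective_algebraMap (FaithfulSMul.algebraMap_injective F _) p
  have nil : (x.1.toLinearMap - 1) ^ p = 0 := by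
    have : x ^ p = 1 := by simpa [ox] using congrArg Subtype.val (pow_orderOf_eq_one (⟨x, hx⟩ : fxs H _))
    rw [sub_pow_char_of_commute p (Commute.one_right _), one_pow, sub_eq_zero]
    exact (map_pow (LinearEquiv.automorphismGroup.toLinearMapMonoidHom.comp (isom B).subtype) x p).symm.trans
      (by rw [this, map_one])
  obtain ⟨a, ha, a0, c, xa⟩ : ∃ a ∈ span F {e, f}, a ≠ 0 ∧ ∃ c : F, x.1 a = a + c • r := by
    by_contra n
    push Not at n
    have : ∀ i : ℕ, ∃ a ∈ span F {e, f}, a ≠ 0 ∧ ∃ c : F, ((x.1.toLinearMap - 1) ^ i) e = a + c • r := by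
      intro i
      induction i with
      | zero => exact ⟨e, subset_span (by simp), fun e0 => by simpa [e0] using h.ef, 0, by simp⟩
      | succ i ih =>
        obtain ⟨a, ha, a0, c, e'⟩ := ih
        obtain ⟨b, hb, d, e''⟩ := pl_mem.1 (s.sub_mem hx.2 a)
        refine ⟨b, hb, fun b0 => n a ha a0 d (by rw [← sub_eq_iff_eq_add', e'', b0, zero_add]), d, ?_⟩
        rw [pow_succ', Module.End.mul_apply, e', ← e'']
        simp [hr x hx]
    obtain ⟨a, ha, a0, c, e'⟩ := this p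
    obtain ⟨u, v, rfl⟩ := mem_span_pair.1 ha
    rw [nil] at e'
    have e1 := congrArg (B · f) e'
    have e2 := congrArg (B e ·) e'
    simp [h.ef, h.rf, skew s.alt e r, h.re, s.alt.self_eq_zero] at e1 e2
    exact a0 (by simp [← e1, ← e2])
  obtain ⟨z, hz, n⟩ := h.irr a ha a0
  obtain ⟨b, hb, d, zb⟩ := pl_mem.1 (s.app_mem hz.2 (y := a) (pl_mem.2 ⟨a, ha, 0, by simp⟩))
  have ab : B a b ≠ 0 := fun e' => by
    obtain ⟨t, ht⟩ := pl_line s.alt h.ef ha a0 hb (by rw [skew s.alt, e', neg_zero])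
    exact n (mem_span_pair.2 ⟨t, d, by rw [zb, ht]⟩)
  have sp := pl_span s.alt ha (smul_mem _ (B a b)⁻¹ hb) (by simp [ab])
  have h' : PlD H a ((B a b)⁻¹ • b) r := ⟨by simp [ab], h.ne, pl_perp h.re h.rf ha,
    by simp [pl_perp h.re h.rf hb], by rw [sp, pl_span3 sp]; exact h.irr⟩
  have m := mul_mem (mul_mem hz hx) (inv_mem hz)
  have yb : (z * x * z⁻¹).1 ((B a b)⁻¹ • b) = (B a b)⁻¹ • b + ((B a b)⁻¹ * c) • r := by
    have : (z * x * z⁻¹).1 b = b + c • r := by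
      rw [eq_sub_of_add_eq zb.symm, map_sub, map_smul, hr _ m, mul_app, mul_app, inv_app, xa, map_add,
        map_smul, hr z hz]
      module
    rw [map_smul, this]
    module
  rw [← pl_span3 sp] at hx m ⊢
  exact s.pl_core hH h' hx m x0 (by simpa [mul_inv_eq_one] using x0) xa yb

theorem Irr.basis (s : Sy B k) {W : Submodule F V} (h : Irr H W) {v : V} (hv : v ≠ 0) (m : v ∈ W) :
    ∃ f, B v f = 1 ∧ W = span F {v, f} := by
  obtain ⟨e, f, ef, rfl⟩ := h.1
  obtain ⟨y, hy, n⟩ : ∃ y ∈ span F {e, f}, B v y ≠ 0 := by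
    by_contra n
    push Not at n
    obtain ⟨a, b, rfl⟩ := mem_span_pair.1 m
    have e1 := n e (subset_span (by simp))
    have e2 := n f (subset_span (by simp))
    simp [ef, skew s.alt f e, s.alt.self_eq_zero] at e1 e2
    exact hv (by simp [e1, e2])
  exact ⟨(B v y)⁻¹ • y, by simp [n], (pl_span s.alt m (smul_mem _ _ hy) (by simp [n])).symm⟩

theorem Irr.kill (s : Sy B k) {W : Submodule F V} (h : Irr H W) {l : V →ₗ[F] F}
    (hl : ∀ d ∈ H, Fx d W → ∀ y ∈ W, l (d.1 y) = l y) : ∀ y ∈ W, l y = 0 := by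
  obtain ⟨⟨e, f, ef, rfl⟩, h⟩ := h
  have me : e ∈ span F {e, f} := subset_span (by simp)
  obtain ⟨d, hd, fd, n⟩ := h e me fun e0 => by simp [e0] at ef
  have p0 : d.1 e - e ≠ 0 := sub_ne_zero.2 (by simpa using n 1)
  have mp := s.sub_mem fd e
  have lp : l (d.1 e - e) = 0 := by rw [map_sub, hl d hd fd e me, sub_self]
  generalize d.1 e - e = p at p0 mp lp
  obtain ⟨d', hd', fd', n'⟩ := h p mp p0
  have mp' := s.app_mem fd' mp
  rw [← pl_span s.alt mp' mp fun e' => (pl_line s.alt ef mp p0 mp' e').elim n']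
  intro y hy
  obtain ⟨a, b, rfl⟩ := mem_span_pair.1 hy
  simp [hl d' hd' fd' p mp, lp]

/-- Let `v ≠ 0` be common, `W = ⟨v, f⟩`, `W' = ⟨v, f'⟩`, `B v f = B v f' = 1`, `r = f' - f - B(f', f) v`.  If
`r = 0` then `W = W'`.  Otherwise `PlD H v f r` (`d ∈ H`, `Fx d W` preserves `W`, and
`W ∩ ⟨p, r⟩ = ⟨p⟩`).  For `l` from `pl`, `W ∩ ker l` contains all `d p - p`; if `l` does not kill `W`, let
`0 ≠ p = d p₀ - p₀`; then all `d' p - p ∈ W ∩ ker l = ⟨p⟩`, against `Irr`.  So `l` kills `W`, `W'`, `r`. -/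
theorem Sy.irr_uniq (s : Sy B k) (hH : NoTv s.alt H) {W W' : Submodule F V} (h : Irr H W)
    (h' : Irr H W') {v : V} (hv : v ≠ 0) (m : v ∈ W) (m' : v ∈ W') : W = W' := by
  obtain ⟨f, vf, rfl⟩ := h.basis s hv m
  obtain ⟨f', vf', rfl⟩ := h'.basis s hv m'
  obtain ⟨r, hr⟩ : ∃ r, r = f' - f - B f' f • v := ⟨_, rfl⟩
  have e' : f' = B f' f • v + (1 : F) • f + (1 : F) • r := by rw [hr]; module
  by_contra ne
  have r0 : r ≠ 0 := fun r0 => ne (pl_span s.alt m (mem_span_pair.2 ⟨B f' f, 1, by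
    simpa [r0] using e'.symm⟩) (by simp [vf'])).symm
  have rv : B r v = 0 := by simp [hr, skew s.alt f' v, skew s.alt f v, vf, vf', s.alt.self_eq_zero]
  have rf : B r f = 0 := by simp [hr, vf, s.alt.self_eq_zero]
  have le : span F {v, f} ≤ span F {v, f, r} := fun y hy => pl_mem.2 ⟨y, hy, 0, by simp⟩
  have le' : span F {v, f'} ≤ span F {v, f, r} :=
    span_le.2 (Set.pair_subset (le m) (mem_span_triple.2 ⟨_, _, _, e'.symm⟩))
  obtain ⟨l, l0, hl⟩ := s.pl hH (H := H) (e := v) (f := f) (r := r) ⟨vf, r0, rv, rf, fun p hp p0 => by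
    obtain ⟨d, hd, fd, n⟩ := h.2 p hp p0
    refine ⟨d, ⟨hd, fd.mono le⟩, fun x => ?_⟩
    obtain ⟨a, b, e⟩ := mem_span_pair.1 x
    refine (pl_line s.alt vf hp p0 (s.app_mem fd hp) ?_).elim n
    simp [← e, s.alt.self_eq_zero, pl_perp rv rf hp]⟩
  have k := h.kill s fun d hd fd y hy => hl d ⟨hd, fd.mono le⟩ y (le hy)
  have k' := h'.kill s fun d hd fd y hy => hl d ⟨hd, fd.mono le'⟩ y (le' hy)
  exact l0 (by simp [hr, k v m, k f (subset_span (by simp)), k' f' (subset_span (by simp))])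

end Cfsg.Lib.R3S
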