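import Cfsg.Agent.Lib.R3S.Def

/-! S2195: line spreads closed under perpendiculars. -/

set_option autoImplicit false
set_option linter.unusedSectionVars false

namespace Cfsg.Lib.R3S

open Cfsg.Lib.Symp Module Submodule MulAction

variable {F V : Type*} [Field F] [AddCommGroup V] [Module F V] {B : LinearMap.BilinForm F V} {k : ℕ}
  [Finite V] {H : Subgroup (isom B)}

variable {S : Set (Submodule F V)}

/-- `U` is a union of spread lines. -/
def Cl (S : Set (Submodule F V)) (U : Submodule F V) : Prop :=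
  ∀ L ∈ S, ∀ v ∈ L, v ≠ 0 → v ∈ U → L ≤ U

/-- The non-zero vectors of `U` are partitioned by the spread lines in `U`. -/
theorem Spr.count (s : Sy B k) (h : Spr B S) {U : Submodule F V} (hU : Cl S U) :
    {L ∈ S | L ≤ U}.ncard * (Nat.card F ^ 2 - 1) = Nat.card F ^ finrank F U - 1 := by
  classical
  have : Finite (Submodule F V) := Finite.of_injective _ SetLike.coe_injective
  choose! f f1 f2 using h.cov
  have c : ∀ W : Submodule F V, ((W : Set V) \ {0}).ncard = Nat.card F ^ finrank F W - 1 := fun W => by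
    rw [Set.ncard_diff_singleton_of_mem W.zero_mem, s.card_sub]
  rw [← c U, Set.ncard_eq_toFinset_card ((U : Set V) \ {0}), Set.ncard_eq_toFinset_card {L ∈ S | L ≤ U},
    Finset.card_eq_sum_card_fiberwise (f := f) (t := (Set.toFinite {L ∈ S | L ≤ U}).toFinset) (fun v hv => by
      have hv' : v ∈ (U : Set V) \ {0} := by simpa using hv
      simpa using ⟨f1 v hv'.2, hU _ (f1 v hv'.2) v (f2 v hv'.2) hv'.2 hv'.1⟩), ← smul_eq_mul, ← Finset.sum_const]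
  refine Finset.sum_congr rfl fun L hL => ?_
  have hL' : L ∈ S ∧ L ≤ U := by simpa using hL
  rw [← h.dim L hL'.1, ← c L, ← Set.ncard_coe_finset]
  congr 1
  ext v
  simp only [Set.mem_diff, SetLike.mem_coe, Set.mem_singleton_iff, Finset.coe_filter, Set.Finite.mem_toFinset,
    Set.mem_setOf_eq]
  exact ⟨fun ⟨a, b⟩ => ⟨⟨hL'.2 a, b⟩, h.uniq _ (f1 v b) L hL'.1 v b (f2 v b) a⟩,
    fun ⟨⟨_, b⟩, e⟩ => ⟨e ▸ f2 v b, b⟩⟩

omit [Finite V] in
/-- `z ⊥ U`, `z ∈ L`, `0 ≠ y ∈ U`: the line `L'` through `y` lies in `U`, so `L' ⊥ L`. -/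
theorem Spr.cl_orth (h : Spr B S) {U : Submodule F V} (hU : Cl S U) : Cl S (B.orthogonal U) := by
  intro L hL z hz z0 zU z' hz' y hy
  by_cases e : y = 0
  · simp [e]
  obtain ⟨L', hL', m⟩ := h.cov y e
  exact h.perp L' hL' L hL z hz z0 (fun y' hy' => zU y' (hU L' hL' y m e hy hy')) y m z' hz'

omit [Finite V] in
theorem Spr.cl_mem (h : Spr B S) {L : Submodule F V} (hL : L ∈ S) : Cl S L := by
  exact fun L' hL' v hv v0 m => (h.uniq L' hL' L hL v v0 hv m).le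

omit [Finite V] in
theorem mem_orth_sup {L L' : Submodule F V} {z : V} :
    z ∈ B.orthogonal (L ⊔ L') ↔ z ∈ B.orthogonal L ∧ z ∈ B.orthogonal L' :=
  ⟨fun h => ⟨fun y hy => h y (mem_sup_left hy), fun y hy => h y (mem_sup_right hy)⟩, fun h y hy => by
    obtain ⟨a, ha, b, hb, rfl⟩ := mem_sup.1 hy
    have e1 : B a z = 0 := h.1 a ha
    have e2 : B b z = 0 := h.2 b hb
    change B (a + b) z = 0
    simp [e1, e2]⟩

/-- `L ⊔ L' = (L^⊥ ⊓ L'^⊥)^⊥`. -/
theorem Spr.cl_sup (s : Sy B k) (h : Spr B S) {L L' : Submodule F V} (hL : L ∈ S) (hL' : L' ∈ S) :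
    Cl S (L ⊔ L') := by
  rw [← s.orth_orth (L ⊔ L')]
  refine h.cl_orth fun M hM v hv v0 m z hz => mem_orth_sup.2 ⟨?_, ?_⟩
  · exact h.cl_orth (h.cl_mem hL) M hM v hv v0 (mem_orth_sup.1 m).1 hz
  · exact h.cl_orth (h.cl_mem hL') M hM v hv v0 (mem_orth_sup.1 m).2 hz

/-- `A^n = J` for `n ≥ 2`; `FiniteField.trace_pow_card`. -/
theorem baer {K Y : Type*} [Field K] [Fintype K] [Fintype Y] [DecidableEq Y] (A : Matrix Y Y K)
    (h0 : ∀ y, A y y = 0) (h1 : (Fintype.card Y : K) = 1) (h2 : A * A = Matrix.of fun _ _ => 1)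
    (h3 : A * (Matrix.of fun _ _ => 1 : Matrix Y Y K) = Matrix.of fun _ _ => 1) : False := by
  have p : ∀ n, A ^ (n + 2) = Matrix.of fun _ _ => 1 := fun n => by
    induction n with
    | zero => rw [zero_add, pow_two, h2]
    | succ n ih => rw [add_right_comm, pow_succ', ih, h3]
  obtain ⟨n, hn⟩ := Nat.exists_eq_add_of_le' (Fintype.one_lt_card (α := K))
  have t := FiniteField.trace_pow_card A
  have t0 : A.trace = 0 := by simp [Matrix.trace, h0]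
  rw [t0, zero_pow Fintype.card_ne_zero, hn, p] at t
  simp [Matrix.trace, h1] at t

theorem Spr.cnt_one (s : Sy B k) (h : Spr B S) {U : Submodule F V} (hU : Cl S U) (h0 : finrank F U ≠ 0) :
    ({L ∈ S | L ≤ U}.ncard : F) = 1 := by
  have := s.fin
  have q := s.three_le
  have e := congrArg (Nat.cast : ℕ → F) (h.count s hU)
  rw [Nat.cast_mul, Nat.cast_sub (Nat.one_le_pow _ _ (by omega)), Nat.cast_sub (Nat.one_le_pow _ _ (by omega))] at e
  have := Fintype.ofFinite F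
  simpa [h0] using e

theorem fr_sup (L L' : Submodule F V) : finrank F ↥(L ⊔ L') ≤ finrank F L + finrank F L' :=
  finrank_add_le_finrank_add_finrank L L'

/-- Otherwise let `A L L' = 1` if `L ⊥ L'`, over `F`.  By `count`, the number of spread lines in a closed
`U ≠ 0` is `1` in `F` (`q = 0`).  Use `U = ⊤`, `L^⊥`, `(L ⊔ L')^⊥` (dimension at least `2 k - 4 > 0`). -/
theorem Spr.ex_iso (s : Sy B k) (h : Spr B S) : ∃ L ∈ S, ∀ u ∈ L, ∀ v ∈ L, B u v = 0 := by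
  classical
  by_contra! n
  have := s.fin
  have := Fintype.ofFinite F
  have : Finite (Submodule F V) := Finite.of_injective _ SetLike.coe_injective
  have := Fintype.ofFinite S
  have k3 := s.k3
  have sb : ∀ U : Submodule F V, Cl S U → finrank F U ≠ 0 → ∑ M : S, (if M.1 ≤ U then (1 : F) else 0) = 1 :=
    fun U a b => by
      rw [Finset.sum_boole, ← h.cnt_one s a b, ← Set.ncard_coe_finset,
        ← Set.ncard_image_of_injective _ Subtype.val_injective]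
      congr 2
      ext L
      simp [and_comm]
  have sy : ∀ L M : Submodule F V, L ≤ B.orthogonal M → M ≤ B.orthogonal L := fun L M e z hz y hy =>
    s.alt.isRefl _ _ (e hy z hz)
  refine baer (K := F) (Y := S) (Matrix.of fun L M => if M.1 ≤ B.orthogonal L.1 then 1 else 0) (fun L => ?_) ?_ ?_ ?_
  · obtain ⟨u, hu, v, hv, e⟩ := n L.1 L.2
    exact if_neg fun l => e (l hv u hu)
  · simpa using sb ⊤ (fun _ _ _ _ _ _ => le_top) (by rw [finrank_top, s.dim]; omega)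
  · ext L L'
    have d := s.finrank_orth (L.1 ⊔ L'.1)
    have d' := fr_sup L.1 L'.1
    rw [h.dim _ L.2, h.dim _ L'.2] at d'
    rw [Matrix.mul_apply, Matrix.of_apply]
    refine (Finset.sum_congr rfl fun M _ => ?_).trans (sb _ (h.cl_orth (h.cl_sup s L.2 L'.2)) (by omega))
    simp only [Matrix.of_apply, ite_zero_mul_ite_zero, mul_one]
    exact if_congr ⟨fun e z hz => mem_orth_sup.2 ⟨e.1 hz, sy _ _ e.2 hz⟩, fun e =>
      ⟨fun z hz => (mem_orth_sup.1 (e hz)).1, sy _ _ fun z hz => (mem_orth_sup.1 (e hz)).2⟩⟩ rfl rfl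
  · ext L L'
    have d := s.finrank_orth L.1
    rw [h.dim _ L.2] at d
    simpa [Matrix.mul_apply] using sb _ (h.cl_orth (h.cl_mem L.2)) (by omega)

open scoped Pointwise

omit [Finite V] in
theorem app_mem_smul (g : isom B) {L : Submodule F V} {x : V} (hx : x ∈ L) : g.1 x ∈ g • L := ⟨x, hx, rfl⟩

omit [Finite V] in
theorem of_mem_smul {g : isom B} {L : Submodule F V} {y : V} (hy : y ∈ g • L) : ∃ x ∈ L, g.1 x = y := hy

omit [Finite V] in
theorem fr_smul (g : isom B) (L : Submodule F V) : finrank F ↥(g • L) = finrank F L :=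
  LinearEquiv.finrank_map_eq g.1 L

omit [Finite V] in
theorem smul_eq_of_fix {g : isom B} {L : Submodule F V} (h : ∀ x ∈ L, g.1 x = x) : g • L = L :=
  le_antisymm (fun y hy => by obtain ⟨x, hx, rfl⟩ := of_mem_smul hy; rwa [h x hx])
    fun x hx => h x hx ▸ app_mem_smul g hx

theorem ex_ker {L : Submodule F V} (h : finrank F L = 2) (u : V) : ∃ z ∈ L, z ≠ 0 ∧ B z u = 0 := by
  obtain ⟨z, hz, z0⟩ := (Submodule.ne_bot_iff _).1
    (LinearMap.ker_ne_bot_of_finrank_lt (f := (B.flip u).domRestrict L) (by simp [h]))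
  exact ⟨z, z.2, fun e => z0 (Subtype.ext e), hz⟩

theorem fr_pair (u w : V) : finrank F (span F {u, w}) ≤ 2 := by
  have : ∀ x : V, finrank F (span F {x}) ≤ 1 := fun x => by
    by_cases e : x = 0
    · rw [e, span_zero_singleton, finrank_bot]; omega
    · exact (finrank_span_singleton e).le
  rw [span_insert]
  exact (fr_sup _ _).trans (add_le_add (this u) (this w))

omit [Finite V] in
theorem fr_pair_eq {u w : V} (h : ∀ c d : F, c • u + d • w = 0 → c = 0 ∧ d = 0) : finrank F (span F {u, w}) = 2 := by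
  have := finrank_span_eq_card (LinearIndependent.pair_iff.2 h)
  rwa [Matrix.range_cons, Matrix.range_cons, Matrix.range_empty, Set.union_empty, Set.singleton_union,
    Fintype.card_fin] at this

theorem eq_pair {L : Submodule F V} (hL : finrank F L = 2) {u w : V} (hu : u ∈ L) (hw : w ∈ L)
    (h : ∀ c d : F, c • u + d • w = 0 → c = 0 ∧ d = 0) : L = span F {u, w} :=
  (eq_of_le_of_finrank_eq (span_le.2 (Set.pair_subset hu hw)) ((fr_pair_eq h).trans hL.symm)).symm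

/-- `⊇`: `L ⊥ u` is fixed.  `⊆`: `L ∩ u^⊥ ∋ z ≠ 0` is fixed, so `t L = L`; if `B y u ≠ 0` for some `y ∈ L`
then `u ∈ L`, `B y u = 0`; so `u ⊥ L`, `L₀ ⊥ L`. -/
theorem Spr.one_tv (s : Sy B k) (h : Spr B S) (iso : ∀ L ∈ S, ∀ u ∈ L, ∀ v ∈ L, B u v = 0)
    {L₀ : Submodule F V} (h0 : L₀ ∈ S) {u : V} (hu : u ∈ L₀) (hu0 : u ≠ 0) :
    {L ∈ S | tv s.alt u 1 • L ∈ S} = {L ∈ S | L ≤ B.orthogonal L₀} := by
  ext L
  refine and_congr_right fun hL => ⟨fun m => ?_, fun l => ?_⟩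
  · obtain ⟨z, hz, z0, e⟩ := ex_ker (B := B) (h.dim L hL) u
    have e1 := h.uniq L hL _ m z z0 hz (tv_fix s.alt 1 e ▸ app_mem_smul _ hz)
    refine fun y hy z' hz' => s.alt.isRefl _ _ (h.perp L hL L₀ h0 u hu hu0 (fun y hy => ?_) y hy z' hz')
    by_contra n
    have e2 := L.sub_mem (e1.ge (app_mem_smul _ hy)) hy
    rw [tv_apply, add_sub_cancel_left, one_mul] at e2
    exact n (iso L hL y hy u ((L.smul_mem_iff n).1 e2))
  · rwa [smul_eq_of_fix fun x hx => tv_fix s.alt 1 (s.alt.isRefl _ _ (l hx u hu))]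

theorem Spr.fr_four (h : Spr B S) {L₁ L₂ : Submodule F V} (h1 : L₁ ∈ S) (h2 : L₂ ∈ S) (hne : L₁ ≠ L₂) :
    finrank F ↥(L₁ ⊔ L₂) = 4 := by
  have e : L₁ ⊓ L₂ = ⊥ := (Submodule.eq_bot_iff _).2 fun v hv => by_contra fun v0 =>
    hne (h.uniq _ h1 _ h2 v v0 hv.1 hv.2)
  have := finrank_sup_add_finrank_inf_eq L₁ L₂
  rw [e, finrank_bot, h.dim _ h1, h.dim _ h2] at this
  omega

/-- `M = L₁ ⊔ L₂` has dimension `4`.  `g y - y ∈ ⟨u, w⟩`, and `g y = y` iff `y ⊥ u, w`.  If `L ⊥ u, w`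
then `L ⊥ M`.  Otherwise take `y ∈ L`, `z = g y - y ≠ 0`, `z ∈ M`.  If `g L = L` then `z ∈ L`, `L ≤ M`
(`cl_sup`).  If not, `g` fixes no non-zero vector of `L`, so `y ↦ g y - y` maps `L` onto `⟨u, w⟩`;
`L ⊔ g L` is closed and contains `u, w`, so contains `M`, and has dimension at most `4`. -/
theorem Spr.two_tv (s : Sy B k) (h : Spr B S) {L₁ L₂ : Submodule F V} (h1 : L₁ ∈ S) (h2 : L₂ ∈ S)
    (hne : L₁ ≠ L₂) {u w : V} (hu : u ∈ L₁) (hu0 : u ≠ 0) (hw : w ∈ L₂) (hw0 : w ≠ 0) {a b : F}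
    (ha : a ≠ 0) (hb : b ≠ 0) :
    {L ∈ S | L ≤ B.orthogonal (L₁ ⊔ L₂)} ⊆ {L ∈ S | (tv s.alt u a * tv s.alt w b) • L ∈ S} ∧
    {L ∈ S | (tv s.alt u a * tv s.alt w b) • L ∈ S} ⊆
      {L ∈ S | L ≤ B.orthogonal (L₁ ⊔ L₂)} ∪ {L ∈ S | L ≤ L₁ ⊔ L₂} := by
  generalize hg : tv s.alt u a * tv s.alt w b = g
  have ap : ∀ y, g.1 y - y = (a * B (y + (b * B y w) • w) u) • u + (b * B y w) • w := fun y => by
    rw [← hg, mul_app, tv_apply, tv_apply]; module
  have li : ∀ c d : F, c • u + d • w = 0 → c = 0 ∧ d = 0 := fun c d e => by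
    have c0 : c = 0 := by_contra fun n => hne (h.uniq _ h1 _ h2 u hu0 hu ((L₂.smul_mem_iff n).1
      (by rw [eq_neg_of_add_eq_zero_left e]; exact L₂.neg_mem (L₂.smul_mem _ hw))))
    exact ⟨c0, by simpa [c0, hw0] using e⟩
  have fx : ∀ y, g.1 y - y = 0 ↔ B y u = 0 ∧ B y w = 0 := fun y => by
    rw [ap]
    refine ⟨fun e => ?_, fun e => by simp [e.1, e.2]⟩
    obtain ⟨e1, e2⟩ := li _ _ e
    exact ⟨by simpa [e2, ha] using e1, by simpa [hb] using e2⟩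
  have sp : ∀ y, g.1 y - y ∈ span F {u, w} := fun y => mem_span_pair.2 ⟨_, _, (ap y).symm⟩
  have sM : span F {u, w} ≤ L₁ ⊔ L₂ := span_le.2 (Set.pair_subset (mem_sup_left hu) (mem_sup_right hw))
  refine ⟨fun L hL => ⟨hL.1, ?_⟩, fun L hL => ?_⟩
  · rw [smul_eq_of_fix fun x hx => sub_eq_zero.1 ((fx x).2 ⟨s.alt.isRefl _ _ (hL.2 hx u (mem_sup_left hu)),
      s.alt.isRefl _ _ (hL.2 hx w (mem_sup_right hw))⟩)]
    exact hL.1
  by_cases c : ∀ y ∈ L, g.1 y - y = 0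
  · exact .inl ⟨hL.1, fun y hy => mem_orth_sup.2
      ⟨fun z hz => s.alt.isRefl _ _ (h.perp L hL.1 L₁ h1 u hu hu0 (fun y hy => ((fx y).1 (c y hy)).1) y hy z hz),
        fun z hz => s.alt.isRefl _ _ (h.perp L hL.1 L₂ h2 w hw hw0 (fun y hy => ((fx y).1 (c y hy)).2) y hy z hz)⟩⟩
  refine .inr ⟨hL.1, ?_⟩
  by_cases e : L = g • L
  · push Not at c
    obtain ⟨y, hy, y0⟩ := c
    exact h.cl_sup s h1 h2 L hL.1 _ (L.sub_mem (e.ge (app_mem_smul g hy)) hy) y0 (sM (sp y))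
  let φ := ((g.1 : V →ₗ[F] V) - LinearMap.id).domRestrict L
  have i : Function.Injective φ := (injective_iff_map_eq_zero φ).2 fun y hy => Subtype.ext (by_contra fun y0 =>
    e (h.uniq _ hL.1 _ hL.2 y y0 y.2 ((sub_eq_zero.1 hy : g.1 y = y) ▸ app_mem_smul g y.2)))
  have r : LinearMap.range φ = span F {u, w} := eq_of_le_of_finrank_le (by rintro _ ⟨y, rfl⟩; exact sp y)
    (by rw [LinearMap.finrank_range_of_inj i, h.dim L hL.1]; exact fr_pair u w)
  have r' : span F {u, w} ≤ L ⊔ g • L := r ▸ by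
    rintro _ ⟨y, rfl⟩
    exact sub_mem (mem_sup_right (app_mem_smul g y.2)) (mem_sup_left y.2)
  have cl := h.cl_sup s hL.1 hL.2
  have d := fr_sup L (g • L)
  rw [fr_smul, h.dim L hL.1] at d
  exact le_sup_left.trans (eq_of_le_of_finrank_le (sup_le (cl _ h1 u hu hu0 (r' (subset_span (by simp))))
    (cl _ h2 w hw hw0 (r' (subset_span (by simp))))) (by rw [h.fr_four h1 h2 hne]; exact d)).ge

/-- `R3.set` for `O = S`; multiply all counts by `q² - 1`.  `g₁ = tv u 1`: `q^(2k-2) - 1`.  `g₃`: take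
`w ∈ L(u)^⊥ \ L(u)`; `M = L(u) ⊔ L(w)` is totally isotropic of dimension `4`, so `k ≥ 4`, `M ≤ M^⊥`, and the
count is `q^(2k-4) - 1`.  `g₂`: take `B x₁ y₁ ≠ 0`, `L ∋ x₁`, `L' ∋ y₁`, `0 ≠ x₂ ∈ L ∩ y₁^⊥`, `y₂ ∈ L'` with
`B x₂ y₂ ≠ 0` (else `L ⊥ L'`), `w = y₁ - x₁`, `u = y₂ - x₂ ∉ L(w)` (otherwise replace `y₂` by `-y₂`: if both
lie in `L(w)` then `x₂, y₂ ∈ L(w)`).  `g₂ = tv u (B x₂ y₂)⁻¹ * tv w (B x₁ y₁)⁻¹` maps `x₁, x₂` to `y₁, y₂`, so
`L` to `L'`, and `L` is not perpendicular to `w`.  The count is larger than `q^(2k-4) - 1` and at most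
`q^(2k-4) - 1 + q^4 - 1 < q^(2k-2) - 1`. -/
theorem Spr.false_iso (s : Sy B k) (h : Spr B S) (iso : ∀ L ∈ S, ∀ u ∈ L, ∀ v ∈ L, B u v = 0)
    (inv : ∀ g ∈ H, ∀ L ∈ S, g • L ∈ S) (h3 : R3 H) : False := by
  have : Finite (Submodule F V) := Finite.of_injective _ SetLike.coe_injective
  have := s.nontriv
  have k3 := s.k3
  have q3 := s.three_le
  obtain ⟨x₁, x0⟩ := exists_ne (0 : V)
  obtain ⟨y₁, e1⟩ := s.ex_one x0
  have y0 : y₁ ≠ 0 := fun e => by simp [e] at e1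
  obtain ⟨L, hL, m1⟩ := h.cov x₁ x0
  obtain ⟨L', hL', n1⟩ := h.cov y₁ y0
  -- the isotropic four-space
  have dL := s.finrank_orth L
  rw [h.dim L hL] at dL
  obtain ⟨w', w1, w2⟩ : ∃ w' ∈ B.orthogonal L, w' ∉ L := by
    by_contra! e
    have := finrank_mono (show B.orthogonal L ≤ L from e)
    rw [h.dim L hL] at this
    omega
  have w0 : w' ≠ 0 := fun e => w2 (e ▸ L.zero_mem)
  obtain ⟨M, hM, w3⟩ := h.cov w' w0
  have mL : M ≤ B.orthogonal L := h.cl_orth (h.cl_mem hL) M hM w' w3 w0 w1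
  have nM : L ≠ M := fun e => w2 (e ▸ w3)
  have iM : L ⊔ M ≤ B.orthogonal (L ⊔ M) := sup_le
    (fun z hz => mem_orth_sup.2 ⟨fun y hy => iso L hL y hy z hz, fun y hy => s.alt.isRefl _ _ (mL hy z hz)⟩)
    fun z hz => mem_orth_sup.2 ⟨mL hz, fun y hy => iso M hM y hy z hz⟩
  have k4 := s.iso_le (U := L ⊔ M) fun u hu v hv => iM hv u hu
  rw [h.fr_four hL hM nM] at k4
  -- the second element
  obtain ⟨x₂, m2, x2, e2⟩ := ex_ker (B := B) (h.dim L hL) y₁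
  obtain ⟨y, n2, e3⟩ : ∃ y ∈ L', B x₂ y ≠ 0 := by
    by_contra! e
    have := h.perp L' hL' L hL x₂ m2 x2 (fun y hy => s.alt.isRefl _ _ (e y hy)) y₁ n1 x₁ m1
    rw [s.alt.isRefl _ _ this] at e1
    exact zero_ne_one e1
  have e4 : B x₁ (y₁ - x₁) = 1 := by simp [e1, s.alt.self_eq_zero]
  have v0 : y₁ - x₁ ≠ 0 := fun e => by simp [e] at e4
  obtain ⟨L₂, h2, v2⟩ := h.cov _ v0
  obtain ⟨y₂, n2, e3, u2⟩ : ∃ y₂ ∈ L', B x₂ y₂ ≠ 0 ∧ y₂ - x₂ ∉ L₂ := by
    by_contra! e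
    have a := e y n2 e3
    have b := e (-y) (L'.neg_mem n2) (by simpa using e3)
    refine e3 (iso L₂ h2 _ ((L₂.smul_mem_iff s.two).1 ?_) _ ((L₂.smul_mem_iff s.two).1 ?_))
    · convert L₂.neg_mem (L₂.add_mem a b) using 1; module
    · convert L₂.sub_mem a b using 1; module
  have u0 : y₂ - x₂ ≠ 0 := fun e => u2 (e ▸ L₂.zero_mem)
  obtain ⟨L₁, h1, u1⟩ := h.cov _ u0
  have n12 : L₁ ≠ L₂ := fun e => u2 (e ▸ u1)
  obtain ⟨t1, t2⟩ := h.two_tv s h1 h2 n12 u1 u0 v2 v0 (inv_ne_zero e3) one_ne_zero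
  obtain ⟨-, t3⟩ := h.two_tv s hL hM nM m1 x0 w3 w0 one_ne_zero one_ne_zero
  have gL : (tv s.alt (y₂ - x₂) (B x₂ y₂)⁻¹ * tv s.alt (y₁ - x₁) 1) • L = L' := by
    refine eq_of_le_of_finrank_eq (fun z hz => ?_) (by rw [fr_smul, h.dim L hL, h.dim L' hL'])
    obtain ⟨x, hx, rfl⟩ := of_mem_smul hz
    rw [eq_pair (h.dim L hL) m1 m2 fun c d e => by
      have c0 : c = 0 := by simpa [e1, e2] using congrArg (B · y₁) e
      exact ⟨c0, by simpa [c0, x2] using e⟩] at hx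
    obtain ⟨c, d, rfl⟩ := mem_span_pair.1 hx
    have a1 : (tv s.alt (y₁ - x₁) 1).1 x₁ = y₁ := by rw [tv_apply, e4]; simp
    have a2 : (tv s.alt (y₁ - x₁) 1).1 x₂ = x₂ := tv_fix _ _ (by simp [e2, iso L hL x₂ m2 x₁ m1])
    have a3 : (tv s.alt (y₂ - x₂) (B x₂ y₂)⁻¹).1 y₁ = y₁ :=
      tv_fix _ _ (by simp [s.alt.isRefl _ _ e2, iso L' hL' y₁ n1 y₂ n2])
    have a4 : (tv s.alt (y₂ - x₂) (B x₂ y₂)⁻¹).1 x₂ = y₂ := by
      rw [tv_apply]; simp [s.alt.self_eq_zero, inv_mul_cancel₀ e3]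
    rw [map_add, map_smul, map_smul, mul_app, mul_app, a1, a2, a3, a4]
    exact L'.add_mem (L'.smul_mem _ n1) (L'.smul_mem _ n2)
  have c0 := h.count s (U := ⊤) fun _ _ _ _ _ _ => le_top
  have c1 := h.count s (h.cl_orth (h.cl_mem hL))
  have c2 := h.count s (h.cl_orth (h.cl_sup s h1 h2))
  have c3 := h.count s (h.cl_sup s h1 h2)
  have c4 := h.count s (h.cl_orth (h.cl_sup s hL hM))
  have d2 := s.finrank_orth (L₁ ⊔ L₂)
  have d4 := s.finrank_orth (L ⊔ M)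
  rw [h.fr_four h1 h2 n12] at d2 c3
  rw [h.fr_four hL hM nM] at d4
  obtain ⟨j, rfl⟩ := Nat.exists_eq_add_of_le' k4
  rw [finrank_top, s.dim, show 2 * (j + 4) = 2 * j + 4 + 2 + 2 by ring] at c0
  rw [show finrank F (B.orthogonal L) = 2 * j + 4 + 2 by omega] at c1
  rw [show finrank F (B.orthogonal (L₁ ⊔ L₂)) = 2 * j + 4 by omega] at c2
  rw [show finrank F (B.orthogonal (L ⊔ M)) = 2 * j + 4 by omega] at c4
  have p1 : Nat.card F ^ 4 ≤ Nat.card F ^ (2 * j + 4) := Nat.pow_le_pow_right (by omega) (by omega)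
  have p2 : 9 ≤ Nat.card F ^ 2 := Nat.pow_le_pow_left q3 2
  have p3 : 0 < Nat.card F ^ 4 := by positivity
  rw [pow_add _ (2 * j + 4 + 2) 2, pow_add _ (2 * j + 4) 2] at c0
  rw [pow_add _ (2 * j + 4) 2] at c1
  have p4 := Nat.mul_le_mul_left (Nat.card F ^ (2 * j + 4)) p2
  have p5 := Nat.mul_le_mul_left (Nat.card F ^ (2 * j + 4) * Nat.card F ^ 2) p2
  have cp : 0 < Nat.card F ^ 2 - 1 := by omega
  refine h3.set S inv (tv s.alt x₁ 1) (tv s.alt (y₂ - x₂) (B x₂ y₂)⁻¹ * tv s.alt (y₁ - x₁) 1)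
    (tv s.alt x₁ 1 * tv s.alt w' 1) ?_ ?_ ?_
  · rw [h.one_tv s iso hL m1 x0]
    refine Nat.lt_of_mul_lt_mul_right (a := Nat.card F ^ 2 - 1) ?_
    simp only [le_top, and_true, Set.setOf_mem_eq] at c0
    rw [c1, c0]
    omega
  · rw [h.one_tv s iso hL m1 x0]
    refine ((Set.ncard_le_ncard t2).trans (Set.ncard_union_le _ _)).trans_lt
      (Nat.lt_of_mul_lt_mul_right (a := Nat.card F ^ 2 - 1) ?_)
    rw [c1, add_mul, c2, c3]
    omega
  · refine (Set.ncard_le_ncard (t3.trans (Set.union_subset le_rfl fun N hN => ⟨hN.1, hN.2.trans iM⟩))).trans_lt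
      ((Nat.eq_of_mul_eq_mul_right cp (c4.trans c2.symm)).trans_lt
        (Set.ncard_lt_ncard ⟨t1, fun e => ?_⟩))
    have := (e ⟨hL, gL ▸ hL'⟩).2 m1 _ (mem_sup_right v2)
    exact zero_ne_one ((s.alt.isRefl _ _ this).symm.trans e4)

end Cfsg.Lib.R3S
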