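import Cfsg.Agent.Lib.R3S.PL
import Cfsg.Agent.Lib.R3S.Spr

/-! S2195: a point-transitive group without transvections has no irreducible `H ∩ SL(W)`, no split elements. -/

set_option autoImplicit false

namespace Cfsg.Lib.R3S

open Cfsg.Lib.Symp Module Submodule MulAction

variable {F V : Type*} [Field F] [AddCommGroup V] [Module F V] {B : LinearMap.BilinForm F V} {k : ℕ}
  [Finite V] {H : Subgroup (isom B)}

omit [Finite V] in
theorem Fx.conj {d g : isom B} {W W' : Submodule F V} (h : Fx d W) (m : ∀ u ∈ W, g.1 u ∈ W') :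
    Fx (g * d * g⁻¹) W' := fun y hy => by
  rw [mul_app, mul_app, h _ fun u hu => by rw [← isom_apply g, app_inv, hy _ (m u hu)], app_inv]

omit [Finite V] in
/-- Conjugate by `h`. -/
theorem Irr.map {W : Submodule F V} (h : Irr H W) {g : isom B} (hg : g ∈ H) :
    Irr H (W.map (g.1 : V →ₗ[F] V)) := by
  obtain ⟨⟨e, f, ef, rfl⟩, h⟩ := h
  refine ⟨⟨g.1 e, g.1 f, by rw [isom_apply, ef], by simp [map_span, Set.image_pair]⟩, ?_⟩
  rintro _ ⟨p, hp, rfl⟩ p0
  obtain ⟨d, hd, fd, n⟩ := h p hp fun e => p0 (by simp [e])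
  refine ⟨g * d * g⁻¹, H.mul_mem (H.mul_mem hg hd) (H.inv_mem hg), fd.conj fun u hu => ⟨u, hu, rfl⟩,
    fun c e => n c (g.1.injective ?_)⟩
  rw [map_smul]
  exact (congrArg (fun x => g.1 (d.1 x)) (inv_app g p)).symm.trans e

/-- The `Irr` lines form a spread: `cov` by `Tr`, `Irr.map`; `uniq` is `irr_uniq`.  `perp`: let
`0 ≠ z ∈ L' ∩ L^⊥`.  For `d ∈ H` with `Fx d L`, `d L'` is `Irr` and contains `z`, so `d L' = L'`.  Write
`z' ∈ L'` as `a + b`, `a ∈ L`, `b ⊥ L` (`proj_perp`).  If `a ≠ 0` take `d` with `d a ≠ a`; then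
`0 ≠ d z' - z' = d a - a ∈ L ∩ L'`, `L = L'`, so `z ∈ L ∩ L^⊥ = 0`.  `Spr.ex_iso` contradicts `B e f = 1`. -/
theorem Sy.not_irr (s : Sy B k) (hH : NoTv s.alt H) (t : Tr H) (W : Submodule F V) : ¬ Irr H W := by
  intro h
  have sp : Spr B {L | Irr H L} := by
    refine ⟨?_, fun v hv => ?_, fun L a L' b v hv => s.irr_uniq hH a b hv, fun L hL L' hL' z hz z0 zp => ?_⟩
    · rintro _ ⟨⟨e, f, ef, rfl⟩, -⟩
      have := finrank_span_eq_card (linearIndependent_pair_of_ne_zero s.alt (x := e) (y := f) (by simp [ef]))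
      rwa [Matrix.range_cons_cons_empty] at this
    · obtain ⟨e, f, ef, e'⟩ := h.1
      have e0 : e ≠ 0 := fun e0 => by simp [e0] at ef
      obtain ⟨g, hg, c, m⟩ := t e v e0 hv
      refine ⟨_, h.map hg, (smul_mem_iff _ fun c0 => app_ne g e0 (by rw [m, c0, zero_smul])).1
        ⟨e, e' ▸ subset_span (by simp), m⟩⟩
    obtain ⟨e, f, ef, rfl⟩ := hL.1
    have me : e ∈ span F {e, f} := subset_span (by simp)
    have mf : f ∈ span F {e, f} := subset_span (by simp)
    intro y hy z' hz'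
    obtain ⟨p1, p2⟩ := proj_perp s.alt ef z'
    have ma : B z' f • e + B e z' • f ∈ span F {e, f} := mem_span_pair.2 ⟨_, _, rfl⟩
    rw [sub_sub] at p1 p2
    generalize B z' f • e + B e z' • f = a at *
    have pp : ∀ y ∈ span F {e, f}, B y (z' - a) = 0 := fun y hy => by
      obtain ⟨α, β, rfl⟩ := mem_span_pair.1 hy
      rw [map_add, map_smul, map_smul, LinearMap.add_apply, LinearMap.smul_apply, LinearMap.smul_apply, p1, p2]
      simp
    by_cases a0 : a = 0
    · simpa [a0] using pp y hy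
    obtain ⟨d, hd, fd, n⟩ := hL.2 a ma a0
    have e1 := s.irr_uniq hH (hL'.map hd) hL' z0 ⟨z, hz, fd z zp⟩ hz
    have e2 : d.1 z' - z' = d.1 a - a := by
      have := fd _ pp
      rw [map_sub] at this
      linear_combination (norm := module) this
    have e3 := s.irr_uniq hH hL hL' (sub_ne_zero.2 (by simpa using n 1)) (s.sub_mem fd a)
      (e2 ▸ L'.sub_mem (e1.le ⟨z', hz', rfl⟩) hz')
    obtain ⟨α, β, rfl⟩ := mem_span_pair.1 (e3.ge hz)
    have k1 := zp e me
    have k2 := zp f mf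
    simp [s.alt.self_eq_zero, ef, skew s.alt f e] at k1 k2
    exact (z0 (by simp [k1, k2])).elim
  obtain ⟨_, ⟨⟨e, f, ef, rfl⟩, -⟩, iso⟩ := sp.ex_iso s
  exact zero_ne_one ((iso e (subset_span (by simp)) f (subset_span (by simp))).symm.trans ef)

/-- A split semisimple element of `H ∩ SL ⟨a, b⟩`. -/
structure Spl (H : Subgroup (isom B)) (d : isom B) (a b : V) (ν : F) : Prop where
  mem : d ∈ H
  ab : B a b ≠ 0
  da : d.1 a = ν • a
  db : ν • d.1 b = b
  fx : Fx d (span F {a, b})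
  nsq : ¬ IsSquare ν
  sq : ν ^ 2 ≠ 1

omit [Finite V] in
theorem Spl.ne {d : isom B} {a b : V} {ν : F} (h : Spl H d a b ν) : ν ≠ 0 :=
  fun e => h.nsq (e ▸ IsSquare.zero)

omit [Finite V] in
theorem Spl.db' {d : isom B} {a b : V} {ν : F} (h : Spl H d a b ν) : d.1 b = ν⁻¹ • b :=
  (eq_inv_smul_iff₀ h.ne).2 h.db

omit [Finite V] in
theorem Spl.swap (hA : B.IsAlt) {d : isom B} {a b : V} {ν : F} (h : Spl H d a b ν) :
    Spl H d b a ν⁻¹ := by
  exact ⟨h.mem, by rw [skew hA, neg_ne_zero]; exact h.ab, h.db', (inv_smul_eq_iff₀ h.ne).2 h.da,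
    Set.pair_comm a b ▸ h.fx, by simpa using h.nsq, by simpa using h.sq⟩

omit [Finite V] in
theorem Spl.inv {d : isom B} {a b : V} {ν : F} (h : Spl H d a b ν) : Spl H d⁻¹ a b ν⁻¹ := by
  refine ⟨H.inv_mem h.mem, h.ab, d.1.injective ?_, d.1.injective ?_, h.fx.inv, by simpa using h.nsq,
    by simpa using h.sq⟩
  · rw [app_inv, map_smul, h.da, inv_smul_smul₀ h.ne]
  · rw [map_smul, app_inv, h.db']

omit [Finite V] in
theorem Spl.conj {d g : isom B} {a b : V} {ν : F} (h : Spl H d a b ν) (hg : g ∈ H) :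
    Spl H (g * d * g⁻¹) (g.1 a) (g.1 b) ν := by
  refine ⟨H.mul_mem (H.mul_mem hg h.mem) (H.inv_mem hg), by rw [isom_apply]; exact h.ab, ?_, ?_,
    h.fx.conj fun u hu => ?_, h.nsq, h.sq⟩
  · rw [mul_app, mul_app, inv_app, h.da, map_smul]
  · rw [mul_app, mul_app, inv_app, ← map_smul, h.db]
  · obtain ⟨x, y, rfl⟩ := mem_span_pair.1 hu
    exact mem_span_pair.2 ⟨x, y, by simp⟩

omit [Finite V] in
theorem Spl.smul {d : isom B} {a b : V} {ν : F} (h : Spl H d a b ν) {x y : F} (hx : x ≠ 0)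
    (hy : y ≠ 0) : Spl H d (x • a) (y • b) ν := by
  refine ⟨h.mem, by simp [hx, hy, h.ab], by rw [map_smul, h.da, smul_comm], by rw [map_smul, smul_comm, h.db],
    h.fx.mono (span_le.2 (Set.pair_subset (mem_span_pair.2 ⟨x⁻¹, 0, by simp [hx]⟩)
      (mem_span_pair.2 ⟨0, y⁻¹, by simp [hy]⟩))), h.nsq, h.sq⟩

theorem Sy.eq_one_of_fix (s : Sy B k) (hH : NoTv s.alt H) {x : isom B} (hx : x ∈ H) {a b : V}
    (ab : B a b ≠ 0) (fx : Fx x (span F {a, b})) (xa : x.1 a = a) : x = 1 := by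
  have a0 : a ≠ 0 := fun e => ab (by simp [e])
  obtain ⟨c, rfl⟩ := s.eq_tv (g := x) a0 fun y hy => by
    have := fx (y - (B b y / B b a) • a) fun u hu => by
      obtain ⟨α, β, rfl⟩ := mem_span_pair.1 hu
      have : B b a ≠ 0 := by rwa [skew s.alt, neg_ne_zero]
      simp [hy, s.alt.self_eq_zero, this]
    rwa [map_sub, map_smul, xa, sub_left_inj] at this
  rw [hH a c a0 hx, tv_zero]

/-- `d, d'` fix `r`.  `x = d' d⁻¹` has `x a = a + γ r`, `γ = 1 - ν⁻¹`, and `x b = b + α a + δ r`,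
`α = σ⁻¹ (1 - ν²) ≠ 0`.  If `r = 0`, `x` fixes `a^⊥ = ⟨a⟩ + ⟨a, b⟩^⊥` pointwise, so is a transvection
(`eq_tv`), `≠ 1`.  If `r ≠ 0`: `x₂ = d x d⁻¹` has `x₂ a = a + ν⁻¹ γ r`, `x₂ b = b + α ν² a + δ ν r`, and
`g = (x₂ x)⁻¹ (x x₂)` has `g a = a`, `g b = b + η r`, `η = α γ (ν² - ν⁻¹) ≠ 0` (`ν³ = 1` makes `ν = (ν²)²` a
square).  By `eq_hs` (rescale `b`), `g = hs r m`, `m = η' a + c r`, `η' ≠ 0`; `x g x⁻¹ = hs r (m + η' γ r)
= g * tv r (2 η' γ)` (`hs_tv`). -/
theorem Sy.spl_core (s : Sy B k) (hH : NoTv s.alt H) {d d' : isom B} {a b r : V} {ν σ : F}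
    (h : Spl H d a b ν) (hσ : σ ≠ 0) (ra : B r a = 0) (rb : B r b = 0)
    (h' : Spl H d' (a + r) (a + σ • b) ν) : False := by
  have sk := skew s.alt
  have ν0 := h.ne
  have ν1 : ν - 1 ≠ 0 := fun e => h.sq (by rw [sub_eq_zero.1 e, one_pow])
  have fd : Fx d (span F {a, b, r}) := h.fx.mono fun y hy => pl_mem.2 ⟨y, hy, 0, by simp⟩
  have fd' : Fx d' (span F {a, b, r}) := h'.fx.mono (span_le.2 (Set.pair_subset
    (mem_span_triple.2 ⟨1, 0, 1, by simp⟩) (mem_span_triple.2 ⟨1, σ, 0, by simp⟩)))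
  have dr := pl_r s.alt ra rb fd
  have dr' := pl_r s.alt ra rb fd'
  have da' : d'.1 a = ν • a + (ν - 1) • r := by
    have := h'.da
    rw [map_add, dr'] at this
    linear_combination (norm := module) this
  obtain ⟨x, hx⟩ : ∃ x, x = d' * d⁻¹ := ⟨_, rfl⟩
  have mx : x ∈ H := hx ▸ H.mul_mem h'.mem (H.inv_mem h.mem)
  have fx : Fx x (span F {a, b, r}) := hx ▸ fd'.mul fd.inv
  have xr := pl_r s.alt ra rb fx
  obtain ⟨γ, hγ⟩ : ∃ γ, γ = 1 - ν⁻¹ := ⟨_, rfl⟩
  obtain ⟨α, hα⟩ : ∃ α, α = σ⁻¹ * (1 - ν ^ 2) := ⟨_, rfl⟩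
  obtain ⟨δ, hδ⟩ : ∃ δ, δ = -(ν * σ⁻¹ * (ν - 1)) := ⟨_, rfl⟩
  have γ0 : γ ≠ 0 := fun e => ν1 (by rw [hγ] at e; field_simp at e; linear_combination e)
  have α0 : α ≠ 0 := hα ▸ mul_ne_zero (inv_ne_zero hσ) (sub_ne_zero.2 h.sq.symm)
  have xa : x.1 a = a + γ • r := by
    rw [hx, mul_app, h.inv.da, map_smul, da', hγ]
    match_scalars <;> field_simp
  have xb : x.1 b = b + α • a + δ • r := by
    have := h'.db
    rw [map_add, map_smul, da'] at this
    refine smul_right_injective V hσ ?_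
    simp only [hx, mul_app, h.inv.db', inv_inv, map_smul, hα, hδ]
    have e : σ • ν • d'.1 b = a + σ • b - ν • (ν • a + (ν - 1) • r) := by rw [← this]; module
    rw [e]
    match_scalars <;> field_simp
  by_cases r0 : r = 0
  · subst r0
    have := s.eq_one_of_fix hH mx h.ab (fx.mono (span_le.2 (by
      rintro _ (rfl | rfl | rfl); exacts [subset_span (by simp), subset_span (by simp), zero_mem _])))
      (by simpa using xa)
    rw [this] at xb
    exact h.ab (by simpa [α0] using congrArg (B · b) xb)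
  obtain ⟨y, hy⟩ : ∃ y, y = d * x * d⁻¹ := ⟨_, rfl⟩
  have my : y ∈ H := hy ▸ H.mul_mem (H.mul_mem h.mem mx) (H.inv_mem h.mem)
  have fy : Fx y (span F {a, b, r}) := hy ▸ (fd.mul fx).mul fd.inv
  have yr := pl_r s.alt ra rb fy
  have ya : y.1 a = a + (ν⁻¹ * γ) • r := by
    simp only [hy, mul_app, h.inv.da, map_smul, xa, map_add, h.da, dr]
    match_scalars <;> field_simp
  have yb : y.1 b = b + (α * ν ^ 2) • a + (δ * ν) • r := by
    simp only [hy, mul_app, h.inv.db', inv_inv, map_smul, xb, map_add, h.da, h.db', dr]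
    match_scalars <;> field_simp
  obtain ⟨η, hη⟩ : ∃ η, η = α * γ * (ν ^ 2 - ν⁻¹) := ⟨_, rfl⟩
  have η0 : η ≠ 0 := hη ▸ mul_ne_zero (mul_ne_zero α0 γ0) fun e => h.nsq ⟨ν ^ 2, by
    field_simp at e; linear_combination (-ν) * e⟩
  have sp := pl_span3 (pl_span s.alt (a := a) (b := (B a b)⁻¹ • b) (e := a) (f := b) (subset_span (by simp))
    (smul_mem _ _ (subset_span (by simp))) (by simp [h.ab])) r
  obtain ⟨c, hc⟩ := s.eq_hs (g := (y * x)⁻¹ * (x * y)) (e := a) (f := (B a b)⁻¹ • b) (by simp [h.ab]) r0 ra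
    (by simp [rb]) (sp ▸ (fy.mul fx).inv.mul (fx.mul fy)) (α := 0) (β := (B a b)⁻¹ * η)
    ((y * x).1.injective (by
      simp only [mul_app (y * x)⁻¹, app_inv]
      simp only [mul_app, map_add, map_smul, xa, ya, xr, yr]
      module))
    ((y * x).1.injective (by
      simp only [mul_app (y * x)⁻¹, app_inv]
      simp only [mul_app, map_add, map_smul, xa, ya, xb, yb, xr, yr, hη]
      module))
  have m : (y * x)⁻¹ * (x * y) ∈ H := H.mul_mem (H.inv_mem (H.mul_mem my mx)) (H.mul_mem mx my)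
  have m' := H.mul_mem (H.mul_mem mx m) (H.inv_mem mx)
  rw [hc] at m m'
  rw [conj_hs, xr, show x.1 ((0 : F) • (B a b)⁻¹ • b - ((B a b)⁻¹ * η) • a + c • r) =
    ((0 : F) • (B a b)⁻¹ • b - ((B a b)⁻¹ * η) • a + c • r) + (-((B a b)⁻¹ * η * γ)) • r by
      simp only [map_add, map_sub, map_smul, xa, xr]; module,
    ← hs_tv s.alt (by simp [ra, s.alt.self_eq_zero]), H.mul_mem_cancel_left m] at m'
  simpa [s.two, h.ab, η0, γ0] using hH _ _ r0 m'

/-- Here `α, β ≠ 0`.  A non-zero `p ∈ ⟨a, b⟩` with `d p ∈ ⟨p, r⟩` is a multiple of `a` or `b`, and then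
`d' p ∉ ⟨p, r⟩`: modulo `r`, `d'` has the two eigenvectors `a + b`, `α a + β b` (`α ≠ β`) with
different eigenvalues.  If `r = 0` this says `Irr H ⟨a, b⟩`.  If `r ≠ 0` it says `PlD` (rescale `b`); the
functional `l` of `pl` kills `a, b` (`ν ≠ 1`) and `α a + β b + r`, so `r`. -/
theorem Sy.spl_gen (s : Sy B k) (hH : NoTv s.alt H) (t : Tr H) {d d' : isom B} {a b r : V}
    {ν α β : F} (h : Spl H d a b ν) (hα : α ≠ 0) (hβ : β ≠ 0) (ra : B r a = 0) (rb : B r b = 0)
    (h' : Spl H d' (a + b) (α • a + β • b + r) ν) : False := by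
  have sk := skew s.alt
  have z0 := s.alt.self_eq_zero
  have ν0 := h.ne
  have ν1 : ν - 1 ≠ 0 := fun e => h.sq (by rw [sub_eq_zero.1 e, one_pow])
  have ν2 : ν ^ 2 - 1 ≠ 0 := sub_ne_zero.2 h.sq
  have ab := h.ab
  have αβ : α - β ≠ 0 := fun e => h'.ab (by simp [sub_eq_zero.1 e, z0, sk b a, sk a r, sk b r, ra, rb])
  have fd : Fx d (span F {a, b, r}) := h.fx.mono fun y hy => pl_mem.2 ⟨y, hy, 0, by simp⟩
  have fd' : Fx d' (span F {a, b, r}) := h'.fx.mono (span_le.2 (Set.pair_subset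
    (mem_span_triple.2 ⟨1, 1, 0, by simp⟩) (mem_span_triple.2 ⟨α, β, 1, by simp⟩)))
  have dr' := pl_r s.alt ra rb fd'
  have key : ∀ p ∈ span F {a, b}, p ≠ 0 → B (d.1 p) p ≠ 0 ∨ B (d'.1 p) p ≠ 0 := fun p hp p0 => by
    by_contra n
    push Not at n
    obtain ⟨x, y, rfl⟩ := mem_span_pair.1 hp
    obtain ⟨n1, n2⟩ := n
    have e : x • a + y • b = ((α * y - β * x) / (α - β)) • (a + b) +
        ((x - y) / (α - β)) • (α • a + β • b + r) - ((x - y) / (α - β)) • r := by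
      match_scalars <;> field_simp <;> ring
    have e2 := congrArg d'.1 e
    rw [map_sub, map_add d'.1 (_ • (a + b)), map_smul d'.1 _ (a + b), map_smul d'.1 _ (_ + r),
      map_smul d'.1 _ r, h'.da, h'.db', dr'] at e2
    rw [e2] at n2
    simp only [map_add, map_sub, map_smul, LinearMap.add_apply, LinearMap.sub_apply, LinearMap.smul_apply,
      smul_eq_mul, h.da, h.db', z0, sk b a, ra, rb] at n1 n2
    field_simp at n1 n2
    have k1 : x * y = 0 := mul_left_cancel₀ (mul_ne_zero ν2 ab) (by linear_combination n1)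
    have k2 : (α * y - β * x) * (x - y) = 0 :=
      mul_left_cancel₀ (mul_ne_zero ν2 ab) (by linear_combination -n2)
    rcases mul_eq_zero.1 k1 with rfl | rfl
    · exact p0 (by simp [show y = 0 by simpa [hα] using k2])
    · exact p0 (by simp [show x = 0 by simpa [hβ] using k2])
  have sp := pl_span s.alt (a := a) (b := (B a b)⁻¹ • b) (e := a) (f := b) (subset_span (by simp))
    (smul_mem _ _ (subset_span (by simp))) (by simp [ab])
  by_cases r0 : r = 0
  · subst r0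
    have le : span F {a, b, (0 : V)} ≤ span F {a, b} := span_le.2 (by
      rintro _ (rfl | rfl | rfl); exacts [subset_span (by simp), subset_span (by simp), zero_mem _])
    refine s.not_irr hH t (span F {a, b}) ⟨⟨a, _, by simp [ab], sp.symm⟩, fun p hp p0 => ?_⟩
    rcases key p hp p0 with n | n
    · exact ⟨d, h.mem, h.fx, fun c e => n (by simp [e, z0])⟩
    · exact ⟨d', h'.mem, fd'.mono le, fun c e => n (by simp [e, z0])⟩
  obtain ⟨l, l0, hl⟩ := s.pl hH (H := H) (e := a) (f := (B a b)⁻¹ • b) (r := r)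
    ⟨by simp [ab], r0, ra, by simp [rb], by
      rw [sp, pl_span3 sp]
      intro p hp p0
      have : ∀ y ∈ span F {p, r}, B y p = 0 := fun y hy => by
        obtain ⟨x, y, rfl⟩ := mem_span_pair.1 hy
        simp [z0, pl_perp ra rb hp]
      rcases key p hp p0 with n | n
      exacts [⟨d, ⟨h.mem, fd⟩, fun m => n (this _ m)⟩, ⟨d', ⟨h'.mem, fd'⟩, fun m => n (this _ m)⟩]⟩
  rw [pl_span3 sp] at hl
  have k1 := hl d ⟨h.mem, fd⟩ a (subset_span (by simp))
  have k2 := hl d ⟨h.mem, fd⟩ b (subset_span (by simp))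
  have k3 := hl d' ⟨h'.mem, fd'⟩ _ (mem_span_triple.2 ⟨α, β, 1, rfl⟩)
  rw [one_smul, h'.db'] at k3
  rw [h.da] at k1
  rw [h.db'] at k2
  simp only [map_add, map_smul, smul_eq_mul] at k1 k2 k3
  field_simp at k2 k3
  have la : l a = 0 := mul_left_cancel₀ ν1 (by linear_combination k1)
  have lb : l b = 0 := mul_left_cancel₀ ν1 (by linear_combination -k2)
  exact mul_ne_zero ν1 l0 (by rw [la, lb] at k3; linear_combination -k3)

/-- Take `g ∈ H` with `g a = c (a + b)`, `g b = α a + β b + r`, `r ⊥ a, b`; `conj`, `smul` give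
`Spl H d' (a + b) (α a + β b + r) ν`.  If `β = 0` (`α ≠ 0`): `spl_core` for `d` and `d'⁻¹`
(`swap`, `inv`, `smul`).  If `α = 0`: `spl_core` for `h.swap` and `h'.swap`.  Otherwise `spl_gen`. -/
theorem Sy.not_spl (s : Sy B k) (hH : NoTv s.alt H) (t : Tr H) {d : isom B} {a b : V} {ν : F} :
    ¬ Spl H d a b ν := by
  intro h
  have sk := skew s.alt
  have z0 := s.alt.self_eq_zero
  have ab := h.ab
  have a0 : a ≠ 0 := fun e => ab (by simp [e])
  obtain ⟨g, hg, c, e⟩ := t a (a + b) a0 fun e => ab (by simpa [z0] using congrArg (B · b) e)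
  have c0 : c ≠ 0 := fun h0 => app_ne g a0 (by simp [e, h0])
  have h' := (h.conj hg).smul (inv_ne_zero c0) one_ne_zero
  obtain ⟨α, β, r, ra, rb, e'⟩ : ∃ (α β : F) (r : V), B r a = 0 ∧ B r b = 0 ∧ g.1 b = α • a + β • b + r :=
    ⟨B (g.1 b) b / B a b, B a (g.1 b) / B a b, g.1 b - (B (g.1 b) b / B a b) • a - (B a (g.1 b) / B a b) • b,
      by simp [z0, sk b a, sk (g.1 b) a, ab], by simp [z0, ab], by module⟩
  rw [e, inv_smul_smul₀ c0, one_smul, e'] at h'
  by_cases hβ : β = 0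
  · have hα : α ≠ 0 := fun hα => h'.ab (by simp [hα, hβ, sk a r, sk b r, ra, rb])
    have := (h'.swap s.alt).inv.smul (inv_ne_zero hα) one_ne_zero
    refine s.spl_core hH h one_ne_zero (r := α⁻¹ • r) (by simp [ra]) (by simp [rb]) (d' := (g * d * g⁻¹)⁻¹) ?_
    simpa [hβ, smul_smul, hα] using this
  by_cases hα : α = 0
  · have := (h'.swap s.alt).smul (inv_ne_zero hβ) one_ne_zero
    refine s.spl_core hH (h.swap s.alt) one_ne_zero (r := β⁻¹ • r) (by simp [rb]) (by simp [ra])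
      (d' := g * d * g⁻¹) ?_
    simpa [hβ, smul_smul, hα, add_comm a b] using this
  exact s.spl_gen hH t h hα hβ ra rb h'

/-- `d = tv u a * tv w b` acts on `W = ⟨u, w⟩` with `d² = τ d - 1`, `τ = 2 - a b B(u, w)²`.  By `not_irr` it has
an eigenvector `p ∈ W`, `d p = ν p`, `(ν - 1)² = - ν a b B(u, w)²`; so `ν ≠ 0, 1` and `ν` is not a square.
If `ν = -1`, `d²` fixes `p^⊥ = ⟨p⟩ + W^⊥`, so is a transvection, `d² = 1`, and `d = -1` on `W`; but
`d w = w + a B(w, u) u`.  Take `y ∈ W` with `B p y ≠ 0`; `p' = d y - ν y` has `ν d p' = p'` and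
`B p p' = (ν⁻¹ - ν) B p y ≠ 0`.  So `Spl H d p p' ν`. -/
theorem Sy.partner_perp (s : Sy B k) (hH : NoTv s.alt H) (t : Tr H) {u w : V} {a b : F}
    (hab : ¬ IsSquare (-(a * b))) (h : tv s.alt u a * tv s.alt w b ∈ H) : B u w = 0 := by
  by_contra uw
  have sk := skew s.alt
  have z0 := s.alt.self_eq_zero
  have ab : a * b ≠ 0 := fun e => hab (by simp [e])
  have mu : u ∈ span F {u, w} := subset_span (by simp)
  have mw : w ∈ span F {u, w} := subset_span (by simp)
  have fd : Fx (tv s.alt u a * tv s.alt w b) (span F {u, w}) := (fx_tv _ mu a).mul (fx_tv _ mw b)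
  have ch : ∀ y ∈ span F {u, w}, (tv s.alt u a * tv s.alt w b).1 ((tv s.alt u a * tv s.alt w b).1 y) =
      (2 - a * b * B u w ^ 2) • (tv s.alt u a * tv s.alt w b).1 y - y := fun y hy => by
    obtain ⟨α, β, rfl⟩ := mem_span_pair.1 hy
    simp only [mul_app, tv_apply, map_add, map_smul, LinearMap.add_apply, LinearMap.smul_apply,
      smul_eq_mul, z0, sk w u]
    module
  have dw : B u ((tv s.alt u a * tv s.alt w b).1 w) = B u w := by simp [mul_app, tv_apply, z0]
  generalize tv s.alt u a * tv s.alt w b = d at *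
  have sp := pl_span s.alt mu (smul_mem _ (B u w)⁻¹ mw) (by simp [uw])
  obtain ⟨p, hp, p0, n⟩ : ∃ p ∈ span F {u, w}, p ≠ 0 ∧ ∃ ν : F, d.1 p = ν • p := by
    by_contra n
    push Not at n
    exact s.not_irr hH t _ ⟨⟨u, _, by simp [uw], sp.symm⟩, fun p hp p0 => ⟨d, h, fd, n p hp p0⟩⟩
  obtain ⟨ν, dp⟩ := n
  have q : ν ^ 2 - (2 - a * b * B u w ^ 2) * ν + 1 = 0 := by
    have := ch p hp
    rw [dp, map_smul, dp] at this
    exact (smul_eq_zero.1 (by linear_combination (norm := module) this)).resolve_right p0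
  have ν0 : ν ≠ 0 := fun e => by simp [e] at q
  obtain ⟨y, hy, py⟩ : ∃ y ∈ span F {u, w}, B p y ≠ 0 := by
    by_contra n
    push Not at n
    obtain ⟨α, β, rfl⟩ := mem_span_pair.1 hp
    have e1 := n u mu
    have e2 := n w mw
    simp [z0, sk w u, uw] at e1 e2
    exact p0 (by simp [e1, e2])
  have ν2 : ν ^ 2 - 1 ≠ 0 := fun e => by
    rcases mul_eq_zero.1 (show (ν - 1) * (ν + 1) = 0 by linear_combination e) with e | e
    · exact mul_ne_zero ab (pow_ne_zero 2 uw) (by rw [sub_eq_zero.1 e] at q; linear_combination q)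
    obtain rfl := eq_neg_of_add_eq_zero_left e
    have := s.eq_one_of_fix hH (H.mul_mem h h) py (pl_span s.alt hp hy py ▸ fd.mul fd)
      (by simp [mul_app, dp])
    have k := congrArg (B u) (ch w mw)
    rw [← mul_app, this] at k
    simp only [map_sub, map_smul, dw, smul_eq_mul] at k
    exact mul_ne_zero s.two (mul_ne_zero s.two uw) (by
      have : B u ((1 : isom B).1 w) = B u w := rfl
      linear_combination k - this + B u w * q)
  have pp : ν * B p (d.1 y - ν • y) = (1 - ν ^ 2) * B p y := by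
    have := isom_apply d p y
    rw [dp] at this
    simp only [map_sub, map_smul, LinearMap.smul_apply, smul_eq_mul] at this ⊢
    linear_combination this
  have pp' : B p (d.1 y - ν • y) ≠ 0 := fun e => mul_ne_zero ν2 py (by rw [e] at pp; linear_combination pp)
  refine s.not_spl hH t (d := d) (a := p) (b := d.1 y - ν • y) (ν := ν) ⟨h, pp', dp, ?_,
    pl_span s.alt hp (Submodule.sub_mem _ (s.app_mem fd hy) (smul_mem _ _ hy)) pp' ▸ fd, fun ⟨x, hx⟩ => ?_,
    sub_ne_zero.1 ν2⟩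
  · rw [map_sub, map_smul, ch y hy]
    match_scalars
    · linear_combination -q
    · ring
  · have x0 : x ≠ 0 := fun e => ν0 (by simp [hx, e])
    refine hab ⟨(ν - 1) / (B u w * x), ?_⟩
    field_simp
    linear_combination -q + a * b * B u w ^ 2 * hx

end Cfsg.Lib.R3S
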